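import Cfsg.Agent.H441.FPR.HeisF

/-!
# The Heisenberg lemma for the Chevalley groups: the rows
-/

set_option autoImplicit false
set_option linter.unusedSectionVars false
set_option linter.unusedVariables false
set_option maxRecDepth 100000

namespace Cfsg.Agent.H441.FPR.Heis

open CoxeterSystem Cfsg.Agent.ChevalleyStructure.CoxeterGeom Cfsg.Agent.Tits.Roots Cfsg.Agent.Tits.Core
  Cfsg.Agent.Nodes.Reps Cfsg.Agent.Nodes.BNOf Cfsg.Agent.Nodes.Coroot Cfsg.Agent.Nodes.LeviDec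
  Cfsg.Agent.Nodes.PosPair Cfsg.Agent.Nodes.StabComb Cfsg.Agent.Nodes.KindChev Cfsg.Agent.KFacts.RgdCent
  Cfsg.Agent.Nodes.Bruhat Cfsg.Agent.Nodes.OppDec Cfsg.Agent.Tits.Exchange
  Cfsg.Agent.KFacts.RgdPar Cfsg.Agent.KFacts.RgdSL Cfsg.Agent.KFacts.RgdTI Cfsg.Agent.Nodes.RGDChev
  Cfsg.Agent.ChevalleyStructure.CoxeterGeomTypes
open Cfsg.Lie Cfsg.Agent.ChevalleyStructure Cfsg.Agent.ChevalleyStructure.Elts Cfsg.Agent.ChevalleyStructure.NPerm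
open Cfsg.Agent.KFacts.RgdChevCoord Cfsg.Agent.Nodes.ChevCls
open Cfsg.Agent.H400.TwoExc Cfsg.Agent.H400.Fpr
open Cfsg.Agent.H398.FPR (UGood Good)
open Cfsg.Agent.H409 (FprRow)

universe u

variable {K : Type u} [Field K] [Fintype K]

/-- the common set up -/
theorem setup {ℓ e : ℕ} (hℓ : ℓ.Prime) (hℓK : (ℓ : K) ≠ 0) (he : 2 ≤ e) (ho : orderOf (Fintype.card K : ZMod ℓ) = e) :
    ∃ p : ℕ, p.Prime ∧ CharP K p ∧ ℓ ≠ p ∧ ¬ ℓ ∣ Fintype.card K - 1 ∧ ∃ a b : ℕ, Fintype.card K = p ^ a ∧ b ≠ 0 ∧ b ∣ a ∧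
      orderOf ((p ^ b : ℕ) : ZMod ℓ) = e ∧ ∀ t : ℕ, t ≠ 0 → p ^ t ≡ 1 [MOD ℓ] → (p ^ b) ^ e ≤ p ^ t := by
  obtain ⟨p, hpK⟩ := CharP.exists K
  have hp := CharP.char_is_prime K p
  have hℓp : ℓ ≠ p := by
    rintro rfl
    exact hℓK (CharP.cast_eq_zero K ℓ)
  obtain ⟨a, -, ha⟩ := FiniteField.card K p
  obtain ⟨b, hb, hb0, hM⟩ := exists_base (e := e) hp hℓ hℓp (a := a) (by rw [← ha]; exact ho)
  obtain ⟨hb1, hb2⟩ := hb0 a.pos.ne'
  refine ⟨p, hp, hpK, hℓp, ?_, a, b, ha, hb1, hb2, hb, hM⟩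
  intro h1
  have h2 : (Fintype.card K : ZMod ℓ) = 1 := by
    have h3 := (ZMod.natCast_eq_zero_iff _ _).2 h1
    rwa [Nat.cast_sub Fintype.card_pos, Nat.cast_one, sub_eq_zero] at h3
  rw [h2, orderOf_one] at ho
  omega

theorem dvd_pow_sub {ℓ e m : ℕ} (ho : orderOf (Fintype.card K : ZMod ℓ) = e) (hm : e ∣ m) :
    (ℓ : ℤ) ∣ (Fintype.card K : ℤ) ^ m - 1 := by
  rw [← ZMod.intCast_zmod_eq_zero_iff_dvd]
  push_cast
  rw [sub_eq_zero]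
  rw [← ho] at hm
  exact orderOf_dvd_iff_pow_eq_one.1 hm

theorem two_le_pow {p b : ℕ} (hp : p.Prime) (hb : b ≠ 0) : 2 ≤ p ^ b :=
  hp.two_le.trans (Nat.le_self_pow hb p)

/-- `E₈(q)`, an element of order `ℓ` in `L₀` -/
theorem e8_x {W : Type} [Group W] [Finite W] (cs : CoxeterSystem CoxeterMatrix.E₈ W) {p ℓ e m : ℕ} [Fact p.Prime] [CharP K p]
    (hℓ : ℓ.Prime) (hℓp : ℓ ≠ p) (hℓq : ¬ ℓ ∣ Fintype.card K - 1) (ho : orderOf (Fintype.card K : ZMod ℓ) = e)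
    (hm : m ∈ [2, 6, 8, 10, 12, 14, 18]) (hem : e ∣ m) (hp : IsType chevE8 8 CoxeterMatrix.E₈) :
    ∃ x ∈ L0 cs hp.isCartan (XX chevE8 8 K) (toV [2, 3, 4, 6, 5, 4, 3, 2]), orderOf x = ℓ := by
  refine exists_x (hd_E8 cs p) hℓ hℓp hℓq ?_
  have h1 := dvd_pow_sub ho hem
  have h2 := card_P_E8 (K := K) cs p hp
  have h3 : (ℓ : ℤ) ∣ (Nat.card ↥(PS (TT chevE8 K) (XX chevE8 8 K)
      (Ge cs hp.isCartan (toV [2, 3, 4, 6, 5, 4, 3, 2]))) : ℤ) := by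
    rw [h2]
    simp only [List.mem_cons, List.not_mem_nil, or_false] at hm
    rcases hm with rfl | rfl | rfl | rfl | rfl | rfl | rfl
    · exact Dvd.dvd.mul_right (Dvd.dvd.mul_right (Dvd.dvd.mul_right (Dvd.dvd.mul_right (Dvd.dvd.mul_right
        (Dvd.dvd.mul_right (Dvd.dvd.mul_left h1 _) _) _) _) _) _) _
    · exact Dvd.dvd.mul_right (Dvd.dvd.mul_right (Dvd.dvd.mul_right (Dvd.dvd.mul_right (Dvd.dvd.mul_right
        (Dvd.dvd.mul_left h1 _) _) _) _) _) _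
    · exact Dvd.dvd.mul_right (Dvd.dvd.mul_right (Dvd.dvd.mul_right (Dvd.dvd.mul_right
        (Dvd.dvd.mul_left h1 _) _) _) _) _
    · exact Dvd.dvd.mul_right (Dvd.dvd.mul_right (Dvd.dvd.mul_right (Dvd.dvd.mul_left h1 _) _) _) _
    · exact Dvd.dvd.mul_right (Dvd.dvd.mul_right (Dvd.dvd.mul_left h1 _) _) _
    · exact Dvd.dvd.mul_right (Dvd.dvd.mul_left h1 _) _
    · exact Dvd.dvd.mul_left h1 _
  exact_mod_cast h3

/-- `E₇(q)`, an element of order `ℓ` in `L₀` -/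
theorem e7_x {W : Type} [Group W] [Finite W] (cs : CoxeterSystem CoxeterMatrix.E₇ W) {p ℓ e m : ℕ} [Fact p.Prime] [CharP K p]
    (hℓ : ℓ.Prime) (hℓp : ℓ ≠ p) (hℓq : ¬ ℓ ∣ Fintype.card K - 1) (ho : orderOf (Fintype.card K : ZMod ℓ) = e)
    (hm : m ∈ [2, 4, 6, 8, 10]) (hem : e ∣ m) (hp : IsType chevE7 7 CoxeterMatrix.E₇) :
    ∃ x ∈ L0 cs hp.isCartan (XX chevE7 7 K) (toV [2, 2, 3, 4, 3, 2, 1]), orderOf x = ℓ := by
  refine exists_x (hd_E7 cs p) hℓ hℓp hℓq ?_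
  have h1 := dvd_pow_sub ho hem
  have h2 := card_P_E7 (K := K) cs p hp
  have h3 : (ℓ : ℤ) ∣ ((Nat.gcd 2 (Fintype.card K - 1) : ℕ) : ℤ) * (Nat.card ↥(PS (TT chevE7 K) (XX chevE7 7 K)
      (Ge cs hp.isCartan (toV [2, 2, 3, 4, 3, 2, 1]))) : ℤ) := by
    rw [h2]
    simp only [List.mem_cons, List.not_mem_nil, or_false] at hm
    rcases hm with rfl | rfl | rfl | rfl | rfl
    · exact Dvd.dvd.mul_right (Dvd.dvd.mul_right (Dvd.dvd.mul_right (Dvd.dvd.mul_right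
        (Dvd.dvd.mul_left h1 _) _) _) _) _
    · exact Dvd.dvd.mul_right (Dvd.dvd.mul_right (Dvd.dvd.mul_right (Dvd.dvd.mul_left h1 _) _) _) _
    · exact Dvd.dvd.mul_right (Dvd.dvd.mul_right (Dvd.dvd.mul_left (dvd_pow h1 two_ne_zero) _) _) _
    · exact Dvd.dvd.mul_right (Dvd.dvd.mul_left h1 _) _
    · exact Dvd.dvd.mul_left h1 _
  have h4 : ℓ ∣ Nat.gcd 2 (Fintype.card K - 1) * Nat.card ↥(PS (TT chevE7 K) (XX chevE7 7 K)
      (Ge cs hp.isCartan (toV [2, 2, 3, 4, 3, 2, 1]))) := by exact_mod_cast h3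
  exact ((hℓ.dvd_mul).1 h4).resolve_left fun h5 => hℓq (h5.trans (Nat.gcd_dvd_right _ _))

/-- `E₆(q)`, an element of order `ℓ` in `L₀` -/
theorem e6_x {W : Type} [Group W] [Finite W] (cs : CoxeterSystem CoxeterMatrix.E₆ W) {p ℓ e m : ℕ} [Fact p.Prime] [CharP K p]
    (hℓ : ℓ.Prime) (hℓp : ℓ ≠ p) (hℓq : ¬ ℓ ∣ Fintype.card K - 1) (ho : orderOf (Fintype.card K : ZMod ℓ) = e)
    (hm : m ∈ [2, 3, 4, 5, 6]) (hem : e ∣ m) (hp : IsType chevE6 6 CoxeterMatrix.E₆) :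
    ∃ x ∈ L0 cs hp.isCartan (XX chevE6 6 K) (toV [1, 2, 2, 3, 2, 1]), orderOf x = ℓ := by
  refine exists_x (hd_E6 cs p) hℓ hℓp hℓq ?_
  have h1 := dvd_pow_sub ho hem
  have h2 := card_P_E6 (K := K) cs p hp
  have h3 : (ℓ : ℤ) ∣ ((Nat.gcd 3 (Fintype.card K - 1) : ℕ) : ℤ) * (Nat.card ↥(PS (TT chevE6 K) (XX chevE6 6 K)
      (Ge cs hp.isCartan (toV [1, 2, 2, 3, 2, 1]))) : ℤ) := by
    rw [h2]
    simp only [List.mem_cons, List.not_mem_nil, or_false] at hm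
    rcases hm with rfl | rfl | rfl | rfl | rfl
    · exact Dvd.dvd.mul_right (Dvd.dvd.mul_right (Dvd.dvd.mul_right (Dvd.dvd.mul_right
        (Dvd.dvd.mul_left h1 _) _) _) _) _
    · exact Dvd.dvd.mul_right (Dvd.dvd.mul_right (Dvd.dvd.mul_right (Dvd.dvd.mul_left h1 _) _) _) _
    · exact Dvd.dvd.mul_right (Dvd.dvd.mul_right (Dvd.dvd.mul_left h1 _) _) _
    · exact Dvd.dvd.mul_right (Dvd.dvd.mul_left h1 _) _
    · exact Dvd.dvd.mul_left h1 _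
  have h4 : ℓ ∣ Nat.gcd 3 (Fintype.card K - 1) * Nat.card ↥(PS (TT chevE6 K) (XX chevE6 6 K)
      (Ge cs hp.isCartan (toV [1, 2, 2, 3, 2, 1]))) := by exact_mod_cast h3
  exact ((hℓ.dvd_mul).1 h4).resolve_left fun h5 => hℓq (h5.trans (Nat.gcd_dvd_right _ _))

/-- `F₄(q)`, `q` odd, an element of order `ℓ` in `L₀` -/
theorem f4_x {W : Type} [Group W] [Finite W] (cs : CoxeterSystem CoxeterMatrix.F₄ W) {p ℓ e m : ℕ} [Fact p.Prime] [CharP K p]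
    (h2 : (2 : K) ≠ 0)
    (hℓ : ℓ.Prime) (hℓp : ℓ ≠ p) (hℓq : ¬ ℓ ∣ Fintype.card K - 1) (ho : orderOf (Fintype.card K : ZMod ℓ) = e)
    (hm : m ∈ [2, 4, 6]) (hem : e ∣ m) (hp : IsType chevF4 4 CoxeterMatrix.F₄) :
    ∃ x ∈ L0 cs hp.isCartan (XX chevF4 4 K) (toV [2, 4, 3, 2]), orderOf x = ℓ := by
  refine exists_x (hd_F4 cs p h2) hℓ hℓp hℓq ?_
  have h1 := dvd_pow_sub ho hem
  have h2 := card_P_F4 (K := K) cs p hp
  have h3 : (ℓ : ℤ) ∣ (Nat.card ↥(PS (TT chevF4 K) (XX chevF4 4 K)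
      (Ge cs hp.isCartan (toV [2, 4, 3, 2]))) : ℤ) := by
    rw [h2]
    simp only [List.mem_cons, List.not_mem_nil, or_false] at hm
    rcases hm with rfl | rfl | rfl
    · exact Dvd.dvd.mul_right (Dvd.dvd.mul_right (Dvd.dvd.mul_left h1 _) _) _
    · exact Dvd.dvd.mul_right (Dvd.dvd.mul_left h1 _) _
    · exact Dvd.dvd.mul_left h1 _
  exact_mod_cast h3

/-! ### Arithmetic -/

theorem ar_pow {s : ℤ} (hs : 2 ≤ s) (m n : ℕ) (h : m ≤ n) : (2 : ℤ) ^ (n - m) * s ^ m ≤ s ^ n := by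
  have h1 : s ^ n = s ^ (n - m) * s ^ m := by rw [← pow_add, Nat.sub_add_cancel h]
  rw [h1]
  exact mul_le_mul_of_nonneg_right (pow_le_pow_left₀ (by norm_num) hs _) (pow_nonneg (by omega) _)

theorem ar_ten {s : ℤ} (hs : 2 ≤ s) : s ^ 4 - s ^ 3 + s ^ 2 - s + 1 ≤ s ^ 4 - 5 := by
  have h1 := ar_pow hs 2 3 (by norm_num)
  have h2 := ar_pow hs 0 2 (by norm_num)
  norm_num at h1 h2
  nlinarith

/-- **`E₈(q)`** -/
theorem ar58 {s ℓ : ℤ} {e : ℕ} (hs : 2 ≤ s) (h : (e = 10 ∧ ℓ ≤ s ^ 4 - s ^ 3 + s ^ 2 - s + 1) ∨ (e = 12 ∧ ℓ ≤ s ^ 4 - s ^ 2 + 1) ∨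
    (e = 14 ∧ ℓ ≤ s ^ 6 - s ^ 5 + s ^ 4 - s ^ 3 + s ^ 2 - s + 1) ∨ (e = 18 ∧ ℓ ≤ s ^ 6 - s ^ 3 + 1)) :
    58 * (ℓ + 1) ≤ s ^ e + 57 := by
  have h32 := ar_pow hs 2 3 (by norm_num)
  have h20 := ar_pow hs 0 2 (by norm_num)
  have h54 := ar_pow hs 4 5 (by norm_num)
  norm_num at h32 h20 h54
  rcases h with ⟨rfl, h⟩ | ⟨rfl, h⟩ | ⟨rfl, h⟩ | ⟨rfl, h⟩
  · have h1 := ar_pow hs 4 10 (by norm_num)
    norm_num at h1
    nlinarith
  · have h1 := ar_pow hs 4 12 (by norm_num)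
    norm_num at h1
    nlinarith [pow_nonneg (by omega : 0 ≤ s) 4]
  · have h1 := ar_pow hs 6 14 (by norm_num)
    norm_num at h1
    nlinarith [pow_nonneg (by omega : 0 ≤ s) 6, pow_nonneg (by omega : 0 ≤ s) 4]
  · have h1 := ar_pow hs 6 18 (by norm_num)
    norm_num at h1
    nlinarith [pow_nonneg (by omega : 0 ≤ s) 6]

/-! ### The rows -/

/-- **`E₈(q)`, `q > 2`, order `10, 12, 14, 18`**. -/
theorem e8_heis {ℓ : ℕ} (hℓ : ℓ.Prime) (hℓK : (ℓ : K) ≠ 0) (hK : 2 < Fintype.card K)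
    (ho : orderOf (Fintype.card K : ZMod ℓ) ∈ [10, 12, 14, 18]) : FprRow (ℓ + 1) 1 ℓ ↥(chevE8.group K) := by
  obtain ⟨e, he⟩ : ∃ e, orderOf (Fintype.card K : ZMod ℓ) = e := ⟨_, rfl⟩
  rw [he] at ho
  simp only [List.mem_cons, List.not_mem_nil, or_false] at ho
  obtain ⟨p, hp, hpK, hℓp, hℓq, a, b, ha, hb, hba, hs, hM⟩ := setup hℓ hℓK (by omega) he
  have : Fact p.Prime := ⟨hp⟩
  have hsimp := Cfsg.Agent.S1054.result (F := K) chevE8 (by simp)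
  have : IsSimpleGroup ↥(chevE8.group K) := hsimp.1
  have hcen : Subgroup.center ↥(chevE8.group K) = ⊥ := center_eq_bot hsimp.2
  let cs : CoxeterSystem CoxeterMatrix.E₈ _ := CoxeterMatrix.E₈.toCoxeterSystem
  have hT : IsType chevE8 8 CoxeterMatrix.E₈ := by simp [IsType, typeList]
  have hW : Finite CoxeterMatrix.E₈.Group := finite_W hT cs
  obtain ⟨x, hx, hxo⟩ := e8_x (m := e) cs hℓ hℓp hℓq he (by
    rcases ho with rfl | rfl | rfl | rfl <;> decide) dvd_rfl hT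
  obtain ⟨s, hsd⟩ : ∃ s, s = p ^ b := ⟨_, rfl⟩
  rw [← hsd] at hs hM
  have hs2 : 2 ≤ s := by rw [hsd]; exact two_le_pow hp hb
  have key := uGood_x (M' := s ^ e) (hd_E8 cs p) this hcen hK hℓ hℓp hx hxo hM (Nat.one_le_pow _ _ (by omega))
  refine good_of_uGood (k := 1) hℓ (by rw [pow_one, ← hxo]; exact pow_orderOf_eq_one x) key ?_
  have hs' : (2 : ℤ) ≤ s := by exact_mod_cast hs2
  have h1 : (58 : ℤ) * (ℓ + 1) ≤ (s : ℤ) ^ e + 57 := ar58 hs' (by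
    rcases ho with rfl | rfl | rfl | rfl
    · exact Or.inl ⟨rfl, le_ten hℓ hs hs2⟩
    · exact Or.inr (Or.inl ⟨rfl, le_twelve hℓ hs hs2⟩)
    · exact Or.inr (Or.inr (Or.inl ⟨rfl, le_fourteen hℓ hs hs2⟩))
    · exact Or.inr (Or.inr (Or.inr ⟨rfl, le_eighteen hℓ hs hs2⟩)))
  have h2 : 58 * (ℓ + 1) ≤ s ^ e + 57 := by exact_mod_cast h1
  omega

/-- **`E₈(q)`, order `9`**, base at least `4`. -/
theorem e8_nine {ℓ : ℕ} (hℓ : ℓ.Prime) (hℓK : (ℓ : K) ≠ 0) (hK : 2 < Fintype.card K)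
    (ho : orderOf (Fintype.card K : ZMod ℓ) = 9) (h73 : ℓ ≠ 73) (h757 : ℓ ≠ 757) : FprRow (ℓ + 1) 1 ℓ ↥(chevE8.group K) := by
  obtain ⟨p, hp, hpK, hℓp, hℓq, a, b, ha, hb, hba, hs, hM⟩ := setup hℓ hℓK (by omega) ho
  have : Fact p.Prime := ⟨hp⟩
  have hsimp := Cfsg.Agent.S1054.result (F := K) chevE8 (by simp)
  have : IsSimpleGroup ↥(chevE8.group K) := hsimp.1
  have hcen : Subgroup.center ↥(chevE8.group K) = ⊥ := center_eq_bot hsimp.2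
  let cs : CoxeterSystem CoxeterMatrix.E₈ _ := CoxeterMatrix.E₈.toCoxeterSystem
  have hT : IsType chevE8 8 CoxeterMatrix.E₈ := by simp [IsType, typeList]
  have hW : Finite CoxeterMatrix.E₈.Group := finite_W hT cs
  obtain ⟨x, hx, hxo⟩ := e8_x (m := 18) cs hℓ hℓp hℓq ho (by decide) (by norm_num) hT
  obtain ⟨s, hsd⟩ : ∃ s, s = p ^ b := ⟨_, rfl⟩
  rw [← hsd] at hs hM
  have hs2 : 2 ≤ s := by rw [hsd]; exact two_le_pow hp hb
  have key := uGood_x (M' := s ^ 9) (hd_E8 cs p) this hcen hK hℓ hℓp hx hxo hM (Nat.one_le_pow _ _ (by omega))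
  refine good_of_uGood (k := 1) hℓ (by rw [pow_one, ← hxo]; exact pow_orderOf_eq_one x) key ?_
  have h1 := le_nine hℓ hs
  have hs4 : 4 ≤ s := by
    by_contra hcon
    have h2 : s = 2 ∨ s = 3 := by omega
    rcases h2 with rfl | rfl
    · norm_num at h1
      exact h73 ((Nat.prime_dvd_prime_iff_eq hℓ (by norm_num)).1 h1)
    · norm_num at h1
      exact h757 ((Nat.prime_dvd_prime_iff_eq hℓ (by norm_num)).1 h1)
  have h2 := Nat.le_of_dvd (by positivity) h1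
  have h3 : 64 * s ^ 6 ≤ s ^ 9 := by
    have : s ^ 9 = s ^ 3 * s ^ 6 := by ring
    rw [this]
    exact Nat.mul_le_mul_right _ (by
      calc 64 = 4 ^ 3 := by norm_num
        _ ≤ s ^ 3 := Nat.pow_le_pow_left hs4 3)
  have h4 : 64 * s ^ 3 ≤ s ^ 6 := by
    have : s ^ 6 = s ^ 3 * s ^ 3 := by ring
    rw [this]
    exact Nat.mul_le_mul_right _ (by
      calc 64 = 4 ^ 3 := by norm_num
        _ ≤ s ^ 3 := Nat.pow_le_pow_left hs4 3)
  have h5 : 64 ≤ s ^ 3 := by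
    calc 64 = 4 ^ 3 := by norm_num
      _ ≤ s ^ 3 := Nat.pow_le_pow_left hs4 3
  omega

/-- **`E₇(q)`, `q > 2`, order `10`**, and order `8` for `ℓ ≠ 17`. -/
theorem e7_heis {ℓ : ℕ} (hℓ : ℓ.Prime) (hℓK : (ℓ : K) ≠ 0) (hK : 2 < Fintype.card K)
    (ho : orderOf (Fintype.card K : ZMod ℓ) = 10 ∨ (orderOf (Fintype.card K : ZMod ℓ) = 8 ∧ ℓ ≠ 17)) :
    FprRow (ℓ + 1) 1 ℓ ↥(chevE7.group K) := by
  obtain ⟨e, he⟩ : ∃ e, orderOf (Fintype.card K : ZMod ℓ) = e := ⟨_, rfl⟩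
  rw [he] at ho
  obtain ⟨p, hp, hpK, hℓp, hℓq, a, b, ha, hb, hba, hs, hM⟩ := setup hℓ hℓK (by omega) he
  have : Fact p.Prime := ⟨hp⟩
  have hsimp := Cfsg.Agent.S1054.result (F := K) chevE7 (by simp)
  have : IsSimpleGroup ↥(chevE7.group K) := hsimp.1
  have hcen : Subgroup.center ↥(chevE7.group K) = ⊥ := center_eq_bot hsimp.2
  let cs : CoxeterSystem CoxeterMatrix.E₇ _ := CoxeterMatrix.E₇.toCoxeterSystem
  have hT : IsType chevE7 7 CoxeterMatrix.E₇ := by simp [IsType, typeList]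
  have hW : Finite CoxeterMatrix.E₇.Group := finite_W hT cs
  obtain ⟨x, hx, hxo⟩ := e7_x (m := e) cs hℓ hℓp hℓq he (by
    rcases ho with rfl | ⟨rfl, -⟩ <;> decide) dvd_rfl hT
  obtain ⟨s, hsd⟩ : ∃ s, s = p ^ b := ⟨_, rfl⟩
  rw [← hsd] at hs hM
  have hs2 : 2 ≤ s := by rw [hsd]; exact two_le_pow hp hb
  have key := uGood_x (M' := s ^ e) (hd_E7 cs p) this hcen hK hℓ hℓp hx hxo hM (Nat.one_le_pow _ _ (by omega))
  refine good_of_uGood (k := 1) hℓ (by rw [pow_one, ← hxo]; exact pow_orderOf_eq_one x) key ?_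
  rcases ho with rfl | ⟨rfl, h17⟩
  · have hs' : (2 : ℤ) ≤ s := by exact_mod_cast hs2
    have h1 := ar58 (e := 10) (ℓ := (ℓ : ℤ)) hs' (Or.inl ⟨rfl, le_ten hℓ hs hs2⟩)
    have h2 : 58 * (ℓ + 1) ≤ s ^ 10 + 57 := by exact_mod_cast h1
    have := hℓ.two_le
    omega
  · have h1 := le_eight hℓ hs
    have hs3 : 3 ≤ s := by
      by_contra hcon
      have h2 : s = 2 := by omega
      rw [h2] at h1
      norm_num at h1
      exact h17 ((Nat.prime_dvd_prime_iff_eq hℓ (by norm_num)).1 h1)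
    have h2 := Nat.le_of_dvd (by positivity) h1
    have h5 : 81 ≤ s ^ 4 := by
      calc 81 = 3 ^ 4 := by norm_num
        _ ≤ s ^ 4 := Nat.pow_le_pow_left hs3 4
    have h3 : 81 * s ^ 4 ≤ s ^ 8 := by
      have : s ^ 8 = s ^ 4 * s ^ 4 := by ring
      rw [this]
      exact Nat.mul_le_mul_right _ h5
    omega

theorem aux_three : ((2 : ℕ) : ZMod 3) ^ 2 = 1 := by decide

theorem base_six {ℓ s : ℕ} (hℓ : ℓ.Prime) (h : orderOf (s : ZMod ℓ) = 6) (hs : 2 ≤ s) : 3 ≤ s := by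
  by_contra hcon
  have h2 : s = 2 := by omega
  have : Fact ℓ.Prime := ⟨hℓ⟩
  have h0 := phi_six hℓ h
  rw [h2] at h0
  have h3 : ((3 : ℕ) : ZMod ℓ) = 0 := by push_cast; push_cast at h0; linear_combination h0
  rw [ZMod.natCast_eq_zero_iff] at h3
  have h4 := (Nat.prime_dvd_prime_iff_eq hℓ Nat.prime_three).1 h3
  subst h4
  rw [h2] at h
  have h6 := Nat.le_of_dvd (by norm_num) (orderOf_dvd_of_pow_eq_one aux_three)
  omega

theorem ar_six {s ℓ : ℤ} (hs : 3 ≤ s) (h : ℓ ≤ s ^ 2 - s + 1) : 22 * (ℓ + 1) ≤ s ^ 6 + 15 := by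
  have h1 : (81 : ℤ) * s ^ 2 ≤ s ^ 6 := by
    have : s ^ 6 = s ^ 4 * s ^ 2 := by ring
    rw [this]
    refine mul_le_mul_of_nonneg_right ?_ (sq_nonneg s)
    calc (81 : ℤ) = 3 ^ 4 := by norm_num
      _ ≤ s ^ 4 := pow_le_pow_left₀ (by norm_num) hs 4
  nlinarith

/-- **`E₆(q)`, order `6`.** -/
theorem e6_six {ℓ : ℕ} (hℓ : ℓ.Prime) (hℓK : (ℓ : K) ≠ 0)
    (ho : orderOf (Fintype.card K : ZMod ℓ) = 6) : FprRow (ℓ + 1) 1 ℓ ↥(chevE6.group K) := by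
  have hK : 2 < Fintype.card K := base_six hℓ ho two_le_q
  obtain ⟨p, hp, hpK, hℓp, hℓq, a, b, ha, hb, hba, hs, hM⟩ := setup hℓ hℓK (by omega) ho
  have : Fact p.Prime := ⟨hp⟩
  have hsimp := Cfsg.Agent.S1054.result (F := K) chevE6 (by simp)
  have : IsSimpleGroup ↥(chevE6.group K) := hsimp.1
  have hcen : Subgroup.center ↥(chevE6.group K) = ⊥ := center_eq_bot hsimp.2
  let cs : CoxeterSystem CoxeterMatrix.E₆ _ := CoxeterMatrix.E₆.toCoxeterSystem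
  have hT : IsType chevE6 6 CoxeterMatrix.E₆ := by simp [IsType, typeList]
  have hW : Finite CoxeterMatrix.E₆.Group := finite_W hT cs
  obtain ⟨x, hx, hxo⟩ := e6_x (m := 6) cs hℓ hℓp hℓq ho (by decide) dvd_rfl hT
  obtain ⟨s, hsd⟩ : ∃ s, s = p ^ b := ⟨_, rfl⟩
  rw [← hsd] at hs hM
  have hs2 : 2 ≤ s := by rw [hsd]; exact two_le_pow hp hb
  have hs3 := base_six hℓ hs hs2
  have key := uGood_x (M' := s ^ 6) (hd_E6 cs p) this hcen hK hℓ hℓp hx hxo hM (Nat.one_le_pow _ _ (by omega))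
  refine good_of_uGood (k := 1) hℓ (by rw [pow_one, ← hxo]; exact pow_orderOf_eq_one x) key ?_
  have h1 := ar_six (by exact_mod_cast hs3) (le_six hℓ hs)
  have h2 : 22 * (ℓ + 1) ≤ s ^ 6 + 15 := by exact_mod_cast h1
  omega

/-- **`F₄(q)`, `q` odd, order `4` and `6`.** -/
theorem f4_heis {ℓ : ℕ} (hℓ : ℓ.Prime) (hℓK : (ℓ : K) ≠ 0) (h2K : (2 : K) ≠ 0)
    (ho : orderOf (Fintype.card K : ZMod ℓ) = 4 ∨ orderOf (Fintype.card K : ZMod ℓ) = 6) :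
    FprRow (ℓ + 1) 1 ℓ ↥(chevF4.group K) := by
  obtain ⟨e, he⟩ : ∃ e, orderOf (Fintype.card K : ZMod ℓ) = e := ⟨_, rfl⟩
  rw [he] at ho
  obtain ⟨p, hp, hpK, hℓp, hℓq, a, b, ha, hb, hba, hs, hM⟩ := setup hℓ hℓK (by omega) he
  have : Fact p.Prime := ⟨hp⟩
  have hp2 : p ≠ 2 := by
    rintro rfl
    apply h2K
    exact_mod_cast CharP.cast_eq_zero K 2
  have hsimp := Cfsg.Agent.S1054.result (F := K) chevF4 (by simp)
  have : IsSimpleGroup ↥(chevF4.group K) := hsimp.1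
  have hcen : Subgroup.center ↥(chevF4.group K) = ⊥ := center_eq_bot hsimp.2
  let cs : CoxeterSystem CoxeterMatrix.F₄ _ := CoxeterMatrix.F₄.toCoxeterSystem
  have hT : IsType chevF4 4 CoxeterMatrix.F₄ := by simp [IsType, typeList]
  have hW : Finite CoxeterMatrix.F₄.Group := finite_W hT cs
  obtain ⟨x, hx, hxo⟩ := f4_x (m := e) cs h2K hℓ hℓp hℓq he (by
    rcases ho with rfl | rfl <;> decide) dvd_rfl hT
  have hodd : ∀ c, c ≠ 0 → Odd (p ^ c) := fun c _ => (hp.odd_of_ne_two hp2).pow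
  have hp3 : 3 ≤ p := by have := hp.two_le; omega
  obtain ⟨s, hsd⟩ : ∃ s, s = p ^ b := ⟨_, rfl⟩
  have hK : 2 < Fintype.card K := by
    rw [ha]
    have : a ≠ 0 := by
      rintro rfl
      have := two_le_q (K := K)
      rw [ha, pow_zero] at this
      omega
    exact lt_of_lt_of_le hp3 (Nat.le_self_pow this p)
  have hsodd : Odd s := by rw [hsd]; exact hodd b hb
  have hs3 : 3 ≤ s := by
    rw [hsd]
    exact hp3.trans (Nat.le_self_pow hb p)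
  rw [← hsd] at hs hM
  have key := uGood_x (M' := s ^ e) (hd_F4 cs p h2K) this hcen hK hℓ hℓp hx hxo hM (Nat.one_le_pow _ _ (by omega))
  refine good_of_uGood (k := 1) hℓ (by rw [pow_one, ← hxo]; exact pow_orderOf_eq_one x) key ?_
  rcases ho with rfl | rfl
  · have h1 := le_four hℓ hs
    have h2 : 2 ∣ s ^ 2 + 1 := by
      have h3 : Odd (s ^ 2) := hsodd.pow
      exact (h3.add_odd odd_one).two_dvd
    have hℓ2 : ℓ ≠ 2 := by
      rintro rfl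
      have h3 := half_ord hℓ (m := 2) (by norm_num) hs
      have h4 : ((s : ZMod 2)) ^ 2 = 1 := by
        have h5 : (s : ZMod 2) = 1 := by
          obtain ⟨c, hc⟩ := hsodd
          rw [hc]
          push_cast
          have : (2 : ZMod 2) = 0 := by decide
          rw [this]; ring
        rw [h5]; ring
      have h6 := Nat.le_of_dvd (by norm_num) (orderOf_dvd_of_pow_eq_one h4)
      omega
    have h3 : 2 * ℓ ∣ s ^ 2 + 1 := Nat.Coprime.mul_dvd_of_dvd_of_dvd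
      ((Nat.coprime_primes Nat.prime_two hℓ).2 hℓ2.symm) h2 h1
    have h4 := Nat.le_of_dvd (by positivity) h3
    have h5 : 9 ≤ s ^ 2 := by
      calc 9 = 3 ^ 2 := by norm_num
        _ ≤ s ^ 2 := Nat.pow_le_pow_left hs3 2
    have h6 : 9 * s ^ 2 ≤ s ^ 4 := by
      have : s ^ 4 = s ^ 2 * s ^ 2 := by ring
      rw [this]
      exact Nat.mul_le_mul_right _ h5
    omega
  · have h1 := ar_six (by exact_mod_cast hs3) (le_six hℓ hs)
    have h2 : 22 * (ℓ + 1) ≤ s ^ 6 + 15 := by exact_mod_cast h1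
    have := hℓ.two_le
    omega

end Cfsg.Agent.H441.FPR.Heis
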