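import Cfsg.Agent.H441.FPR.HeisX
import Cfsg.Agent.H441.FPR.HeisG
import Cfsg.Agent.H441.FPR.Even
import Cfsg.Agent.Nodes.Unique

/-!
# `F₄(q)`, `q` even: the spin module is faithful
-/

set_option autoImplicit false
set_option linter.unusedSectionVars false
set_option linter.unusedVariables false
set_option maxRecDepth 100000

namespace Cfsg.Agent.H441.FPR.Heis

open CoxeterSystem Cfsg.Agent.ChevalleyStructure.CoxeterGeom Cfsg.Agent.Tits.Roots Cfsg.Agent.Tits.Core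
  Cfsg.Agent.Nodes.Reps Cfsg.Agent.Nodes.BNOf Cfsg.Agent.Nodes.Coroot Cfsg.Agent.Nodes.LeviDec
  Cfsg.Agent.Nodes.PosPair Cfsg.Agent.Nodes.StabComb Cfsg.Agent.Nodes.KindChev Cfsg.Agent.KFacts.RgdCent
  Cfsg.Agent.Nodes.Bruhat Cfsg.Agent.Nodes.OppDec Cfsg.Agent.Tits.Exchange
  Cfsg.Agent.KFacts.RgdPar Cfsg.Agent.KFacts.RgdSL Cfsg.Agent.KFacts.RgdTI Cfsg.Agent.Nodes.RGDChev
  Cfsg.Agent.ChevalleyStructure.CoxeterGeomTypes
open Cfsg.Lie Cfsg.Agent.ChevalleyStructure Cfsg.Agent.ChevalleyStructure.Elts Cfsg.Agent.ChevalleyStructure.NPerm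
open Cfsg.Agent.KFacts.RgdChevCoord Cfsg.Agent.Nodes.ChevCls
open Cfsg.Agent.H400.TwoExc Cfsg.Agent.H400.Fpr
open Cfsg.Agent.H398.FPR (UGood Good)
open Cfsg.Agent.H409 (FprRow)
open scoped commutatorElement
open Cfsg.Agent.H79.SimpleGen
open Cfsg.Agent.H400

universe u

section Gen

variable {I W Y : Type*} [Fintype I] [DecidableEq I] [Group W] [Group Y] {M : CoxeterMatrix I}
  {cs : CoxeterSystem M W} {A : I → I → ℤ} {h : IsCartan M A} {p : ℕ} {T : Subgroup Y} {n : I → Y}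
  {X : (I → ℤ) → Subgroup Y}

/-- uniqueness of root groups in a closed product -/
theorem mem_of_X_le (R : RGD cs h p T n X) [Finite W] {S : Set (I → ℤ)} (hS : S ⊆ RGD.Pos cs h)
    (hc : Cfsg.Agent.Nodes.Unique.Closed cs h S) {s : I → ℤ} (hs : IsRoot cs h s) (hX : X s ≤ RGD.Sup X S) : s ∈ S := by
  have hne := X_ne_bot R hs
  rcases hs.pos_or_neg with h0 | h0
  · by_contra hcon
    have h1 : RGD.Sup X {s} ⊓ RGD.Sup X S = RGD.Sup X ({s} ∩ S) :=
      Cfsg.Agent.Nodes.Unique.inf_eq R (Set.singleton_subset_iff.2 ⟨hs, h0⟩) hS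
        (fun x hx y hy z hz => by
          have hx : x = s := hx
          have hy : y = s := hy
          subst hx; subst hy
          exact Cfsg.Agent.Nodes.Unique.btwn_self hs hz) hc
    apply hne
    rw [eq_bot_iff]
    have h2 : X s ≤ RGD.Sup X {s} ⊓ RGD.Sup X S := le_inf (RGD.le_Sup (S := {s}) rfl) hX
    rw [h1] at h2
    refine h2.trans (RGD.Sup_le ?_)
    rintro z ⟨hz1, hz2⟩
    have hz1 : z = s := hz1
    subst hz1
    exact absurd hz2 hcon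
  · exfalso
    apply hne
    rw [eq_bot_iff, ← U_inf_UN R]
    refine le_inf (hX.trans (RGD.Sup_mono hS)) ?_
    exact RGD.le_Sup (S := Neg cs h) ⟨hs, h0⟩

theorem rep_mem_of_norm (R : RGD cs h p T n X) [Finite W] {S : Set (I → ℤ)} (hS : S ⊆ RGD.Pos cs h)
    (hc : Cfsg.Agent.Nodes.Unique.Closed cs h S) {w : W} {x : Y} (hx : Cell R.nsys cs h X w x)
    (hxS : ∀ y ∈ RGD.Sup X S, x * y * x⁻¹ ∈ RGD.Sup X S)
    (hB : ∀ b ∈ RGD.B cs h T X, ∀ y ∈ RGD.Sup X S, b * y * b⁻¹ ∈ RGD.Sup X S) {s : I → ℤ} (hs : s ∈ S) :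
    rep cs h w s ∈ S := by
  obtain ⟨b₁, hb₁, k, hk, b₂, hb₂, rfl⟩ := hx
  have hsr := (hS hs).1
  refine mem_of_X_le R hS hc (hsr.act w) ?_
  intro v hv
  have h1 : k⁻¹ * v * k ∈ X s := by
    have := R.conj_mem' hk (hsr.act w) hv
    rwa [← rep_mul_apply, inv_mul_cancel, map_one, Module.End.one_apply] at this
  have h2 := hB b₂⁻¹ (inv_mem hb₂) _ (RGD.le_Sup hs h1)
  have h3 := hxS _ h2
  have h4 := hB b₁⁻¹ (inv_mem hb₁) _ h3
  have h5 : b₁⁻¹ * (b₁ * k * b₂ * (b₂⁻¹ * (k⁻¹ * v * k) * b₂⁻¹⁻¹) * (b₁ * k * b₂)⁻¹) * b₁⁻¹⁻¹ = v := by group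
  rwa [h5] at h4

theorem rep_eq_of_chain [Finite W] {w : W} {S : Set (I → ℤ)} {c : I → ℤ} (hfin : S.Finite) (hc : c ∉ S)
    (h1 : ∀ s ∈ S, rep cs h w s ∈ S) (h2 : rep cs h w c ∈ insert c S) : rep cs h w c = c := by
  rcases h2 with h2 | h2
  · exact h2
  · exfalso
    obtain ⟨s, hs, h4⟩ := Set.surj_on_of_inj_on_of_ncard_le (s := S) (t := S) (fun a _ => rep cs h w a) h1
      (fun a b _ _ e => rep_injective_apply cs h w e) le_rfl _ h2 (ht := hfin)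
    rw [rep_injective_apply cs h w h4] at hc
    exact hc hs

end Gen

section Chev

variable {D : ChevalleyDatum} {l : ℕ} {M : CoxeterMatrix (Fin l)} (hp : IsType D l M) {K : Type u} [Field K]

theorem mem_XX_xS {r : ℕ} (hr : r < D.nroots) {u : ↥(D.group K)} :
    u ∈ XX D l K (vec D l r) ↔ ∃ t : K, u = xS hp.inList r t := by
  rw [Subgroup.mem_subgroupOf, XV_vec hp K hr, mem_rootSubgroup_iff hp.inList]
  constructor
  · rintro ⟨t, ht⟩
    exact ⟨t, Subtype.ext ht⟩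
  · rintro ⟨t, rfl⟩
    exact ⟨t, rfl⟩

theorem Sup_eq_UG {Γ : List ℕ} (hΓ : ∀ a ∈ Γ, a < D.nroots) :
    RGD.Sup (XX D l K) {s | ∃ a ∈ Γ, s = vec D l a} = UG hp.inList K Γ := by
  apply le_antisymm
  · refine RGD.Sup_le ?_
    rintro s ⟨a, ha, rfl⟩ u hu
    obtain ⟨t, rfl⟩ := (mem_XX_xS hp (hΓ a ha)).1 hu
    exact xS_mem_UG hp.inList ha t
  · apply UG_le
    intro k hk t
    exact RGD.le_Sup (S := {s | ∃ a ∈ Γ, s = vec D l a}) ⟨k, hk, rfl⟩ ((mem_XX_xS hp (hΓ k hk)).2 ⟨t, rfl⟩)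

/-- stability under the root `r`, in characteristic two -/
def InvE (D : ChevalleyDatum) (Γ : List ℕ) (r : ℕ) : Prop :=
  r < D.nroots ∧ ∀ k ∈ Γ, k < D.nroots ∧ (k = r ∨ (k ≠ r ∧ k ≠ D.neg r ∧ ∀ c ∈ D.commTerms r k, c.2.1 % 2 = 0 ∨ c.1 ∈ Γ))

instance (Γ : List ℕ) (r : ℕ) : Decidable (InvE D Γ r) := by
  unfold InvE; infer_instance

theorem InvE.conj_mem (hD : InList D) (h2 : (2 : K) = 0) {Γ : List ℕ} {r : ℕ} (h : InvE D Γ r) (t : K)
    {y : ↥(D.group K)} (hy : y ∈ UG hD K Γ) : xS hD r t * y * (xS hD r t)⁻¹ ∈ UG hD K Γ := by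
  have h1 : UG hD K Γ ≤ (UG hD K Γ).comap (MulAut.conj (xS hD r t)).toMonoidHom := by
    apply UG_le
    intro k hk u
    obtain ⟨h3, h4⟩ := h.2 k hk
    change xS hD r t * xS hD k u * (xS hD r t)⁻¹ ∈ UG hD K Γ
    rcases h4 with rfl | ⟨h4, h5, h6⟩
    · exact mul_mem (mul_mem (xS_mem_UG hD hk t) (xS_mem_UG hD hk u)) (inv_mem (xS_mem_UG hD hk t))
    · rw [conj_word hD h.1 h3 h4 h5]
      refine mul_mem (xS_mem_UG hD hk u) (wd_mem_of hD h2 (fun c hc => ?_) _ _)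
      rcases h6 c hc with h6 | h6
      · exact Or.inl h6
      · exact Or.inr fun t => xS_mem_UG hD h6 t
  exact h1 hy

theorem UG_conjE (hD : InList D) (h2 : (2 : K) = 0) {L Γ : List ℕ} {x : ↥(D.group K)} [Finite K] (hx : x ∈ UG hD K L)
    (h : ∀ k ∈ L, InvE D Γ k) : ∀ y ∈ UG hD K Γ, x * y * x⁻¹ ∈ UG hD K Γ := by
  have h1 : UG hD K L ≤ Subgroup.normalizer (UG hD K Γ : Set ↥(D.group K)) := by
    apply UG_le
    intro k hk t
    exact mem_norm_of_conj fun y hy => (h k hk).conj_mem hD h2 t hy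
  intro y hy
  exact (Subgroup.mem_normalizer_iff.1 (h1 hx) y).1 hy

theorem comm_one {R : ℕ} {a b : ℕ} (ha : a < D.nroots) (hb : b < D.nroots) (h4 : a ≠ b) (h5 : a ≠ D.neg b) {C : ℤ}
    (h7 : D.commTerms b a = [(R, C, 1, 1)]) (t u : K) :
    ⁅xS hp.inList a t, xS hp.inList b u⁆ = xS hp.inList R (-((C : K) * u * t)) := by
  apply Subtype.ext
  have h8 := comm_xG hp (K := K) hb ha h4 h5 (-u) (-t)
  have h9 : D.commWord K b a (-u) (-t) = [(R, -((C : K) * u * t))] := by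
    show (D.commTerms b a).map _ = _
    rw [h7]
    simp only [List.map_cons, List.map_nil, pow_one, neg_neg, mul_neg]
  rw [h9, ← xG_inv, ← xG_inv, inv_inv, inv_inv] at h8
  show ⁅xG hp.inList a t, xG hp.inList b u⁆ = _
  rw [h8, wordG_cons, wordG_nil, mul_one]
  rfl

end Chev

section F4

/-- the long roots of level one -/
def LgL : List ℕ := [46, 45, 43, 42, 32, 31, 26, 24]

/-- the short roots of level one and the root of level two -/
def ZeL : List ℕ := [29, 36, 38, 39, 40, 44, 47]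

/-- the roots of level zero -/
def L0L : List ℕ := [6, 10, 12, 13, 14, 17, 19, 20, 22, 25, 27, 28, 30, 33, 34, 35, 37, 41]

/-- the flag -/
def Gam (j : ℕ) : List ℕ := ZeL ++ LgL.take j

/-- the form -/
def q4 (a b : ℕ) : ℤ := qf (cartanOf chevF4 4) (toV dlF4c) (vec chevF4 4 a) (vec chevF4 4 b)

theorem tb_gt : ∀ a < 48, 0 < q4 a 47 → a ∈ Gam 8 := by decide +kernel
theorem tb_gt' : ∀ a ∈ Gam 8, a < 48 ∧ 0 < q4 a 47 := by decide +kernel
theorem tb_lg : ∀ a ∈ LgL, q4 a a = q4 47 47 ∧ 2 * q4 a 47 = q4 47 47 ∧ a ≠ 47 := by decide +kernel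
theorem tb_lv : ∀ a ∈ Gam 8, q4 47 47 ≤ 2 * q4 a 47 := by decide +kernel
theorem tb_len : ∀ a < 48, ∀ b ∈ LgL, a = b ∨ 2 * q4 a b ≤ q4 b b := by decide +kernel
theorem tb_zero : ∀ a < 48, q4 a 47 = 0 → a ∈ L0L := by decide +kernel
theorem tb_inv : ∀ j < 9, ∀ b ∈ List.range' 24 24, InvE chevF4 (Gam j) b := by decide +kernel
theorem tb_inv0 : ∀ b ∈ L0L, InvE chevF4 ZeL b ∧ InvE chevF4 (Gam 8) b := by decide +kernel
theorem tb_cen : ∀ a ∈ ZeL, ∀ b ∈ Gam 8, EvC chevF4 a b := by decide +kernel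
theorem tb_pos : ∀ a < 48, (∀ i : Fin 4, 0 ≤ vec chevF4 4 a i) → a ∈ List.range' 24 24 := by decide +kernel
theorem tb_pos' : ∀ a ∈ Gam 8, ∀ i : Fin 4, 0 ≤ vec chevF4 4 a i := by decide +kernel
theorem tb_nr : chevF4.nroots = 48 := by decide +kernel
theorem tb_inj : ∀ a < 48, ∀ b < 48, vec chevF4 4 a = vec chevF4 4 b → a = b := by decide +kernel

/-- the odd commutators -/
def oddC (a b : ℕ) : Prop := (∀ i : Fin 4, vec chevF4 4 a i + vec chevF4 4 b i = vec chevF4 4 47 i) ∧ a ≠ b ∧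
  a ≠ chevF4.neg b ∧ (chevF4.commTerms b a = [(47, 1, 1, 1)] ∨ chevF4.commTerms b a = [(47, -1, 1, 1)])

instance (a b : ℕ) : Decidable (oddC a b) := by unfold oddC; infer_instance

theorem tb_odd : ∀ a ∈ LgL, ∃ b < 48, oddC a b := by decide +kernel

variable {K : Type u} [Field K] [Fintype K] {W : Type} [Group W] [Finite W] (cs : CoxeterSystem CoxeterMatrix.F₄ W)

/-- the set of roots of a list -/
def SS (Γ : List ℕ) : Set (Fin 4 → ℤ) := {s | ∃ a ∈ Γ, s = vec chevF4 4 a}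

theorem grF47 : GR cs isType_F4.isCartan (toV dlF4c) (vec chevF4 4 47) := by
  have h1 : vec chevF4 4 47 = toV [2, 4, 3, 2] := by decide +kernel
  rw [h1]
  exact grF cs isType_F4

theorem root_iff {s : Fin 4 → ℤ} : IsRoot cs isType_F4.isCartan s ↔ ∃ a < 48, s = vec chevF4 4 a := by
  rw [isRoot_iff isType_F4 cs]
  constructor
  · rintro ⟨a, ha, rfl⟩
    exact ⟨a, by rwa [tb_nr] at ha, rfl⟩
  · rintro ⟨a, ha, rfl⟩
    exact ⟨a, by rwa [tb_nr], rfl⟩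

theorem cpr47 {a : ℕ} (ha : a < 48) :
    cpr cs isType_F4.isCartan (vec chevF4 4 a) (vec chevF4 4 47) * q4 47 47 = 2 * q4 a 47 :=
  cpr_mul_qf cs isType_F4.isCartan (grF47 cs).hd _ (grF47 cs).rr

theorem q47_pos : 0 < q4 47 47 := by decide +kernel

theorem mem_Gt_iff {s : Fin 4 → ℤ} : s ∈ Gt cs isType_F4.isCartan (vec chevF4 4 47) ↔ s ∈ SS (Gam 8) := by
  have h0 := q47_pos
  constructor
  · rintro ⟨hs, hpos⟩
    obtain ⟨a, ha, rfl⟩ := (root_iff cs).1 hs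
    have h1 := cpr47 cs ha
    refine ⟨a, tb_gt a ha ?_, rfl⟩
    have := mul_pos hpos h0
    omega
  · rintro ⟨a, ha, rfl⟩
    obtain ⟨h1, h2⟩ := tb_gt' a ha
    refine ⟨(root_iff cs).2 ⟨a, h1, rfl⟩, ?_⟩
    have h3 := cpr47 cs h1
    by_contra h4
    push Not at h4
    have := mul_nonpos_of_nonpos_of_nonneg h4 h0.le
    omega

theorem Gt_eq : Gt cs isType_F4.isCartan (vec chevF4 4 47) = SS (Gam 8) := Set.ext fun _ => mem_Gt_iff cs

theorem mem_SS {Γ : List ℕ} (hΓ : ∀ a ∈ Γ, a < 48) {a : ℕ} (ha : a < 48) : vec chevF4 4 a ∈ SS Γ ↔ a ∈ Γ := by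
  constructor
  · rintro ⟨b, hb, e⟩
    rwa [tb_inj a ha b (hΓ b hb) e]
  · intro h
    exact ⟨a, h, rfl⟩

theorem diff_eq : SS (Gam 8) \ SS LgL = SS ZeL := by
  have h1 : ∀ a ∈ Gam 8, a ∈ ZeL ∨ a ∈ LgL := by decide +kernel
  have h2 : ∀ a ∈ ZeL, a ∈ Gam 8 ∧ a ∉ LgL := by decide +kernel
  have h3 : ∀ a ∈ Gam 8, a < 48 := by decide +kernel
  have h4 : ∀ a ∈ LgL, a < 48 := by decide +kernel
  ext s
  constructor
  · rintro ⟨⟨a, ha, rfl⟩, h5⟩
    rw [mem_SS h4 (h3 a ha)] at h5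
    exact ⟨a, (h1 a ha).resolve_right h5, rfl⟩
  · rintro ⟨a, ha, rfl⟩
    obtain ⟨h5, h6⟩ := h2 a ha
    exact ⟨⟨a, h5, rfl⟩, by rwa [mem_SS h4 (h3 a h5)]⟩

theorem SS_XX {Γ : List ℕ} (hΓ : ∀ a ∈ Γ, a < 48) :
    RGD.Sup (XX chevF4 4 K) (SS Γ) = UG isType_F4.inList K Γ :=
  Sup_eq_UG isType_F4 (Γ := Γ) fun a ha => by rw [tb_nr]; exact hΓ a ha

/-- **The data of the long root in characteristic two.** -/
theorem hv_F4 (p : ℕ) [Fact p.Prime] [CharP K p] (h2 : (2 : K) = 0) :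
    Hv (rgd (K := K) isType_F4 cs p) (vec chevF4 4 47) (SS LgL) := by
  have H := grF47 cs
  have hlr : LR (rgd (K := K) isType_F4 cs p) (vec chevF4 4 47) := by
    have h1 : vec chevF4 4 47 = toV [2, 4, 3, 2] := by decide +kernel
    rw [h1]
    exact (hb_F4 cs p).lr
  have hp := isType_F4
  have hg8 : ∀ a ∈ Gam 8, a < 48 := by decide +kernel
  refine ⟨hlr, fun s hs hsr => H.sub_mem hs hsr, ?_, ?_, ?_, ?_, ?_⟩
  · rintro s hs t ht hsr htr hst ⟨u, hu'⟩ hu ⟨v, hv'⟩ hv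
    have h1 := H.cpr_one hs.1 hsr hs.2
    have h2 := H.cpr_one ht.1 htr ht.2
    have h3 : cpr cs isType_F4.isCartan (s + t) (vec chevF4 4 47) = 2 := by
      rw [cpr_add cs _ _ _ H.rr, h1, h2]; norm_num
    refine Subtype.ext (commX isType_F4 chkNF hs.1 ht.1 ?_ ?_ hu hv)
    · rintro rfl
      rw [neg_add_cancel] at h3
      have h4 := cpr_smul cs isType_F4.isCartan 0 (vec chevF4 4 47) H.rr
      rw [zero_smul, zero_mul] at h4
      omega
    · intro h4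
      have h5 := H.cpr_one h4 hst (by omega)
      omega
  · rintro s hs hsr ⟨u, hu'⟩ hu ⟨v, hv'⟩ hv
    have hs2 := H.sub_mem hs hsr
    obtain ⟨a, ha, ea⟩ := (isRoot_iff hp cs _).1 hs.1
    obtain ⟨b, hb, eb⟩ := (isRoot_iff hp cs _).1 hs2.1
    rw [← ea, Subgroup.mem_subgroupOf, XV_vec hp K ha, mem_rootSubgroup_iff hp.inList] at hu
    rw [← eb, Subgroup.mem_subgroupOf, XV_vec hp K hb, mem_rootSubgroup_iff hp.inList] at hv
    obtain ⟨t, rfl⟩ := hu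
    obtain ⟨u, rfl⟩ := hv
    obtain ⟨C, -, h1⟩ := commS hp (K := K) chkSF ha hb (by rw [ea, eb, add_sub_cancel])
    rw [Subgroup.mem_subgroupOf, XV_vec hp K (by decide +kernel)]
    show ⁅xG hp.inList a t, xG hp.inList b u⁆ ∈ _
    rw [h1]
    exact xG_mem_rootSubgroup hp.inList _ _
  · rintro s ⟨a, ha, rfl⟩
    have h3 := tb_lg a ha
    have h4 : a ∈ Gam 8 := by
      have : ∀ a ∈ LgL, a ∈ Gam 8 := by decide +kernel
      exact this a ha
    refine ⟨(mem_Gt_iff cs).2 ⟨a, h4, rfl⟩, ?_⟩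
    intro h5
    exact h3.2.2 (tb_inj a (hg8 a h4) 47 (by norm_num) h5)
  · intro s hs hsS t ht u hu v hv
    have h3 : s ∈ SS (Gam 8) \ SS LgL := ⟨(mem_Gt_iff cs).1 hs, hsS⟩
    rw [diff_eq] at h3
    obtain ⟨a, ha, rfl⟩ := h3
    obtain ⟨b, hb, rfl⟩ := (mem_Gt_iff cs).1 ht
    have h4 := tb_cen a ha b hb
    obtain ⟨x, rfl⟩ := (mem_XX_xS isType_F4 h4.1).1 hu
    obtain ⟨y, rfl⟩ := (mem_XX_xS isType_F4 h4.2.1).1 hv
    exact (h4.comm isType_F4.inList h2 x y).eq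
  · rintro s ⟨a, ha, rfl⟩ u hu hu1 w hw
    obtain ⟨b, hb, hab, hne, hnn, hC⟩ := tb_odd a ha
    have hab' : vec chevF4 4 a + vec chevF4 4 b = vec chevF4 4 47 := funext hab
    have ha48 : a < 48 := by
      have : ∀ a ∈ LgL, a < 48 := by decide +kernel
      exact this a ha
    have hbr : vec chevF4 4 47 - vec chevF4 4 a = vec chevF4 4 b := by rw [← hab']; abel
    rw [hbr]
    obtain ⟨t, rfl⟩ := (mem_XX_xS isType_F4 (by rwa [tb_nr])).1 hu
    obtain ⟨c, rfl⟩ := (mem_XX_xS isType_F4 (by decide +kernel)).1 hw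
    have ht0 : t ≠ 0 := by
      rintro rfl
      exact hu1 (xS_zero isType_F4.inList a)
    obtain ⟨C, hC1, hC2⟩ : ∃ C : ℤ, (C : K) ≠ 0 ∧ chevF4.commTerms b a = [(47, C, 1, 1)] := by
      rcases hC with hC | hC
      · exact ⟨1, by simp, hC⟩
      · exact ⟨-1, by simp, hC⟩
    have h1 := comm_one isType_F4 (K := K) (by rwa [tb_nr]) (by rwa [tb_nr]) hne hnn hC2
    refine ⟨xS isType_F4.inList b (-(C : K)⁻¹ * c * t⁻¹), (mem_XX_xS isType_F4 (by rwa [tb_nr])).2 ⟨_, rfl⟩, ?_⟩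
    rw [h1]
    congr 1
    field_simp

theorem Gam_sub {j : ℕ} : ∀ a ∈ Gam j, a ∈ Gam 8 := by
  intro a ha
  have h1 : Gam 8 = ZeL ++ LgL := by decide +kernel
  rw [h1]
  unfold Gam at ha
  rcases List.mem_append.1 ha with h | h
  · exact List.mem_append_left _ h
  · exact List.mem_append_right _ (List.mem_of_mem_take h)

theorem closed_Gam (j : ℕ) : Cfsg.Agent.Nodes.Unique.Closed cs isType_F4.isCartan (SS (Gam j)) := by
  rintro x ⟨a, ha, rfl⟩ y ⟨b, hb, rfl⟩ z ⟨hz, m, u, v, hm, hu, hv, he⟩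
  have hg8 : ∀ a ∈ Gam 8, a < 48 := by decide +kernel
  have h47 := q47_pos
  obtain ⟨c, hc, rfl⟩ := (root_iff cs).1 hz
  have hlin : ∀ w, m * qf (cartanOf chevF4 4) (toV dlF4c) (vec chevF4 4 c) w =
      u * qf (cartanOf chevF4 4) (toV dlF4c) (vec chevF4 4 a) w +
        v * qf (cartanOf chevF4 4) (toV dlF4c) (vec chevF4 4 b) w := by
    intro w
    have := congrArg (fun y => qf (cartanOf chevF4 4) (toV dlF4c) y w) he
    simpa only [qf_smul_left, qf_add_left] using this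
  have ha8 := Gam_sub a ha
  have hb8 := Gam_sub b hb
  have h1 : m * q4 c 47 = u * q4 a 47 + v * q4 b 47 := hlin _
  have h2 : m * q4 c c = u * q4 a c + v * q4 b c := hlin _
  have h3 := tb_lv a ha8
  have h4 := tb_lv b hb8
  have hla : 0 < q4 a 47 := (tb_gt' a ha8).2
  have hlb : 0 < q4 b 47 := (tb_gt' b hb8).2
  have hpos : 0 < q4 c 47 := by
    by_contra h5
    push Not at h5
    have h6 := mul_nonpos_of_nonneg_of_nonpos hm.le h5
    have h7 := mul_pos hu hla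
    have h8 := mul_pos hv hlb
    omega
  have hc8 := tb_gt c hc hpos
  by_cases hcL : c ∈ LgL
  · by_cases hcj : c ∈ Gam j
    · exact ⟨c, hcj, rfl⟩
    exfalso
    obtain ⟨h5, h6, -⟩ := tb_lg c hcL
    have h7 := (tb_len a (hg8 a ha8) c hcL).resolve_left (by rintro rfl; exact hcj ha)
    have h8 := (tb_len b (hg8 b hb8) c hcL).resolve_left (by rintro rfl; exact hcj hb)
    rw [h5] at h2 h7 h8
    have e1 : u * (2 * q4 a c) ≤ u * q4 47 47 := mul_le_mul_of_nonneg_left h7 hu.le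
    have e2 : v * (2 * q4 b c) ≤ v * q4 47 47 := mul_le_mul_of_nonneg_left h8 hv.le
    have e3 : u * q4 47 47 ≤ u * (2 * q4 a 47) := mul_le_mul_of_nonneg_left h3 hu.le
    have e4 : v * q4 47 47 ≤ v * (2 * q4 b 47) := mul_le_mul_of_nonneg_left h4 hv.le
    have e5 : m * (2 * q4 c 47) = m * q4 47 47 := by rw [h6]
    have e6 := mul_pos hm h47
    nlinarith
  · refine ⟨c, ?_, rfl⟩
    have h5 : ∀ a ∈ Gam 8, a ∈ ZeL ∨ a ∈ LgL := by decide +kernel
    exact List.mem_append_left _ ((h5 c hc8).resolve_right hcL)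

theorem SS_sub_pos (j : ℕ) : SS (Gam j) ⊆ RGD.Pos cs isType_F4.isCartan := by
  rintro s ⟨a, ha, rfl⟩
  have hg8 : ∀ a ∈ Gam 8, a < 48 := by decide +kernel
  exact ⟨(root_iff cs).2 ⟨a, hg8 a (Gam_sub a ha), rfl⟩, tb_pos' a (Gam_sub a ha)⟩

theorem lt48 {j : ℕ} : ∀ a ∈ Gam j, a < 48 := by
  have hg8 : ∀ a ∈ Gam 8, a < 48 := by decide +kernel
  exact fun a ha => hg8 a (Gam_sub a ha)

theorem B_norm {p : ℕ} [Fact p.Prime] [CharP K p] (h2 : (2 : K) = 0) {j : ℕ} (hj : j < 9) :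
    ∀ b ∈ RGD.B cs isType_F4.isCartan (TT chevF4 K) (XX chevF4 4 K), ∀ y ∈ RGD.Sup (XX chevF4 4 K) (SS (Gam j)),
      b * y * b⁻¹ ∈ RGD.Sup (XX chevF4 4 K) (SS (Gam j)) := by
  have hfin : Finite ↥(chevF4.group K) := inferInstance
  have h1 : RGD.B cs isType_F4.isCartan (TT chevF4 K) (XX chevF4 4 K) ≤
      Subgroup.normalizer (RGD.Sup (XX chevF4 4 K) (SS (Gam j)) : Set ↥(chevF4.group K)) := by
    refine sup_le (fun t ht => mem_norm_of_conj ?_) (RGD.Sup_le ?_)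
    · exact tor_Sup (rgd (K := K) isType_F4 cs p) (fun s hs => (SS_sub_pos cs j hs).1) ht
    · rintro s ⟨hs, hs0⟩ u hu
      obtain ⟨a, ha, rfl⟩ := (root_iff cs).1 hs
      obtain ⟨t, rfl⟩ := (mem_XX_xS isType_F4 (by rwa [tb_nr])).1 hu
      refine mem_norm_of_conj ?_
      rw [SS_XX lt48]
      exact fun y hy => (tb_inv j hj a (tb_pos a ha hs0)).conj_mem isType_F4.inList h2 t hy
  intro b hb y hy
  exact (Subgroup.mem_normalizer_iff.1 (h1 hb) y).1 hy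

theorem eq_one_of_long {w : W} (hw : ∀ a ∈ LgL, rep cs isType_F4.isCartan w (vec chevF4 4 a) = vec chevF4 4 a) : w = 1 := by
  have hf : ∀ a ∈ [24, 26, 31, 42], rep cs isType_F4.isCartan w (vec chevF4 4 a) = vec chevF4 4 a := by
    have : ∀ a ∈ [24, 26, 31, 42], a ∈ LgL := by decide +kernel
    exact fun a ha => hw a (this a ha)
  have e24 := hf 24 (by decide)
  have e26 := hf 26 (by decide)
  have e31 := hf 31 (by decide)
  have e42 := hf 42 (by decide)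
  have d3 : (sr 3 : Fin 4 → ℤ) = vec chevF4 4 24 := by decide +kernel
  have d2 : (sr 2 : Fin 4 → ℤ) = vec chevF4 4 26 - vec chevF4 4 24 := by decide +kernel
  have d1 : (2 : ℤ) • (sr 1 : Fin 4 → ℤ) = vec chevF4 4 31 - vec chevF4 4 26 := by decide +kernel
  have d0 : (2 : ℤ) • (sr 0 : Fin 4 → ℤ) = vec chevF4 4 42 - vec chevF4 4 31 := by decide +kernel
  have hcan : ∀ x : Fin 4 → ℤ, rep cs isType_F4.isCartan w ((2 : ℤ) • x) = (2 : ℤ) • x →
      rep cs isType_F4.isCartan w x = x := by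
    intro x hx
    rw [map_smul] at hx
    exact smul_right_injective _ (two_ne_zero) hx
  refine eq_one_of_fix cs isType_F4.isCartan w fun i => ?_
  fin_cases i
  · refine hcan _ ?_
    show rep cs isType_F4.isCartan w ((2 : ℤ) • (sr 0 : Fin 4 → ℤ)) = _
    rw [d0, map_sub, e42, e31]
    exact d0.symm
  · refine hcan _ ?_
    show rep cs isType_F4.isCartan w ((2 : ℤ) • (sr 1 : Fin 4 → ℤ)) = _
    rw [d1, map_sub, e31, e26]
    exact d1.symm
  · show rep cs isType_F4.isCartan w (sr 2 : Fin 4 → ℤ) = (sr 2 : Fin 4 → ℤ)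
    rw [d2, map_sub, e26, e24]
  · show rep cs isType_F4.isCartan w (sr 3 : Fin 4 → ℤ) = (sr 3 : Fin 4 → ℤ)
    rw [d3, e24]

/-- **An element of prime order of `L₀` acts non-trivially on the spin module.** -/
theorem exists_ne {p : ℕ} [Fact p.Prime] [CharP K p] (h2 : (2 : K) = 0) {ℓ : ℕ} (hℓ : ℓ.Prime) (hℓp : ℓ ≠ p)
    (hℓq : ¬ ℓ ∣ Fintype.card K - 1) {x : ↥(chevF4.group K)}
    (hx : x ∈ L0 cs isType_F4.isCartan (XX chevF4 4 K) (vec chevF4 4 47)) (hxo : orderOf x = ℓ) :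
    ∃ w ∈ TwoExc.QQ cs isType_F4.isCartan (XX chevF4 4 K) (vec chevF4 4 47),
      ⁅x, w⁆ ∉ RGD.Sup (XX chevF4 4 K) (Gt cs isType_F4.isCartan (vec chevF4 4 47) \ SS LgL) := by
  have hfin : Finite ↥(chevF4.group K) := inferInstance
  by_contra hcon
  push Not at hcon
  have R := rgd (K := K) isType_F4 cs p
  rw [Gt_eq, diff_eq] at hcon
  have hQ : TwoExc.QQ cs isType_F4.isCartan (XX chevF4 4 K) (vec chevF4 4 47) = RGD.Sup (XX chevF4 4 K) (SS (Gam 8)) := by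
    unfold TwoExc.QQ
    rw [Gt_eq]
  have hx0 : ∀ j, ∀ y ∈ RGD.Sup (XX chevF4 4 K) (SS (Gam j)), x * y * x⁻¹ ∈ RGD.Sup (XX chevF4 4 K) (SS (Gam j)) := by
    intro j y hy
    have h3 : y ∈ RGD.Sup (XX chevF4 4 K) (SS (Gam 8)) :=
      RGD.Sup_mono (S' := SS (Gam 8)) (by rintro s ⟨a, ha, rfl⟩; exact ⟨a, Gam_sub a ha, rfl⟩) hy
    rw [← hQ] at h3
    have h4 := hcon y h3
    have h5 : RGD.Sup (XX chevF4 4 K) (SS ZeL) ≤ RGD.Sup (XX chevF4 4 K) (SS (Gam j)) :=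
      RGD.Sup_mono (S' := SS (Gam j)) (by rintro s ⟨a, ha, rfl⟩; exact ⟨a, List.mem_append_left _ ha, rfl⟩)
    have h6 : x * y * x⁻¹ = ⁅x, y⁆ * y := by rw [commutatorElement_def]; group
    rw [h6]
    exact mul_mem (h5 h4) hy
  -- Bruhat decomposition
  have hG : GG cs isType_F4.isCartan (TT chevF4 K) (XX chevF4 4 K) = ⊤ :=
    KFacts.RgdRigid.GG_eq_top (G1_eq_top (K := K) isType_F4 cs)
  obtain ⟨w, hw⟩ := (mem_GG (rgd (K := K) isType_F4 cs p) (g := x)).1 (by rw [hG]; trivial)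
  have hstab : ∀ j < 9, ∀ s ∈ SS (Gam j), rep cs isType_F4.isCartan w s ∈ SS (Gam j) := fun j hj s hs =>
    rep_mem_of_norm (rgd (K := K) isType_F4 cs p) (SS_sub_pos cs j) (closed_Gam cs j) hw (hx0 j)
      (B_norm (p := p) cs h2 hj) hs
  have hlong : ∀ a ∈ LgL, rep cs isType_F4.isCartan w (vec chevF4 4 a) = vec chevF4 4 a := by
    have h3 : ∀ a ∈ LgL, ∃ j < 8, a ∉ Gam j ∧ (∀ b ∈ Gam (j + 1), b = a ∨ b ∈ Gam j) ∧ a ∈ Gam (j + 1) := by
      decide +kernel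
    intro a ha
    obtain ⟨j, hj, h4, h5, h6⟩ := h3 a ha
    refine rep_eq_of_chain (S := SS (Gam j)) ?_ ?_ (hstab j (by omega)) ?_
    · exact (RGD.finite_roots (cs := cs) (h := isType_F4.isCartan)).subset fun s hs => (SS_sub_pos cs j hs).1
    · rwa [mem_SS lt48 (lt48 a h6)]
    · obtain ⟨b, hb, e⟩ := hstab (j + 1) (by omega) _ ⟨a, h6, rfl⟩
      rw [e]
      rcases h5 b hb with rfl | h7
      · exact Set.mem_insert _ _
      · exact Set.mem_insert_of_mem _ ⟨b, h7, rfl⟩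
  have hw1 := eq_one_of_long cs hlong
  subst hw1
  have hxB := hw.mem_of_one
  have hxU : x ∈ RGD.Sup (XX chevF4 4 K) (RGD.Pos cs isType_F4.isCartan) := by
    refine mem_right_of_coprime ?_ (((Nat.Prime.coprime_iff_not_dvd hℓ).2 hℓq).symm)
      (fun t ht => tor_pow isType_F4 ht) hxB hxo
    exact fun t ht => tor_Sup (rgd (K := K) isType_F4 cs p) (fun s hs => hs.1) ht
  have hU : IsPGroup p (RGD.Sup (XX chevF4 4 K) (RGD.Pos cs isType_F4.isCartan)) :=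
    (rgd (K := K) isType_F4 cs p).isPGroup_Upos
  obtain ⟨s, hs⟩ := hU ⟨x, hxU⟩
  have h3 : x ^ p ^ s = 1 := congrArg Subtype.val hs
  have h4 := orderOf_dvd_of_pow_eq_one h3
  rw [hxo] at h4
  exact hℓp ((Nat.prime_dvd_prime_iff_eq hℓ (Fact.out : p.Prime)).1 (hℓ.dvd_of_dvd_pow h4))

/-- **`F₄(q)`, `q` even, order `6`.** -/
theorem f4_six_even {ℓ : ℕ} (hℓ : ℓ.Prime) (hℓK : (ℓ : K) ≠ 0) (h2K : (2 : K) = 0)
    (ho : orderOf (Fintype.card K : ZMod ℓ) = 6) : FprRow (ℓ + 1) 1 ℓ ↥(chevF4.group K) := by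
  have hK : 2 < Fintype.card K := base_six hℓ ho two_le_q
  obtain ⟨p, hp, hpK, hℓp, hℓq, a, b, ha, hb, hba, hs, hM⟩ := setup hℓ hℓK (by omega) ho
  have : Fact p.Prime := ⟨hp⟩
  have hfin : Finite ↥(chevF4.group K) := inferInstance
  have hsimp := Cfsg.Agent.S1054.result (F := K) chevF4 (by simp)
  have : IsSimpleGroup ↥(chevF4.group K) := hsimp.1
  let cs : CoxeterSystem CoxeterMatrix.F₄ _ := CoxeterMatrix.F₄.toCoxeterSystem
  have hW : Finite CoxeterMatrix.F₄.Group := finite_W isType_F4 cs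
  have h47 : vec chevF4 4 47 = toV [2, 4, 3, 2] := by decide +kernel
  have HB := hb_F4 (K := K) cs p
  rw [← h47] at HB
  have HV := hv_F4 cs p h2K (K := K)
  have hQp := isPGroup_QQ HB
  obtain ⟨x, hx, hxo⟩ := exists_L0' HV hℓ hℓp (((Nat.Prime.coprime_iff_not_dvd hℓ).2 hℓq).symm)
    (fun t ht => tor_pow isType_F4 ht) hQp (by
      have h1 := dvd_pow_sub ho dvd_rfl
      have h2 := card_P_F4 (K := K) cs p isType_F4
      rw [← h47] at h2
      have h3 : (ℓ : ℤ) ∣ (Nat.card ↥(PS (TT chevF4 K) (XX chevF4 4 K)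
          (Ge cs isType_F4.isCartan (vec chevF4 4 47))) : ℤ) := by
        rw [h2]
        exact Dvd.dvd.mul_left h1 _
      exact_mod_cast h3)
  obtain ⟨i, w, hw, hone⟩ := HB.long
  obtain ⟨g, S⟩ := scR_chev isType_F4 cs p hw hone hK
  obtain ⟨s, hsd⟩ : ∃ s, s = p ^ b := ⟨_, rfl⟩
  rw [← hsd] at hs hM
  have hs2 : 2 ≤ s := by rw [hsd]; exact two_le_pow hp hb
  have hs3 := base_six hℓ hs hs2
  have key := uGood_hv (D := 14) (k := 1) (M' := s ^ 6) HV this (G1_eq_top isType_F4 cs) S hℓ hℓp hx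
    (by rw [pow_one, ← hxo]; exact pow_orderOf_eq_one x) (exists_ne cs h2K hℓ hℓp hℓq hx hxo) hQp (by
      refine lt_of_le_of_lt (Subgroup.card_le_of_le inf_le_left) ?_
      rw [HB.cardQ, HB.cardX, ← pow_succ]
      exact Nat.pow_lt_pow_right (by omega) (by omega)) hM (Nat.one_le_pow _ _ (by omega))
  refine good_of_uGood (k := 1) hℓ (by rw [pow_one, ← hxo]; exact pow_orderOf_eq_one x) key ?_
  have h1 := ar_six (by exact_mod_cast hs3) (le_six hℓ hs)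
  have h2 : 22 * (ℓ + 1) ≤ s ^ 6 + 15 := by exact_mod_cast h1
  have := hℓ.two_le
  omega

end F4

end Cfsg.Agent.H441.FPR.Heis
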