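import Cfsg.Agent.H441.FPR.BitA
import Cfsg.Agent.H441.FPR.HeisY

/-!
# Explicit elements of `L₀` over the field of two elements
-/

set_option autoImplicit false
set_option linter.unusedSectionVars false
set_option linter.unusedVariables false
set_option maxRecDepth 100000

namespace Cfsg.Agent.H441.FPR.Bit

open CoxeterSystem Cfsg.Agent.ChevalleyStructure.CoxeterGeom Cfsg.Agent.Tits.Roots Cfsg.Agent.Tits.Core
  Cfsg.Agent.Nodes.Reps Cfsg.Agent.Nodes.BNOf Cfsg.Agent.Nodes.Coroot Cfsg.Agent.Nodes.LeviDec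
  Cfsg.Agent.Nodes.PosPair Cfsg.Agent.Nodes.StabComb Cfsg.Agent.Nodes.KindChev Cfsg.Agent.KFacts.RgdCent
  Cfsg.Agent.Nodes.Bruhat Cfsg.Agent.Nodes.OppDec Cfsg.Agent.Tits.Exchange
  Cfsg.Agent.KFacts.RgdPar Cfsg.Agent.KFacts.RgdSL Cfsg.Agent.KFacts.RgdTI Cfsg.Agent.Nodes.RGDChev
  Cfsg.Agent.ChevalleyStructure.CoxeterGeomTypes
open Cfsg.Lie Cfsg.Agent.ChevalleyStructure Cfsg.Agent.ChevalleyStructure.Elts Cfsg.Agent.ChevalleyStructure.NPerm
open Cfsg.Agent.KFacts.RgdChevCoord Cfsg.Agent.Nodes.ChevCls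
open Cfsg.Agent.H400.TwoExc Cfsg.Agent.H400.Fpr
open Cfsg.Agent.H398.FPR (UGood Good)
open Cfsg.Agent.H409 (FprRow)
open scoped commutatorElement
open Cfsg.Agent.H79.SimpleGen
open Cfsg.Agent.H400
open Cfsg.Agent.H441.FPR.Heis

universe u

/-! ### The quotient by a central subgroup -/

section Quot

variable {Y : Type u} [Group Y] {Z Q : Subgroup Y}

theorem exists_quot (hC : C2 Z Q) : ∃ (A : Type u) (_ : CommGroup A) (π : ↥Q →* A), Function.Surjective π ∧
    ∀ y, π y = 1 ↔ (y : Y) ∈ Z := by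
  have hn : (Z.subgroupOf Q).Normal := by
    constructor
    rintro ⟨z, hz⟩ hzZ ⟨g, hg⟩
    rw [Subgroup.mem_subgroupOf] at hzZ ⊢
    show g * z * g⁻¹ ∈ Z
    rw [← hC.cen z hzZ g hg, mul_inv_cancel_right]
    exact hzZ
  refine ⟨↥Q ⧸ Z.subgroupOf Q, { (inferInstance : Group (↥Q ⧸ Z.subgroupOf Q)) with mul_comm := ?_ },
    QuotientGroup.mk' _, QuotientGroup.mk'_surjective _, fun y => ?_⟩
  · intro a b
    obtain ⟨a, rfl⟩ := QuotientGroup.mk_surjective a
    obtain ⟨b, rfl⟩ := QuotientGroup.mk_surjective b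
    rw [← QuotientGroup.mk_mul, ← QuotientGroup.mk_mul, QuotientGroup.eq]
    rw [Subgroup.mem_subgroupOf]
    have h1 := hC.com (b : Y)⁻¹ (inv_mem b.2) (a : Y)⁻¹ (inv_mem a.2)
    rw [commutatorElement_def, inv_inv, inv_inv] at h1
    simp only [Subgroup.coe_mul, InvMemClass.coe_inv, mul_inv_rev]
    convert h1 using 1
    group
  · rw [QuotientGroup.mk'_apply, QuotientGroup.eq_one_iff, Subgroup.mem_subgroupOf]

/-- the induced endomorphism -/
theorem exists_end {A : Type u} [CommGroup A] {π : ↥Q →* A} (hs : Function.Surjective π)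
    (hk : ∀ y, π y = 1 ↔ (y : Y) ∈ Z) {x : Y} (hQ : ∀ y ∈ Q, x * y * x⁻¹ ∈ Q) (hZ : ∀ y ∈ Z, x * y * x⁻¹ ∈ Z) :
    ∃ α : A →* A, ∀ y (hy : y ∈ Q), ∃ h : x * y * x⁻¹ ∈ Q, π ⟨x * y * x⁻¹, h⟩ = α (π ⟨y, hy⟩) := by
  let c : ↥Q →* ↥Q :=
    { toFun := fun y => ⟨x * y * x⁻¹, hQ y y.2⟩
      map_one' := by apply Subtype.ext; show x * 1 * x⁻¹ = 1; group
      map_mul' := fun a b => by
        apply Subtype.ext
        show x * (a * b) * x⁻¹ = x * a * x⁻¹ * (x * b * x⁻¹)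
        group }
  have hker : π.ker ≤ (π.comp c).ker := by
    intro y hy
    rw [MonoidHom.mem_ker] at hy ⊢
    rw [hk] at hy
    exact (hk _).2 (hZ y hy)
  refine ⟨π.liftOfSurjective hs ⟨π.comp c, hker⟩, fun y hy => ⟨hQ y hy, ?_⟩⟩
  have h1 := π.liftOfRightInverse_comp_apply (Function.surjInv hs) (Function.rightInverse_surjInv hs) ⟨π.comp c, hker⟩ ⟨y, hy⟩
  exact h1.symm

/-- the centraliser is small -/
theorem card_cent_le [Finite Y] {A : Type u} [CommGroup A] {π : ↥Q →* A} (hs : Function.Surjective π)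
    (hk : ∀ y, π y = 1 ↔ (y : Y) ∈ Z) (hZQ : Z ≤ Q) {x : Y} {α θ : A →* A} (hθ : ∀ v, θ v = α v * v⁻¹)
    (hα : ∀ y (hy : y ∈ Q), ∃ h : x * y * x⁻¹ ∈ Q, π ⟨x * y * x⁻¹, h⟩ = α (π ⟨y, hy⟩)) :
    Nat.card ↥(Q ⊓ Subgroup.centralizer {x}) ≤ Nat.card θ.ker * Nat.card Z := by
  have h1 : Nat.card π.ker = Nat.card Z := by
    have e : π.ker = Z.subgroupOf Q := by
      ext y
      rw [MonoidHom.mem_ker, hk, Subgroup.mem_subgroupOf]
    rw [e]
    exact Nat.card_congr (Subgroup.subgroupOfEquivOfLe hZQ).toEquiv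
  have h2 : Nat.card (θ.ker.comap π) = Nat.card θ.ker * Nat.card Z := by
    rw [← h1]
    have hfA : Finite A := Finite.of_surjective π hs
    have h3 := Subgroup.card_mul_index (θ.ker.comap π)
    rw [Subgroup.index_comap_of_surjective _ hs] at h3
    have h4 := Subgroup.card_mul_index θ.ker
    have h5 := Subgroup.card_mul_index π.ker
    rw [Subgroup.index_ker, MonoidHom.range_eq_top.2 hs, Subgroup.card_top, ← h4] at h5
    have h6 : 0 < θ.ker.index := Nat.pos_of_ne_zero Subgroup.index_ne_zero_of_finite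
    refine Nat.eq_of_mul_eq_mul_right h6 ?_
    rw [h3, ← h5]
    ring
  rw [← h2]
  refine Nat.card_le_card_of_injective (fun y => (⟨⟨y.1, (Subgroup.mem_inf.1 y.2).1⟩, ?_⟩ : ↥(θ.ker.comap π))) ?_
  · obtain ⟨y, hy⟩ := y
    obtain ⟨hyQ, hyx⟩ := Subgroup.mem_inf.1 hy
    rw [Subgroup.mem_comap, MonoidHom.mem_ker, hθ]
    obtain ⟨h, e⟩ := hα y hyQ
    rw [← e]
    have h4 : x * y * x⁻¹ = y := by
      rw [← Subgroup.mem_centralizer_singleton_iff.1 hyx]; group
    have h5 : (⟨x * y * x⁻¹, h⟩ : ↥Q) = ⟨y, hyQ⟩ := Subtype.ext h4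
    rw [h5, mul_inv_cancel]
  · intro a b hab
    apply Subtype.ext
    exact congrArg (fun z => ((z : ↥(θ.ker.comap π)) : ↥Q).1) hab

end Quot

/-! ### The action of the root elements -/

/-- the shape of the commutator terms -/
def okT (g : List ℕ) : List (ℕ × ℤ × ℕ × ℕ) → Bool
  | [] => true
  | [(c, C, i, j)] => decide (C % 2 = 1) && (i == 1) && (j == 1) && g.contains c
  | _ => false

/-- the bit vector of the image of a root -/
def bitT (g : List ℕ) (s : ℕ) : List (ℕ × ℤ × ℕ × ℕ) → ℕ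
  | [] => 2 ^ g.idxOf s
  | [(c, _, _, _)] => 2 ^ g.idxOf s ^^^ 2 ^ g.idxOf c
  | _ => 0

/-- the matrix of a root element -/
def genM (D : ChevalleyDatum) (g : List ℕ) (a : ℕ) : List ℕ := g.map fun s => bitT g s (D.commTerms a s)

/-- the conditions on a root element -/
def genOK (D : ChevalleyDatum) (g : List ℕ) (a : ℕ) : Bool :=
  decide (a < D.nroots) && g.all fun s => decide (s < D.nroots) && (s != a) && (s != D.neg a) && okT g (D.commTerms a s)

theorem psi_two_pow {A : Type*} [CommGroup A] (L : List A) {k : ℕ} (hk : k < L.length) : psi L (2 ^ k) = L[k] := by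
  induction L generalizing k with
  | nil => exact absurd hk (by simp)
  | cons a L ih =>
    rcases k with - | k
    · simp [psi, psi_zero]
    · rw [pow_succ, mul_comm, psi_two_mul, ih (by simpa using hk)]
      rfl

section Act

variable {D : ChevalleyDatum} {l : ℕ} {M : CoxeterMatrix (Fin l)} (hp : IsType D l M) {K : Type u} [Field K]
  [Fintype K] {W : Type} [Group W] [Finite W] (cs : CoxeterSystem M W)

variable {Q : Subgroup ↥(D.group K)} {A : Type u} [CommGroup A] (π : ↥Q →* A)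

open Classical in
/-- the one parameter subgroups in the quotient -/
noncomputable def FF (hD : InList D) (π : ↥Q →* A) (s : ℕ) : Multiplicative K →* A :=
  if h : ∀ t : K, xS hD s t ∈ Q then
    π.comp (MonoidHom.mk' (fun t : Multiplicative K => (⟨xS hD s t.toAdd, h _⟩ : ↥Q)) (fun a b => by
      apply Subtype.ext
      show xS hD s (a * b).toAdd = xS hD s a.toAdd * xS hD s b.toAdd
      rw [toAdd_mul, xS_mul]))
  else 1

theorem FF_apply {hD : InList D} {s : ℕ} (h : ∀ t : K, xS hD s t ∈ Q) (t : K) :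
    FF hD π s (Multiplicative.ofAdd t) = π ⟨xS hD s t, h t⟩ := by
  unfold FF
  rw [dif_pos h]
  rfl

/-- `x` acts by the matrix `M` -/
def Act (hD : InList D) (π : ↥Q →* A) (g : List ℕ) (x : ↥(D.group K)) (M : List ℕ) : Prop :=
  ∃ α : A →* A, (∀ y (hy : y ∈ Q), ∃ h : x * y * x⁻¹ ∈ Q, π ⟨x * y * x⁻¹, h⟩ = α (π ⟨y, hy⟩)) ∧
    ∀ t, Rep α (row (FF hD π) g t) M

variable {π} {hD : InList D} {g : List ℕ}

theorem row_sq (h2 : (2 : K) = 0) (t : Multiplicative K) : ∀ a ∈ row (FF hD π) g t, a * a = 1 := by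
  intro a ha
  obtain ⟨s, hs, rfl⟩ := List.mem_map.1 ha
  have h1 : t * t = 1 := by
    show Multiplicative.ofAdd (t.toAdd + t.toAdd) = 1
    rw [← two_mul, h2, zero_mul]
    rfl
  rw [← map_mul, h1, map_one]

theorem Act.mul (h2 : (2 : K) = 0) {x y : ↥(D.group K)} {M N : List ℕ} (hx : Act hD π g x M) (hy : Act hD π g y N) :
    Act hD π g (x * y) (mmul M N) := by
  obtain ⟨α, h3, h4⟩ := hx
  obtain ⟨β, h5, h6⟩ := hy
  refine ⟨α.comp β, fun z hz => ?_, fun t => (h4 t).comp (row_sq h2 t) (h6 t)⟩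
  obtain ⟨h7, e7⟩ := h5 z hz
  obtain ⟨h8, e8⟩ := h3 _ h7
  have e : x * y * z * (x * y)⁻¹ = x * (y * z * y⁻¹) * x⁻¹ := by group
  refine ⟨by rw [e]; exact h8, ?_⟩
  rw [MonoidHom.comp_apply, ← e7, ← e8]
  congr 1
  exact Subtype.ext e

theorem Act.mul' (h2 : (2 : K) = 0) {x y : ↥(D.group K)} {M N P : List ℕ} (hx : Act hD π g x M) (hy : Act hD π g y N)
    (e : mmul M N = P) : Act hD π g (x * y) P := e ▸ hx.mul h2 hy

theorem Act.one : Act hD π g (1 : ↥(D.group K)) (idL g.length) := by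
  refine ⟨MonoidHom.id A, fun z hz => ?_, fun t => ?_⟩
  · have e : 1 * z * (1 : ↥(D.group K))⁻¹ = z := by group
    refine ⟨by rwa [e], ?_⟩
    show π _ = π _
    congr 1
    exact Subtype.ext e
  · have h1 := Rep.one (row (FF hD π) g t)
    unfold row at h1 ⊢
    rwa [List.length_map] at h1

theorem psi_idx {F : ℕ → Multiplicative K →* A} {s : ℕ} (hs : s ∈ g) (t : Multiplicative K) :
    psi (row F g t) (2 ^ g.idxOf s) = F s t := by
  have h1 : g.idxOf s < g.length := List.idxOf_lt_length_iff.2 hs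
  rw [psi_two_pow _ (by unfold row; rwa [List.length_map])]
  unfold row
  rw [List.getElem_map, List.getElem_idxOf h1]

theorem act_gen (h2 : (2 : K) = 0) (hs : Function.Surjective π) {Z : Subgroup ↥(D.group K)}
    (hk : ∀ y, π y = 1 ↔ (y : ↥(D.group K)) ∈ Z) {a : ℕ} (ha : genOK D g a = true) (hgQ : ∀ s ∈ g, ∀ t : K, xS hD s t ∈ Q)
    (hQ : ∀ y ∈ Q, xS hD a 1 * y * (xS hD a 1)⁻¹ ∈ Q) (hZ : ∀ y ∈ Z, xS hD a 1 * y * (xS hD a 1)⁻¹ ∈ Z) :
    Act hD π g (xS hD a (1 : K)) (genM D g a) := by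
  obtain ⟨α, hα⟩ := exists_end hs hk hQ hZ
  refine ⟨α, hα, fun t => ?_⟩
  unfold Rep genM
  show List.Forall₂ (fun a m => α a = psi (row (FF hD π) g t) m) (g.map fun s => FF hD π s t) _
  rw [List.forall₂_map_left_iff, List.forall₂_map_right_iff, List.forall₂_same]
  intro s hsg
  unfold genOK at ha
  rw [Bool.and_eq_true, decide_eq_true_iff, List.all_eq_true] at ha
  obtain ⟨har, ha⟩ := ha
  have ha := ha s hsg
  simp only [Bool.and_eq_true, decide_eq_true_iff, bne_iff_ne] at ha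
  obtain ⟨⟨⟨h3, h4⟩, h5⟩, h6⟩ := ha
  obtain ⟨t, rfl⟩ : ∃ u : K, Multiplicative.ofAdd u = t := ⟨t.toAdd, rfl⟩
  obtain ⟨h7, e7⟩ := hα _ (hgQ s hsg t)
  rw [FF_apply π (hgQ s hsg) t, ← e7]
  have h8 := conj_word hD har h3 h4 h5 (1 : K) t
  generalize D.commTerms a s = L at h6 h8
  rcases L with - | ⟨⟨c, C, i, j⟩, - | ⟨d, L⟩⟩
  · have h9 : wd hD [] (-(1 : K)) t = 1 := rfl
    rw [h9, mul_one] at h8
    have h10 : (⟨xS hD a 1 * xS hD s t * (xS hD a 1)⁻¹, h7⟩ : ↥Q) = ⟨xS hD s t, hgQ s hsg t⟩ := Subtype.ext h8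
    rw [h10, bitT, psi_idx hsg, FF_apply π (hgQ s hsg) t]
  · simp only [okT, Bool.and_eq_true, decide_eq_true_iff, beq_iff_eq, List.contains_iff_mem] at h6
    obtain ⟨⟨⟨h9, rfl⟩, rfl⟩, h11⟩ := h6
    have h12 : wd hD [(c, C, 1, 1)] (-(1 : K)) t = xS hD c t := by
      unfold wd
      rw [List.map_singleton, List.prod_singleton]
      congr 1
      rw [cast_odd h2 h9, neg_neg, one_pow, pow_one, one_mul, one_mul]
    rw [h12] at h8
    have h10 : (⟨xS hD a 1 * xS hD s t * (xS hD a 1)⁻¹, h7⟩ : ↥Q) = ⟨xS hD s t, hgQ s hsg t⟩ * ⟨xS hD c t, hgQ c h11 t⟩ :=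
      Subtype.ext h8
    rw [h10, bitT, psi_xor (row_sq h2 _), psi_idx hsg, psi_idx h11, FF_apply π (hgQ s hsg) t, FF_apply π (hgQ c h11) t,
      map_mul]
  · exact absurd h6 (by simp [okT])

theorem Act.pow_mul_id (h2 : (2 : K) = 0) {x : ↥(D.group K)} (hx : Act hD π g x (idL g.length))
    (e : mmul (idL g.length) (idL g.length) = idL g.length) (k : ℕ) : Act hD π g (x ^ k) (idL g.length) := by
  induction k with
  | zero => rw [pow_zero]; exact Act.one
  | succ k ih =>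
    rw [pow_succ]
    exact ih.mul' h2 hx e

/-- the `ℓ`-part of an element -/
theorem exists_part (h2 : (2 : K) = 0) {y : ↥(D.group K)} {ℓ m s₀ : ℕ} (hℓ : ℓ.Prime) {M : List ℕ}
    (hid : Act hD π g (y ^ (ℓ * m)) (idL g.length)) (hM : Act hD π g (y ^ (m * s₀)) M)
    (e1 : mmul M (idL g.length) = M) (e2 : mmul (idL g.length) (idL g.length) = idL g.length) :
    ∃ x ∈ Subgroup.zpowers y, ∃ k, x ^ ℓ ^ k = 1 ∧ Act hD π g x M := by
  have hfin : Finite ↥(D.group K) := inferInstance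
  have ho : orderOf y ≠ 0 := (orderOf_pos y).ne'
  obtain ⟨a, n', hn', hoy⟩ := Nat.exists_eq_pow_mul_and_not_dvd ho ℓ hℓ.ne_one
  have hcop : Nat.Coprime ℓ n' := (Nat.Prime.coprime_iff_not_dvd hℓ).2 hn'
  have hn0 : n' ≠ 0 := by rintro rfl; exact ho (by rw [hoy, mul_zero])
  obtain ⟨u, hu1, hu2⟩ := Nat.chineseRemainder hcop 1 0
  -- a representative at least one
  obtain ⟨v, hv⟩ : ∃ v, u + ℓ * n' = 1 + ℓ * v := by
    have h3 : 1 ≡ u + ℓ * n' [MOD ℓ] := by
      refine (hu1.symm).trans ?_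
      have : u ≡ u + ℓ * n' [MOD ℓ] := (Nat.modEq_iff_dvd' (Nat.le_add_right _ _)).2 ⟨n', by omega⟩
      exact this
    have h4 : 1 ≤ u + ℓ * n' := by
      have := Nat.mul_pos hℓ.pos (Nat.pos_of_ne_zero hn0)
      omega
    obtain ⟨v, hv⟩ := (Nat.modEq_iff_dvd' h4).1 h3
    exact ⟨v, by omega⟩
  have hnu : n' ∣ u + ℓ * n' := (Nat.modEq_zero_iff_dvd.1 hu2).add (dvd_mul_left _ _)
  refine ⟨y ^ (m * s₀ * (u + ℓ * n')), ⟨((m * s₀ * (u + ℓ * n') : ℕ) : ℤ), zpow_natCast _ _⟩, a, ?_, ?_⟩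
  · rw [← pow_mul]
    obtain ⟨c, hc⟩ := hnu
    rw [hc]
    have : m * s₀ * (n' * c) * ℓ ^ a = (ℓ ^ a * n') * (m * s₀ * c) := by ring
    rw [this, ← hoy, pow_mul, pow_orderOf_eq_one, one_pow]
  · rw [hv]
    have e3 : y ^ (m * s₀ * (1 + ℓ * v)) = y ^ (m * s₀) * (y ^ (ℓ * m)) ^ (s₀ * v) := by
      rw [← pow_mul, ← pow_add]
      congr 1
      ring
    rw [e3]
    exact hM.mul' h2 (hid.pow_mul_id h2 e2 _) e1

end Act

/-! ### The data of the root system -/

/-- the indices of the roots -/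
structure SecD (D : ChevalleyDatum) (l : ℕ) (z : ℕ) (g : List ℕ) : Prop where
  hz : z < D.nroots
  hA : ∀ i j : Fin l, (1 : ℤ) * cartanOf D l i j = 1 * cartanOf D l j i
  pos : 0 < qf (cartanOf D l) (fun _ => 1) (vec D l z) (vec D l z)
  sub : ∀ a < D.nroots, 0 < qf (cartanOf D l) (fun _ => 1) (vec D l a) (vec D l z) → a = z ∨ a ∈ g
  mem : ∀ a ∈ g, a < D.nroots ∧ 0 < qf (cartanOf D l) (fun _ => 1) (vec D l a) (vec D l z)

section Final

variable {D : ChevalleyDatum} {l : ℕ} {M : CoxeterMatrix (Fin l)} {hp : IsType D l M} {K : Type u} [Field K]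
    [Fintype K] {W : Type} [Group W] [Finite W] {cs : CoxeterSystem M W} {p : ℕ} [Fact p.Prime] [CharP K p]
    {r : Fin l → ℤ} {k : ℕ} {ex : List (ℕ × ℕ)} {z : ℕ} {g : List ℕ}

theorem SecD.cpr' (S : SecD D l z g) {a : ℕ} (ha : a < D.nroots) :
    cpr cs hp.isCartan (vec D l a) (vec D l z) * qf (cartanOf D l) (fun _ => 1) (vec D l z) (vec D l z) =
      2 * qf (cartanOf D l) (fun _ => 1) (vec D l a) (vec D l z) :=
  cpr_mul_qf cs hp.isCartan S.hA _ (isRoot_vec hp cs S.hz)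

theorem SecD.mem_Gt (S : SecD D l z g) {a : ℕ} (ha : a ∈ g) : vec D l a ∈ Gt cs hp.isCartan (vec D l z) := by
  obtain ⟨h1, h2⟩ := S.mem a ha
  refine ⟨isRoot_vec hp cs h1, ?_⟩
  have h3 := S.cpr' (cs := cs) (hp := hp) h1
  have h4 := S.pos
  by_contra h5
  push Not at h5
  have := mul_nonpos_of_nonpos_of_nonneg h5 h4.le
  omega

theorem SecD.zero (S : SecD D l z g) {a : ℕ} (ha : a < D.nroots)
    (h0 : qf (cartanOf D l) (fun _ => 1) (vec D l a) (vec D l z) = 0) :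
    cpr cs hp.isCartan (vec D l a) (vec D l z) = 0 := by
  have h3 := S.cpr' (cs := cs) (hp := hp) ha
  rw [h0, mul_zero] at h3
  exact (mul_eq_zero.1 h3).resolve_right S.pos.ne'

theorem SecD.QQ_le (S : SecD D l z g) {H : Subgroup ↥(D.group K)} (h1 : XX D l K (vec D l z) ≤ H)
    (h2 : ∀ s ∈ g, XX D l K (vec D l s) ≤ H) : TwoExc.QQ cs hp.isCartan (XX D l K) (vec D l z) ≤ H := by
  refine RGD.Sup_le ?_
  rintro s ⟨hs, hpos⟩
  obtain ⟨a, ha, rfl⟩ := (isRoot_iff hp cs _).1 hs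
  rcases S.sub a ha (by
    have h3 := S.cpr' (cs := cs) (hp := hp) ha
    have h4 := mul_pos hpos S.pos
    omega) with rfl | h3
  · exact h1
  · exact h2 a h3

/-- the quotient `Q / Z` -/
theorem exists_pi (H : Hs (rgd (K := K) hp cs p) (vec D l z)) : ∃ (A : Type u) (_ : CommGroup A)
    (π : ↥(TwoExc.QQ cs hp.isCartan (XX D l K) (vec D l z)) →* A), Function.Surjective π ∧
      ∀ y, π y = 1 ↔ (y : ↥(D.group K)) ∈ XX D l K (vec D l z) :=
  exists_quot ⟨H.X_le_QQ, fun _ hz _ hg => H.central hz hg, fun _ ha _ hb => H.comm_mem ha hb⟩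

variable {A : Type u} [CommGroup A] {π : ↥(TwoExc.QQ cs hp.isCartan (XX D l K) (vec D l z)) →* A}

theorem xS_mem_L0 (S : SecD D l z g) {a : ℕ} (ha : a < D.nroots)
    (h0 : qf (cartanOf D l) (fun _ => 1) (vec D l a) (vec D l z) = 0) (t : K) :
    xS hp.inList a t ∈ L0 cs hp.isCartan (XX D l K) (vec D l z) :=
  RGD.le_Sup (S := {s | IsRoot cs hp.isCartan s ∧ cpr cs hp.isCartan s (vec D l z) = 0})
    ⟨isRoot_vec hp cs ha, S.zero (hp := hp) (cs := cs) ha h0⟩ ((mem_XX_xS hp ha).2 ⟨t, rfl⟩)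

theorem xS_mem_QQ' (S : SecD D l z g) : ∀ s ∈ g, ∀ t : K,
    xS hp.inList s t ∈ TwoExc.QQ cs hp.isCartan (XX D l K) (vec D l z) := fun s hs t =>
  RGD.le_Sup (S.mem_Gt (hp := hp) (cs := cs) hs) ((mem_XX_xS hp (S.mem s hs).1).2 ⟨t, rfl⟩)

/-- the conditions on a root of the word -/
def wOK (D : ChevalleyDatum) (l z : ℕ) (g : List ℕ) (a : ℕ) : Bool :=
  genOK D g a && decide (qf (cartanOf D l) (fun _ => 1) (vec D l a) (vec D l z) = 0)

theorem act_word (h2 : (2 : K) = 0) (S : SecD D l z g) (H : Hs (rgd (K := K) hp cs p) (vec D l z))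
    (hs : Function.Surjective π) (hk : ∀ y, π y = 1 ↔ (y : ↥(D.group K)) ∈ XX D l K (vec D l z)) {a : ℕ}
    (ha : wOK D l z g a = true) {N : List ℕ} (hN : genM D g a = N) {y : ↥(D.group K)}
    (hy : y ∈ L0 cs hp.isCartan (XX D l K) (vec D l z)) {P Q : List ℕ} (hP : Act hp.inList π g y P) (e : mmul N P = Q) :
    xS hp.inList a 1 * y ∈ L0 cs hp.isCartan (XX D l K) (vec D l z) ∧ Act hp.inList π g (xS hp.inList a 1 * y) Q := by
  have hfin : Finite ↥(D.group K) := inferInstance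
  unfold wOK at ha
  rw [Bool.and_eq_true, decide_eq_true_iff] at ha
  obtain ⟨ha1, ha2⟩ := ha
  have ha3 : a < D.nroots := by
    unfold genOK at ha1
    rw [Bool.and_eq_true, decide_eq_true_iff] at ha1
    exact ha1.1
  have hL : xS hp.inList a (1 : K) ∈ L0 cs hp.isCartan (XX D l K) (vec D l z) := xS_mem_L0 (hp := hp) (cs := cs) S ha3 ha2 1
  refine ⟨mul_mem hL hy, ?_⟩
  have hg : Act hp.inList π g (xS hp.inList a (1 : K)) (genM D g a) := by
    refine act_gen h2 hs hk ha1 (xS_mem_QQ' (hp := hp) (cs := cs) S) (L0_norm H hL) ?_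
    intro z' hz'
    rw [L0_comm H hL (Subgroup.mem_sup_left hz'), mul_inv_cancel_right]
    exact hz'
  exact hg.mul' h2 hP (by rw [hN]; exact e)


/-- **the bound for the centraliser** -/
theorem card_le (h2 : (2 : K) = 0) (S : SecD D l z g) (H : Hs (rgd (K := K) hp cs p) (vec D l z))
    (hs : Function.Surjective π) (hk : ∀ y, π y = 1 ↔ (y : ↥(D.group K)) ∈ XX D l K (vec D l z)) {x : ↥(D.group K)}
    {M' bs : List ℕ} {wu : List (ℕ × ℕ)} (hx : Act hp.inList π g x M') (hc : cert M' bs wu = idL g.length) :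
    Nat.card ↥(TwoExc.QQ cs hp.isCartan (XX D l K) (vec D l z) ⊓ Subgroup.centralizer {x}) ≤
      Nat.card K ^ bs.length * Nat.card (XX D l K (vec D l z)) := by
  have hfin : Finite ↥(D.group K) := inferInstance
  obtain ⟨α, h3, h4⟩ := hx
  let θ : A →* A :=
    { toFun := fun v => α v * v⁻¹
      map_one' := by rw [map_one, inv_one, mul_one]
      map_mul' := fun a b => by rw [map_mul, mul_inv, mul_mul_mul_comm] }
  have hfA : Finite A := Finite.of_surjective π hs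
  refine (card_cent_le hs hk H.X_le_QQ (θ := θ) (fun v => rfl) h3).trans (Nat.mul_le_mul_right _ ?_)
  refine card_ker_le (FF hp.inList π) g (θ := θ) (fun v => rfl) ?_ h4 hc ?_
  · intro s hs' t
    rw [← map_mul]
    have h1 : t * t = 1 := by
      show Multiplicative.ofAdd (t.toAdd + t.toAdd) = 1
      rw [← two_mul, h2, zero_mul]
      rfl
    rw [h1, map_one]
  · intro J hJ
    rw [eq_top_iff]
    intro a _
    obtain ⟨⟨y, hy⟩, rfl⟩ := hs a
    have h5 : TwoExc.QQ cs hp.isCartan (XX D l K) (vec D l z) ≤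
        (J.comap π).map (TwoExc.QQ cs hp.isCartan (XX D l K) (vec D l z)).subtype := by
      refine S.QQ_le (hp := hp) (cs := cs) ?_ ?_
      · intro v hv
        refine ⟨⟨v, H.X_le_QQ hv⟩, ?_, rfl⟩
        show π _ ∈ J
        rw [(hk ⟨v, H.X_le_QQ hv⟩).2 hv]
        exact one_mem _
      · intro s hs' v hv
        obtain ⟨t, rfl⟩ := (mem_XX_xS hp (S.mem s hs').1).1 hv
        refine ⟨⟨_, xS_mem_QQ' (hp := hp) (cs := cs) S s hs' t⟩, ?_, rfl⟩
        show π _ ∈ J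
        rw [← FF_apply π (xS_mem_QQ' (hp := hp) (cs := cs) S s hs') t]
        exact hJ s hs' _
    obtain ⟨w, hw, e⟩ := h5 hy
    have e' : w = ⟨y, hy⟩ := Subtype.ext e
    rw [← e']
    exact hw

end Final

end Cfsg.Agent.H441.FPR.Bit
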