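import Cfsg.Agent.H441.FPR.BitB

/-!
# Explicit elements of `L₀` over the field of two elements: the `ℓ`-part
-/

set_option autoImplicit false
set_option linter.unusedSectionVars false
set_option linter.unusedVariables false
set_option maxRecDepth 100000

namespace Cfsg.Agent.H441.FPR.Bit

open CoxeterSystem Cfsg.Agent.ChevalleyStructure.CoxeterGeom Cfsg.Agent.Tits.Roots Cfsg.Agent.Tits.Core
  Cfsg.Agent.Nodes.Reps Cfsg.Agent.Nodes.BNOf Cfsg.Agent.Nodes.Coroot Cfsg.Agent.Nodes.LeviDec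
  Cfsg.Agent.Nodes.PosPair Cfsg.Agent.Nodes.StabComb Cfsg.Agent.Nodes.KindChev Cfsg.Agent.KFacts.RgdCent
  Cfsg.Agent.Nodes.Bruhat Cfsg.Agent.Nodes.OppDec Cfsg.Agent.Tits.Exchange
  Cfsg.Agent.KFacts.RgdPar Cfsg.Agent.KFacts.RgdSL Cfsg.Agent.KFacts.RgdTI Cfsg.Agent.Nodes.RGDChev
  Cfsg.Agent.ChevalleyStructure.CoxeterGeomTypes
open Cfsg.Lie Cfsg.Agent.ChevalleyStructure Cfsg.Agent.ChevalleyStructure.Elts Cfsg.Agent.ChevalleyStructure.NPerm
open Cfsg.Agent.KFacts.RgdChevCoord Cfsg.Agent.Nodes.ChevCls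
open Cfsg.Agent.H400.TwoExc Cfsg.Agent.H400.Fpr
open Cfsg.Agent.H398.FPR (UGood Good)
open Cfsg.Agent.H409 (FprRow)
open scoped commutatorElement
open Cfsg.Agent.H79.SimpleGen
open Cfsg.Agent.H400
open Cfsg.Agent.H441.FPR.Heis

universe u

/-- the conditions on a generator: the root, its matrix -/
structure GenC (D : ChevalleyDatum) (l z : ℕ) (g : List ℕ) (a : ℕ) (N : List ℕ) : Prop where
  ok : wOK D l z g a = true
  mat : genM D g a = N

section

variable {D : ChevalleyDatum} {l : ℕ} {M : CoxeterMatrix (Fin l)} {hp : IsType D l M} {K : Type u} [Field K]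
    [Fintype K] {W : Type} [Group W] [Finite W] {cs : CoxeterSystem M W} {p : ℕ} [Fact p.Prime] [CharP K p]
    {r : Fin l → ℤ} {k : ℕ} {ex : List (ℕ × ℕ)} {z : ℕ} {g : List ℕ}
    {A : Type u} [CommGroup A] {π : ↥(TwoExc.QQ cs hp.isCartan (XX D l K) (vec D l z)) →* A}

/-- an element of `L₀` with its matrix -/
def LA (hp : IsType D l M) (cs : CoxeterSystem M W) (z : ℕ)
    (π : ↥(TwoExc.QQ cs hp.isCartan (XX D l K) (vec D l z)) →* A) (g : List ℕ) (y : ↥(D.group K)) (P : List ℕ) : Prop :=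
  y ∈ L0 cs hp.isCartan (XX D l K) (vec D l z) ∧ Act hp.inList π g y P

theorem LA.one : LA hp cs z π g 1 (idL g.length) := ⟨one_mem _, Act.one⟩

theorem LA.gen (h2 : (2 : K) = 0) (S : SecD D l z g) (H : Hs (rgd (K := K) hp cs p) (vec D l z))
    (hs : Function.Surjective π) (hk : ∀ y, π y = 1 ↔ (y : ↥(D.group K)) ∈ XX D l K (vec D l z)) {a : ℕ}
    {N : List ℕ} (G : GenC D l z g a N) {y : ↥(D.group K)} {P Q : List ℕ} (hP : LA hp cs z π g y P) (e : mmul N P = Q) :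
    LA hp cs z π g (xS hp.inList a 1 * y) Q :=
  act_word h2 S H hs hk G.ok G.mat hP.1 hP.2 e

theorem LA.pow_one {y : ↥(D.group K)} {P : List ℕ} (h : LA hp cs z π g y P) : LA hp cs z π g (y ^ 1) P := by
  rw [_root_.pow_one]; exact h

theorem LA.add (h2 : (2 : K) = 0) {y : ↥(D.group K)} {i j n : ℕ} {P Q R : List ℕ} (hP : LA hp cs z π g (y ^ i) P)
    (hQ : LA hp cs z π g (y ^ j) Q) (hn : i + j = n) (e : mmul P Q = R) : LA hp cs z π g (y ^ n) R := by
  rw [← hn, pow_add]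
  exact ⟨mul_mem hP.1 hQ.1, hP.2.mul' h2 hQ.2 e⟩

theorem final_x (h2 : (2 : K) = 0) (S : SecD D l z g) (H : HD hp K cs p (vec D l z) k ex)
    (hs : Function.Surjective π) (hk : ∀ y, π y = 1 ↔ (y : ↥(D.group K)) ∈ XX D l K (vec D l z)) {y : ↥(D.group K)}
    {ℓ m s₀ : ℕ} (hℓ : ℓ.Prime) {P : List ℕ} (hyL : LA hp cs z π g (y ^ 1) P) {I N bs : List ℕ} {wu : List (ℕ × ℕ)}
    (hid : LA hp cs z π g (y ^ (ℓ * m)) I) (hI : I = idL g.length) (hM : LA hp cs z π g (y ^ (m * s₀)) N)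
    (e1 : mmul N (idL g.length) = N) (e2 : mmul (idL g.length) (idL g.length) = idL g.length)
    (hc : cert N bs wu = idL g.length) (hbs : bs.length < 2 * k) :
    ∃ x ∈ L0 cs hp.isCartan (XX D l K) (vec D l z), ∃ j, x ^ ℓ ^ j = 1 ∧ x ≠ 1 ∧
      Nat.card ↥(TwoExc.QQ cs hp.isCartan (XX D l K) (vec D l z) ⊓ Subgroup.centralizer {x}) ≤
        Fintype.card K ^ bs.length * Nat.card (XX D l K (vec D l z)) := by
  subst hI
  obtain ⟨x, hx, j, hj, hxM⟩ := exists_part h2 hℓ hid.2 hM.2 e1 e2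
  have h3 := card_le h2 S H.hs hs hk hxM hc
  rw [Nat.card_eq_fintype_card (α := K)] at h3
  have hy1 : y ∈ L0 cs hp.isCartan (XX D l K) (vec D l z) := by
    have := hyL.1
    rwa [_root_.pow_one] at this
  refine ⟨x, (Subgroup.zpowers_le.2 hy1) hx, j, hj, ?_, h3⟩
  rintro rfl
  have h4 : TwoExc.QQ cs hp.isCartan (XX D l K) (vec D l z) ⊓ Subgroup.centralizer {(1 : ↥(D.group K))} =
      TwoExc.QQ cs hp.isCartan (XX D l K) (vec D l z) := by
    refine inf_eq_left.2 fun a _ => Subgroup.mem_centralizer_singleton_iff.2 ?_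
    rw [mul_one, one_mul]
  rw [h4, H.cardQ, H.cardX, ← pow_succ] at h3
  have h5 : 1 < Fintype.card K := Fintype.one_lt_card
  have := (Nat.pow_le_pow_iff_right h5).1 h3
  omega

end

end Cfsg.Agent.H441.FPR.Bit
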