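import Cfsg.Agent.H441.FPR.BitC

/-!
# The root data of `E₇` and `E₈`
-/

set_option autoImplicit false
set_option linter.unusedSectionVars false
set_option linter.unusedVariables false
set_option maxRecDepth 100000

namespace Cfsg.Agent.H441.FPR.Bit

open CoxeterSystem Cfsg.Agent.ChevalleyStructure.CoxeterGeom Cfsg.Agent.Tits.Roots Cfsg.Agent.Tits.Core
  Cfsg.Agent.Nodes.Reps Cfsg.Agent.Nodes.BNOf Cfsg.Agent.Nodes.Coroot Cfsg.Agent.Nodes.LeviDec
  Cfsg.Agent.Nodes.PosPair Cfsg.Agent.Nodes.StabComb Cfsg.Agent.Nodes.KindChev Cfsg.Agent.KFacts.RgdCent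
  Cfsg.Agent.Nodes.Bruhat Cfsg.Agent.Nodes.OppDec Cfsg.Agent.Tits.Exchange
  Cfsg.Agent.KFacts.RgdPar Cfsg.Agent.KFacts.RgdSL Cfsg.Agent.KFacts.RgdTI Cfsg.Agent.Nodes.RGDChev
  Cfsg.Agent.ChevalleyStructure.CoxeterGeomTypes
open Cfsg.Lie Cfsg.Agent.ChevalleyStructure Cfsg.Agent.ChevalleyStructure.Elts Cfsg.Agent.ChevalleyStructure.NPerm
open Cfsg.Agent.KFacts.RgdChevCoord Cfsg.Agent.Nodes.ChevCls
open Cfsg.Agent.H400.TwoExc Cfsg.Agent.H400.Fpr
open Cfsg.Agent.H79.SimpleGen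
open Cfsg.Agent.H400
open Cfsg.Agent.H441.FPR.Heis

universe u

/-- the roots `s` with `⟨s, r^∨⟩ = 1` -/
def gE8 : List ℕ := [120, 122, 125, 129, 134, 140, 146, 151, 155, 158, 160, 161, 168, 173, 177, 180, 182, 183, 187, 190, 192, 193, 196,
  198, 199, 201, 202, 203, 206, 208, 209, 211, 212, 213, 215, 216, 217, 218, 220, 221, 222, 223, 224, 225, 227, 228,
  229, 230, 231, 232, 233, 234, 235, 236, 237, 238]

theorem secE8 : SecD chevE8 8 239 gE8 where
  hz := by decide +kernel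
  hA := by decide +kernel
  pos := by decide +kernel
  sub := by decide +kernel
  mem := by decide +kernel

/-- the roots `s` with `⟨s, r^∨⟩ = 1` -/
def gE7 : List ℕ := [93, 94, 95, 96, 97, 98, 99, 100, 101, 102, 103, 104, 105, 106, 107, 108, 109, 110, 111, 112, 113, 114, 115, 116,
  117, 118, 119, 120, 121, 122, 123, 124]

theorem secE7 : SecD chevE7 7 125 gE7 where
  hz := by decide +kernel
  hA := by decide +kernel
  pos := by decide +kernel
  sub := by decide +kernel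
  mem := by decide +kernel

end Cfsg.Agent.H441.FPR.Bit
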