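import Cfsg.Agent.H441.FPR.BitE811
import Cfsg.Agent.H441.FPR.BitE813
import Cfsg.Agent.H441.FPR.BitE843
import Cfsg.Agent.H441.FPR.BitE819
import Cfsg.Agent.H441.FPR.BitE873
import Cfsg.Agent.H441.FPR.BitE711
import Cfsg.Agent.H441.FPR.BitE717

/-!
# The rows for `E₇` and `E₈` from the explicit elements over the field of two elements
-/

set_option autoImplicit false
set_option linter.unusedSectionVars false
set_option linter.unusedVariables false
set_option maxRecDepth 100000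

namespace Cfsg.Agent.H441.FPR.Bit

open CoxeterSystem Cfsg.Agent.ChevalleyStructure.CoxeterGeom Cfsg.Agent.Tits.Roots Cfsg.Agent.Tits.Core
  Cfsg.Agent.Nodes.Reps Cfsg.Agent.Nodes.BNOf Cfsg.Agent.Nodes.Coroot Cfsg.Agent.Nodes.LeviDec
  Cfsg.Agent.Nodes.PosPair Cfsg.Agent.Nodes.StabComb Cfsg.Agent.Nodes.KindChev Cfsg.Agent.KFacts.RgdCent
  Cfsg.Agent.Nodes.Bruhat Cfsg.Agent.Nodes.OppDec Cfsg.Agent.Tits.Exchange
  Cfsg.Agent.KFacts.RgdPar Cfsg.Agent.KFacts.RgdSL Cfsg.Agent.KFacts.RgdTI Cfsg.Agent.Nodes.RGDChev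
  Cfsg.Agent.ChevalleyStructure.CoxeterGeomTypes
open Cfsg.Lie Cfsg.Agent.ChevalleyStructure Cfsg.Agent.ChevalleyStructure.Elts Cfsg.Agent.ChevalleyStructure.NPerm
open Cfsg.Agent.KFacts.RgdChevCoord Cfsg.Agent.Nodes.ChevCls
open Cfsg.Agent.H400.TwoExc Cfsg.Agent.H400.Fpr
open Cfsg.Agent.H398.FPR (UGood Good)
open Cfsg.Agent.H409 (FprRow)
open Cfsg.Agent.H79.SimpleGen
open Cfsg.Agent.H400
open Cfsg.Agent.H441.FPR.Heis

universe u

variable {K : Type u} [Field K] [Fintype K]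

/-! ### The primes for base `2` -/

theorem ord_ne {ℓ e : ℕ} (s : ℕ) (h : orderOf (s : ZMod ℓ) = e) {m : ℕ} (hm : 0 < m) (hme : m < e) :
    (s : ZMod ℓ) ^ m ≠ 1 := by
  intro h1
  have := Nat.le_of_dvd hm (orderOf_dvd_of_pow_eq_one h1)
  omega

theorem p_ten {ℓ : ℕ} (hℓ : ℓ.Prime) (h : orderOf ((2 : ℕ) : ZMod ℓ) = 10) : ℓ = 11 := by
  have h1 := half_ord hℓ (m := 5) (by norm_num) h
  have h2 : ((33 : ℕ) : ZMod ℓ) = 0 := by push_cast at h1 ⊢; linear_combination h1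
  rw [ZMod.natCast_eq_zero_iff] at h2
  rw [show (33 : ℕ) = 3 * 11 from rfl] at h2
  rcases (hℓ.dvd_mul).1 h2 with h3 | h3
  · have h4 := (Nat.prime_dvd_prime_iff_eq hℓ (by norm_num)).1 h3
    subst h4
    exact absurd (show ((2 : ℕ) : ZMod 3) ^ 2 = 1 by decide) (ord_ne 2 h (by norm_num) (by norm_num))
  · exact (Nat.prime_dvd_prime_iff_eq hℓ (by norm_num)).1 h3

theorem p_twelve {ℓ : ℕ} (hℓ : ℓ.Prime) (h : orderOf ((2 : ℕ) : ZMod ℓ) = 12) : ℓ = 13 := by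
  have h1 := half_ord hℓ (m := 6) (by norm_num) h
  have h2 : ((65 : ℕ) : ZMod ℓ) = 0 := by push_cast at h1 ⊢; linear_combination h1
  rw [ZMod.natCast_eq_zero_iff] at h2
  rw [show (65 : ℕ) = 5 * 13 from rfl] at h2
  rcases (hℓ.dvd_mul).1 h2 with h3 | h3
  · have h4 := (Nat.prime_dvd_prime_iff_eq hℓ (by norm_num)).1 h3
    subst h4
    exact absurd (show ((2 : ℕ) : ZMod 5) ^ 4 = 1 by decide) (ord_ne 2 h (by norm_num) (by norm_num))
  · exact (Nat.prime_dvd_prime_iff_eq hℓ (by norm_num)).1 h3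

theorem p_fourteen {ℓ : ℕ} (hℓ : ℓ.Prime) (h : orderOf ((2 : ℕ) : ZMod ℓ) = 14) : ℓ = 43 := by
  have h1 := half_ord hℓ (m := 7) (by norm_num) h
  have h2 : ((129 : ℕ) : ZMod ℓ) = 0 := by push_cast at h1 ⊢; linear_combination h1
  rw [ZMod.natCast_eq_zero_iff] at h2
  rw [show (129 : ℕ) = 3 * 43 from rfl] at h2
  rcases (hℓ.dvd_mul).1 h2 with h3 | h3
  · have h4 := (Nat.prime_dvd_prime_iff_eq hℓ (by norm_num)).1 h3
    subst h4
    exact absurd (show ((2 : ℕ) : ZMod 3) ^ 2 = 1 by decide) (ord_ne 2 h (by norm_num) (by norm_num))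
  · exact (Nat.prime_dvd_prime_iff_eq hℓ (by norm_num)).1 h3

theorem p_eighteen {ℓ : ℕ} (hℓ : ℓ.Prime) (h : orderOf ((2 : ℕ) : ZMod ℓ) = 18) : ℓ = 19 := by
  have h1 := half_ord hℓ (m := 9) (by norm_num) h
  have h2 : ((27 * 19 : ℕ) : ZMod ℓ) = 0 := by push_cast at h1 ⊢; linear_combination h1
  rw [ZMod.natCast_eq_zero_iff] at h2
  rcases (hℓ.dvd_mul).1 h2 with h3 | h3
  · have h4 := (Nat.prime_dvd_prime_iff_eq hℓ (by norm_num)).1 (hℓ.dvd_of_dvd_pow (show ℓ ∣ 3 ^ 3 from h3))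
    subst h4
    exact absurd (show ((2 : ℕ) : ZMod 3) ^ 2 = 1 by decide) (ord_ne 2 h (by norm_num) (by norm_num))
  · exact (Nat.prime_dvd_prime_iff_eq hℓ (by norm_num)).1 h3

theorem card_two {p a : ℕ} (hp : p.Prime) (h : (2 : ℕ) = p ^ a) : p = 2 ∧ a = 1 := by
  have ha : a ≠ 0 := by rintro rfl; norm_num at h
  have h1 : p ∣ 2 := by rw [h]; exact dvd_pow_self p ha
  have h2 := (Nat.prime_dvd_prime_iff_eq hp Nat.prime_two).1 h1
  subst h2
  refine ⟨rfl, ?_⟩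
  have h3 : (2 : ℕ) ^ 1 = 2 ^ a := by rw [← h]; rfl
  exact (Nat.pow_right_injective le_rfl h3).symm

/-- the common set up for `q = 2` -/
theorem setup_two {ℓ e : ℕ} (hℓ : ℓ.Prime) (hK : Fintype.card K = 2) (he : 2 ≤ e)
    (ho : orderOf (Fintype.card K : ZMod ℓ) = e) : CharP K 2 ∧ (2 : K) = 0 ∧ ℓ ≠ 2 ∧ 
      orderOf ((2 : ℕ) : ZMod ℓ) = e ∧ ∀ t : ℕ, t ≠ 0 → 2 ^ t ≡ 1 [MOD ℓ] → 2 ^ e ≤ 2 ^ t := by
  have hc : CharP K 2 := by
    obtain ⟨p, hpK⟩ := CharP.exists K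
    have hp := CharP.char_is_prime K p
    obtain ⟨a, -, ha⟩ := FiniteField.card K p
    rw [hK] at ha
    obtain ⟨rfl, -⟩ := card_two hp ha
    exact hpK
  rw [hK] at ho
  refine ⟨hc, by exact_mod_cast CharP.cast_eq_zero K 2, ?_, ho, ?_⟩
  · rintro rfl
    have h1 : ((2 : ℕ) : ZMod 2) = 0 := by decide
    rw [h1] at ho
    have h2 : orderOf (0 : ZMod 2) = 0 := by
      rw [orderOf_eq_zero_iff']
      intro n hn
      rw [zero_pow (by omega)]
      decide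
    omega
  · intro t ht h1
    have h2 : ((2 : ℕ) : ZMod ℓ) ^ t = 1 := by
      have := (ZMod.natCast_eq_natCast_iff _ _ _).2 h1
      push_cast at this ⊢
      exact this
    have h3 := Nat.le_of_dvd (Nat.pos_of_ne_zero ht) (orderOf_dvd_of_pow_eq_one h2)
    rw [ho] at h3
    exact Nat.pow_le_pow_right (by norm_num) h3

/-- **`E₈(2)`.** -/
theorem e8_two {ℓ : ℕ} (hℓ : ℓ.Prime) (hK : Fintype.card K = 2)
    (ho : orderOf (Fintype.card K : ZMod ℓ) ∈ [10, 12, 14, 18]) : FprRow (ℓ + 1) 1 ℓ ↥(chevE8.group K) := by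
  obtain ⟨e, he⟩ : ∃ e, orderOf (Fintype.card K : ZMod ℓ) = e := ⟨_, rfl⟩
  rw [he] at ho
  simp only [List.mem_cons, List.not_mem_nil, or_false] at ho
  obtain ⟨hc, h2, hℓ2, hs, hM⟩ := setup_two hℓ hK (by omega) he
  have : Fact (Nat.Prime 2) := ⟨Nat.prime_two⟩
  have hfin : Finite ↥(chevE8.group K) := inferInstance
  have hsimp := Cfsg.Agent.S1054.result (F := K) chevE8 (by simp)
  have : IsSimpleGroup ↥(chevE8.group K) := hsimp.1
  have hcen : Subgroup.center ↥(chevE8.group K) = ⊥ := center_eq_bot hsimp.2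
  let cs : CoxeterSystem CoxeterMatrix.E₈ _ := CoxeterMatrix.E₈.toCoxeterSystem
  have hT : IsType chevE8 8 CoxeterMatrix.E₈ := by simp [IsType, typeList]
  have hW : Finite CoxeterMatrix.E₈.Group := finite_W hT cs
  have HD := hd_E8 (K := K) cs 2
  have main : ∀ c, (∃ x ∈ L0 cs hT.isCartan (XX chevE8 8 K) (toV [2, 3, 4, 6, 5, 4, 3, 2]), ∃ j, x ^ ℓ ^ j = 1 ∧ x ≠ 1 ∧
      Nat.card ↥(TwoExc.QQ cs hT.isCartan (XX chevE8 8 K) (toV [2, 3, 4, 6, 5, 4, 3, 2]) ⊓ Subgroup.centralizer {x}) ≤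
        Fintype.card K ^ c * Nat.card (XX chevE8 8 K (toV [2, 3, 4, 6, 5, 4, 3, 2]))) →
      (2 ^ c + 1) * (ℓ + 1) ≤ 2 ^ e + 2 ^ c → FprRow (ℓ + 1) 1 ℓ ↥(chevE8.group K) := by
    rintro c ⟨x, hx, j, hj, hx1, hcard⟩ hle
    rw [hK] at hcard
    have h1 : 1 ≤ 2 ^ c := Nat.one_le_two_pow
    have key := uGood_small (M' := 2 ^ e) HD.hs this hcen (G1_eq_top hT cs) hℓ hℓ2 hx hj hx1 (isPGroup_QQ HD.toHB) hcard
      (by omega) hM Nat.one_le_two_pow
    have key' : UGood (2 ^ c - 1 + 2) (2 ^ e + (2 ^ c - 1) + 1) x := by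
      have e1 : 2 ^ c - 1 + 2 = 2 ^ c + 1 := by omega
      have e2 : 2 ^ e + (2 ^ c - 1) + 1 = 2 ^ e + 2 ^ c := by omega
      rw [e1, e2]
      exact key
    refine good_of_uGood hℓ hj key' ?_
    have e1 : 2 ^ c - 1 + 2 = 2 ^ c + 1 := by omega
    have e2 : 2 ^ e + (2 ^ c - 1) + 1 = 2 ^ e + 2 ^ c := by omega
    rw [e1, e2]
    exact hle
  rcases ho with rfl | rfl | rfl | rfl
  · obtain rfl := p_ten hℓ hs
    exact main 6 (a11_x cs 2 h2 hT) (by norm_num)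
  · obtain rfl := p_twelve hℓ hs
    exact main 8 (a13_x cs 2 h2 hT) (by norm_num)
  · obtain rfl := p_fourteen hℓ hs
    exact main 0 (a43_x cs 2 h2 hT) (by norm_num)
  · obtain rfl := p_eighteen hℓ hs
    exact main 2 (a19_x cs 2 h2 hT) (by norm_num)

/-- **`E₈(q)`, order `10, 12, 14, 18`.** -/
theorem e8_all {ℓ : ℕ} (hℓ : ℓ.Prime) (hℓK : (ℓ : K) ≠ 0)
    (ho : orderOf (Fintype.card K : ZMod ℓ) ∈ [10, 12, 14, 18]) : FprRow (ℓ + 1) 1 ℓ ↥(chevE8.group K) := by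
  have h1 : 1 < Fintype.card K := Fintype.one_lt_card
  rcases Nat.lt_or_ge 2 (Fintype.card K) with h2 | h2
  · exact e8_heis hℓ hℓK h2 ho
  · exact e8_two hℓ (by omega) ho

/-- **`E₇(q)`, order `8` and `10`.** -/
theorem e7_all {ℓ : ℕ} (hℓ : ℓ.Prime) (hℓK : (ℓ : K) ≠ 0)
    (ho : orderOf (Fintype.card K : ZMod ℓ) = 8 ∨ orderOf (Fintype.card K : ZMod ℓ) = 10) :
    FprRow (ℓ + 1) 1 ℓ ↥(chevE7.group K) := by
  have hK1 : 1 < Fintype.card K := Fintype.one_lt_card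
  have hfin : Finite ↥(chevE7.group K) := inferInstance
  have hsimp := Cfsg.Agent.S1054.result (F := K) chevE7 (by simp)
  have hsim : IsSimpleGroup ↥(chevE7.group K) := hsimp.1
  have hcen : Subgroup.center ↥(chevE7.group K) = ⊥ := center_eq_bot hsimp.2
  let cs : CoxeterSystem CoxeterMatrix.E₇ _ := CoxeterMatrix.E₇.toCoxeterSystem
  have hT : IsType chevE7 7 CoxeterMatrix.E₇ := by simp [IsType, typeList]
  have hW : Finite CoxeterMatrix.E₇.Group := finite_W hT cs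
  obtain ⟨e, he⟩ : ∃ e, orderOf (Fintype.card K : ZMod ℓ) = e := ⟨_, rfl⟩
  rw [he] at ho
  obtain ⟨p, hp, hpK, hℓp, hℓq, a, b, ha, hb, hba, hs, hM⟩ := setup hℓ hℓK (by omega) he
  have : Fact p.Prime := ⟨hp⟩
  have HD := hd_E7 (K := K) cs p
  have main : ∀ d c, (∃ x ∈ L0 cs hT.isCartan (XX chevE7 7 K) (toV [2, 2, 3, 4, 3, 2, 1]), ∃ j, x ^ ℓ ^ j = 1 ∧ x ≠ 1 ∧
      Nat.card ↥(TwoExc.QQ cs hT.isCartan (XX chevE7 7 K) (toV [2, 2, 3, 4, 3, 2, 1]) ⊓ Subgroup.centralizer {x}) ≤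
        Fintype.card K ^ c * Nat.card (XX chevE7 7 K (toV [2, 2, 3, 4, 3, 2, 1]))) → Fintype.card K ^ c = d →
      (d + 1) * (ℓ + 1) ≤ (p ^ b) ^ e + d → FprRow (ℓ + 1) 1 ℓ ↥(chevE7.group K) := by
    rintro d c ⟨x, hx, j, hj, hx1, hcard⟩ hcd hle
    rw [hcd] at hcard
    have h1 : 1 ≤ d := by rw [← hcd]; exact Nat.one_le_pow _ _ (by omega)
    have key := uGood_small (M' := (p ^ b) ^ e) HD.hs hsim hcen (G1_eq_top hT cs) hℓ hℓp hx hj hx1 (isPGroup_QQ HD.toHB)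
      hcard (by omega) hM (Nat.one_le_pow _ _ (Nat.pos_of_ne_zero (pow_ne_zero _ hp.ne_zero)))
    have e1 : d - 1 + 2 = d + 1 := by omega
    have e2 : (p ^ b) ^ e + (d - 1) + 1 = (p ^ b) ^ e + d := by omega
    have key' : UGood (d - 1 + 2) ((p ^ b) ^ e + (d - 1) + 1) x := by
      rw [e1, e2]
      exact key
    refine good_of_uGood hℓ hj key' ?_
    rw [e1, e2]
    exact hle
  have hq2 : ∀ h : Fintype.card K = 2, p = 2 ∧ b = 1 := by
    intro h
    rw [h] at ha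
    obtain ⟨h1, h2⟩ := card_two hp ha
    refine ⟨h1, ?_⟩
    have := Nat.le_of_dvd (by omega) hba
    omega
  rcases ho with rfl | rfl
  · by_cases h17 : ℓ = 17
    · subst h17
      rcases Nat.lt_or_ge 2 (p ^ b) with h2 | h2
      · -- a base at least `3`
        have hK2 : 2 < Fintype.card K := by
          rw [ha]
          refine h2.trans_le (Nat.pow_le_pow_right hp.pos (Nat.le_of_dvd ?_ hba))
          rcases Nat.eq_zero_or_pos a with rfl | h3
          · rw [pow_zero] at ha; omega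
          · exact h3
        obtain ⟨x, hx, hxo⟩ := e7_x (m := 8) cs hℓ hℓp hℓq he (by decide) dvd_rfl hT
        have key := uGood_x (M' := (p ^ b) ^ 8) HD hsim hcen hK2 hℓ hℓp hx hxo hM (Nat.one_le_pow _ _ (by omega))
        refine good_of_uGood (k := 1) hℓ (by rw [pow_one, ← hxo]; exact pow_orderOf_eq_one x) key ?_
        have : 3 ^ 8 ≤ (p ^ b) ^ 8 := Nat.pow_le_pow_left h2 8
        omega
      · have h3 := two_le_pow hp hb
        have h4 : p ^ b = 2 := by omega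
        obtain ⟨rfl, -⟩ := card_two hp h4.symm
        refine main 1 0 (b17_x cs 2 ?_ hT) (pow_zero _) (by rw [h4]; norm_num)
        exact_mod_cast CharP.cast_eq_zero K 2
    · rcases Nat.lt_or_ge 2 (Fintype.card K) with h2 | h2
      · exact e7_heis hℓ hℓK h2 (Or.inr ⟨he, h17⟩)
      · exfalso
        have h3 : Fintype.card K = 2 := by omega
        rw [h3] at he
        have h1 := le_eight hℓ he
        norm_num at h1
        exact h17 ((Nat.prime_dvd_prime_iff_eq hℓ (by norm_num)).1 h1)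
  · rcases Nat.lt_or_ge 2 (Fintype.card K) with h2 | h2
    · exact e7_heis hℓ hℓK h2 (Or.inl he)
    · have h3 : Fintype.card K = 2 := by omega
      obtain ⟨rfl, rfl⟩ := hq2 h3
      rw [h3] at he
      obtain rfl := p_ten hℓ he
      refine main 4 2 (b11_x cs 2 ?_ hT) (by rw [h3]; norm_num) (by norm_num)
      exact_mod_cast CharP.cast_eq_zero K 2

/-- **`E₈(q)`, order `9`**, except `ℓ = 757` in characteristic `3`. -/
theorem e8_nine' {ℓ : ℕ} (hℓ : ℓ.Prime) (hℓK : (ℓ : K) ≠ 0)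
    (ho : orderOf (Fintype.card K : ZMod ℓ) = 9) (h3K : ℓ ≠ 757 ∨ (3 : K) ≠ 0) : FprRow (ℓ + 1) 1 ℓ ↥(chevE8.group K) := by
  have hK1 : 1 < Fintype.card K := Fintype.one_lt_card
  have hfin : Finite ↥(chevE8.group K) := inferInstance
  have hsimp := Cfsg.Agent.S1054.result (F := K) chevE8 (by simp)
  have hsim : IsSimpleGroup ↥(chevE8.group K) := hsimp.1
  have hcen : Subgroup.center ↥(chevE8.group K) = ⊥ := center_eq_bot hsimp.2
  let cs : CoxeterSystem CoxeterMatrix.E₈ _ := CoxeterMatrix.E₈.toCoxeterSystem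
  have hT : IsType chevE8 8 CoxeterMatrix.E₈ := by simp [IsType, typeList]
  have hW : Finite CoxeterMatrix.E₈.Group := finite_W hT cs
  obtain ⟨p, hp, hpK, hℓp, hℓq, a, b, ha, hb, hba, hs, hM⟩ := setup hℓ hℓK (by omega) ho
  have : Fact p.Prime := ⟨hp⟩
  have HD := hd_E8 (K := K) cs p
  have ha0 : 0 < a := by
    rcases Nat.eq_zero_or_pos a with rfl | h3
    · rw [pow_zero] at ha; omega
    · exact h3
  have h9 := le_nine hℓ hs
  have hb2 := two_le_pow hp hb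
  -- a large base
  have big : 2 < p ^ b → 58 * (ℓ + 1) ≤ (p ^ b) ^ 9 + 57 → FprRow (ℓ + 1) 1 ℓ ↥(chevE8.group K) := by
    intro h2 hle
    have hK2 : 2 < Fintype.card K := by
      rw [ha]
      exact h2.trans_le (Nat.pow_le_pow_right hp.pos (Nat.le_of_dvd ha0 hba))
    obtain ⟨x, hx, hxo⟩ := e8_x (m := 18) cs hℓ hℓp hℓq ho (by decide) (by norm_num) hT
    have key := uGood_x (M' := (p ^ b) ^ 9) HD hsim hcen hK2 hℓ hℓp hx hxo hM (Nat.one_le_pow _ _ (by omega))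
    refine good_of_uGood (k := 1) hℓ (by rw [pow_one, ← hxo]; exact pow_orderOf_eq_one x) key ?_
    omega
  rcases Nat.lt_or_ge 2 (p ^ b) with h2 | h2
  · rcases Nat.lt_or_ge 3 (p ^ b) with h3 | h3
    · -- base at least `4`
      refine big h2 ?_
      have h2 := Nat.le_of_dvd (by positivity) h9
      have h3' : 64 * (p ^ b) ^ 6 ≤ (p ^ b) ^ 9 := by
        have : (p ^ b) ^ 9 = (p ^ b) ^ 3 * (p ^ b) ^ 6 := by ring
        rw [this]
        exact Nat.mul_le_mul_right _ (by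
          calc 64 = 4 ^ 3 := by norm_num
            _ ≤ (p ^ b) ^ 3 := Nat.pow_le_pow_left h3 3)
      have h4 : 64 * (p ^ b) ^ 3 ≤ (p ^ b) ^ 6 := by
        have : (p ^ b) ^ 6 = (p ^ b) ^ 3 * (p ^ b) ^ 3 := by ring
        rw [this]
        exact Nat.mul_le_mul_right _ (by
          calc 64 = 4 ^ 3 := by norm_num
            _ ≤ (p ^ b) ^ 3 := Nat.pow_le_pow_left h3 3)
      have h5 : 64 ≤ (p ^ b) ^ 3 := by
        calc 64 = 4 ^ 3 := by norm_num
          _ ≤ (p ^ b) ^ 3 := Nat.pow_le_pow_left h3 3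
      omega
    · -- base `3`
      exfalso
      have h4 : p ^ b = 3 := by omega
      rw [h4] at h9
      norm_num at h9
      have h5 : ℓ = 757 := (Nat.prime_dvd_prime_iff_eq hℓ (by norm_num)).1 h9
      have h6 : p = 3 := by
        have h7 : p ∣ 3 := by rw [← h4]; exact dvd_pow_self p hb
        exact (Nat.prime_dvd_prime_iff_eq hp Nat.prime_three).1 h7
      subst h6
      rcases h3K with h7 | h7
      · exact h7 h5
      · exact h7 (by exact_mod_cast CharP.cast_eq_zero K 3)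
  · -- base `2`
    have h4 : p ^ b = 2 := by omega
    obtain ⟨rfl, rfl⟩ := card_two hp h4.symm
    rw [pow_one] at h9 hM
    norm_num at h9
    obtain rfl : ℓ = 73 := (Nat.prime_dvd_prime_iff_eq hℓ (by norm_num)).1 h9
    obtain ⟨x, hx, j, hj, hx1, hcard⟩ := a73_x cs 2 (by exact_mod_cast CharP.cast_eq_zero K 2) hT
    rcases Nat.lt_or_ge 2 (Fintype.card K) with hK | hK
    · obtain ⟨i, w, hw, hone⟩ := HD.long
      obtain ⟨g, S⟩ := scR_chev hT cs 2 hw hone hK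
      have key := uGood_scalar (D := 2) (M' := 2 ^ 9) HD.hs hsim hcen (G1_eq_top hT cs) S hℓ hℓp hx hj hx1
        (isPGroup_QQ HD.toHB) (lt_of_le_of_lt hcard (Nat.mul_lt_mul_of_pos_right
          (Nat.pow_lt_pow_right hK1 (by norm_num)) Nat.card_pos)) hM (by norm_num)
      exact good_of_uGood hℓ hj key (by norm_num)
    · have hK2 : Fintype.card K = 2 := by omega
      rw [hK2] at hcard
      have key := uGood_small (M' := 2 ^ 9) HD.hs hsim hcen (G1_eq_top hT cs) hℓ hℓp hx hj hx1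
        (isPGroup_QQ HD.toHB) hcard (by norm_num) hM (by norm_num)
      exact good_of_uGood (D := 3) hℓ hj key (by norm_num)

end Cfsg.Agent.H441.FPR.Bit
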