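import Cfsg.Agent.H441.FPR.Tor

/-!
# Sections with scalars: a `p`-element centralises them or has few fixed points
-/

set_option autoImplicit false

namespace Cfsg.Agent.H441.FPR

universe u

/-- fixed points of a `p`-element on a subgroup -/
theorem card_fix_modEq {G : Type*} [Group G] [Finite G] {p k : ℕ} [Fact p.Prime] {x : G} (hx : x ^ p ^ k = 1)
    (A : Subgroup G) (hA : ∀ a ∈ A, x * a * x⁻¹ ∈ A) :
    Nat.card A ≡ Nat.card ↥(A ⊓ Subgroup.centralizer ({x} : Set G)) [MOD p] := by
  classical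
  have := Fintype.ofFinite G
  let f : Function.End A := fun a => ⟨x * a * x⁻¹, hA a a.2⟩
  have hf : ∀ m : ℕ, ∀ a : A, (((f ^ m) a : A) : G) = x ^ m * a * (x ^ m)⁻¹ := by
    intro m
    induction m with
    | zero =>
      intro a
      change (a : G) = _
      simp
    | succ m ih =>
      intro a
      rw [pow_succ']
      change x * ((f ^ m) a : A) * x⁻¹ = _
      rw [ih, pow_succ']
      group
  have h1 : f ^ p ^ k = 1 := by
    funext a
    apply Subtype.ext
    rw [hf, hx]
    change _ = (a : G)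
    simp
  have h2 := Equiv.Perm.card_fixedPoints_modEq h1
  rw [← Nat.card_eq_fintype_card, ← Nat.card_eq_fintype_card] at h2
  have h3 : Nat.card (Function.fixedPoints f) = Nat.card ↥(A ⊓ Subgroup.centralizer ({x} : Set G)) := by
    refine Nat.card_congr ⟨fun a => ⟨a.1.1, a.1.2, ?_⟩, fun a => ⟨⟨a.1, a.2.1⟩, ?_⟩, fun a => rfl, fun a => rfl⟩
    · have h4 := congrArg Subtype.val a.2
      change x * a.1.1 * x⁻¹ = a.1.1 at h4
      rw [mul_inv_eq_iff_eq_mul] at h4
      exact Subgroup.mem_centralizer_singleton_iff.2 h4.symm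
    · have h4 := Subgroup.mem_centralizer_singleton_iff.1 a.2.2
      apply Subtype.ext
      change x * a.1 * x⁻¹ = a.1
      rw [mul_inv_eq_iff_eq_mul]
      exact h4.symm
  rwa [h3] at h2

/-- **The dichotomy.** -/
theorem dich {G : Type*} [Group G] [Finite G] {K : Type u} [Field K] [Fintype K] {n p k : ℕ} [Fact p.Prime]
    (hpK : ¬ p ∣ Fintype.card K) (Ψ : Multiplicative ((Fin n → K) × K) →* G) {x : G} (hx : x ^ p ^ k = 1)
    (h0 : ∀ s : K, Commute x (Ψ (Multiplicative.ofAdd (0, s))))
    (hn : ∀ w, ∃ w', x * Ψ w * x⁻¹ = Ψ w')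
    (hs : ∀ c : K, c ≠ 0 → ∃ h, Commute x h ∧ ∀ v : Fin n → K, ∃ s : K,
      h * Ψ (Multiplicative.ofAdd (v, 0)) * h⁻¹ = Ψ (Multiplicative.ofAdd (c • v, s))) :
    ∃ f ≤ n, orderOf (Fintype.card K : ZMod p) ∣ n - f ∧ (f = n → ∀ w, Commute x (Ψ w)) ∧
      (f = 0 → ∀ w, Commute x (Ψ w) → w.toAdd.1 = 0) := by
  classical
  have hsplit : ∀ (v : Fin n → K) (s : K), Ψ (Multiplicative.ofAdd (v, s)) =
      Ψ (Multiplicative.ofAdd (v, 0)) * Ψ (Multiplicative.ofAdd (0, s)) := by
    intro v s
    rw [← map_mul, ← ofAdd_add, Prod.mk_add_mk, add_zero, zero_add]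
  have hcomm : ∀ (v : Fin n → K) (s : K), Commute x (Ψ (Multiplicative.ofAdd (v, s))) ↔
      Commute x (Ψ (Multiplicative.ofAdd (v, 0))) := by
    intro v s
    rw [hsplit]
    constructor
    · intro h
      have h1 := h.mul_right (h0 s).inv_right
      rwa [mul_inv_cancel_right] at h1
    · intro h
      exact h.mul_right (h0 s)
  let F : Submodule K (Fin n → K) :=
    { carrier := {v | Commute x (Ψ (Multiplicative.ofAdd (v, 0)))}
      zero_mem' := h0 0
      add_mem' := by
        intro a b ha hb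
        have h1 : Ψ (Multiplicative.ofAdd (a + b, (0 : K))) =
            Ψ (Multiplicative.ofAdd (a, 0)) * Ψ (Multiplicative.ofAdd (b, 0)) := by
          rw [← map_mul, ← ofAdd_add, Prod.mk_add_mk, add_zero]
        change Commute x (Ψ (Multiplicative.ofAdd (a + b, (0 : K))))
        rw [h1]
        exact Commute.mul_right ha hb
      smul_mem' := by
        intro c a ha
        by_cases hc : c = 0
        · rw [hc, zero_smul]
          exact h0 0
        · obtain ⟨h, hh, hv⟩ := hs c hc
          obtain ⟨s, hs'⟩ := hv a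
          change Commute x (Ψ (Multiplicative.ofAdd (c • a, (0 : K))))
          rw [← hcomm (c • a) s, ← hs']
          exact (hh.mul_right ha).mul_right hh.inv_right }
  have hF : ∀ v, v ∈ F ↔ Commute x (Ψ (Multiplicative.ofAdd (v, 0))) := fun v => Iff.rfl
  -- the subgroup of the fixed vectors
  obtain ⟨C, hC⟩ : ∃ C : Subgroup (Multiplicative ((Fin n → K) × K)),
      C = (Subgroup.centralizer ({x} : Set G)).comap Ψ := ⟨_, rfl⟩
  have hmemC : ∀ w, w ∈ C ↔ Commute x (Ψ w) := by
    intro w
    rw [hC, Subgroup.mem_comap, Subgroup.mem_centralizer_singleton_iff]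
    exact ⟨fun h => h.symm, fun h => h.symm⟩
  have hkerC : Ψ.ker ≤ C := by
    intro w hw
    rw [hmemC, (MonoidHom.mem_ker).1 hw]
    exact Commute.one_right x
  have hcardC : Nat.card C = Fintype.card K ^ (Module.finrank K F) * Fintype.card K := by
    have h1 : Nat.card C = Nat.card (F × K) := by
      refine Nat.card_congr ⟨fun w => (⟨w.1.toAdd.1, ?_⟩, w.1.toAdd.2),
        fun w => ⟨Multiplicative.ofAdd (w.1.1, w.2), ?_⟩, fun w => rfl, fun w => rfl⟩
      · have h2 := (hmemC w.1).1 w.2
        rw [hF, ← hcomm _ w.1.toAdd.2]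
        exact h2
      · rw [hmemC, hcomm]
        exact w.1.2
    rw [h1, Nat.card_prod, Nat.card_eq_fintype_card, Nat.card_eq_fintype_card,
      Module.card_eq_pow_finrank (K := K) (V := F)]
  have hcardW : Nat.card (Multiplicative ((Fin n → K) × K)) = Fintype.card K ^ n * Fintype.card K := by
    rw [Nat.card_eq_fintype_card, Fintype.card_multiplicative, Fintype.card_prod, Fintype.card_fun, Fintype.card_fin]
  have hk1 : Nat.card Ψ.ker * Nat.card Ψ.range = Nat.card (Multiplicative ((Fin n → K) × K)) := by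
    rw [← Subgroup.index_ker, Subgroup.card_mul_index]
  have hk2 : Nat.card Ψ.ker * Nat.card (C.map Ψ) = Nat.card C := by
    rw [← Subgroup.relIndex_ker, ← Nat.card_congr (Subgroup.subgroupOfEquivOfLe hkerC).toEquiv]
    exact Subgroup.card_mul_index (Ψ.ker.subgroupOf C)
  have hmap : C.map Ψ = Ψ.range ⊓ Subgroup.centralizer ({x} : Set G) := by
    ext y
    constructor
    · rintro ⟨w, hw, rfl⟩
      refine ⟨⟨w, rfl⟩, ?_⟩
      rw [hC] at hw
      exact hw
    · rintro ⟨⟨w, rfl⟩, hw⟩
      refine ⟨w, ?_, rfl⟩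
      rw [hC]
      exact hw
  have hmod := card_fix_modEq hx Ψ.range (by
    rintro _ ⟨w, rfl⟩
    obtain ⟨w', hw'⟩ := hn w
    exact ⟨w', hw'.symm⟩)
  rw [← hmap] at hmod
  have hmod2 := (Nat.ModEq.mul_left (Nat.card Ψ.ker) hmod)
  rw [hk1, hk2, hcardW, hcardC] at hmod2
  have hfle : Module.finrank K F ≤ n := by
    have := Submodule.finrank_le F
    rwa [Module.finrank_fin_fun] at this
  refine ⟨Module.finrank K F, hfle, ?_, ?_, ?_⟩
  · rw [orderOf_dvd_iff_pow_eq_one]
    have h1 := (ZMod.natCast_eq_natCast_iff _ _ p).2 hmod2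
    push_cast at h1
    have hq : (Fintype.card K : ZMod p) ≠ 0 := by
      intro h
      exact hpK ((ZMod.natCast_eq_zero_iff _ _).1 h)
    have h2 : (Fintype.card K : ZMod p) ^ n = (Fintype.card K : ZMod p) ^ Module.finrank K F :=
      mul_right_cancel₀ hq h1
    have h3 : (Fintype.card K : ZMod p) ^ Module.finrank K F * (Fintype.card K : ZMod p) ^ (n - Module.finrank K F) =
        (Fintype.card K : ZMod p) ^ Module.finrank K F * 1 := by
      rw [← pow_add, Nat.add_sub_cancel' hfle, h2, mul_one]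
    exact mul_left_cancel₀ (pow_ne_zero _ hq) h3
  · intro hf w
    have h1 : F = ⊤ := by
      apply Submodule.eq_top_of_finrank_eq
      rw [hf, Module.finrank_fin_fun]
    have h2 : w.toAdd.1 ∈ F := by rw [h1]; trivial
    rw [hF, ← hcomm _ w.toAdd.2] at h2
    exact h2
  · intro hf w hw
    have h1 : F = ⊥ := Submodule.finrank_eq_zero.1 hf
    have h2 : w.toAdd.1 ∈ F := by
      rw [hF, ← hcomm _ w.toAdd.2]
      exact hw
    rw [h1] at h2
    exact h2

end Cfsg.Agent.H441.FPR
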