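import Cfsg.Agent.H441.FPR.ETabB

/-!
# Table: `SL_8` in `E₈`
-/

set_option autoImplicit false
set_option maxRecDepth 100000

namespace Cfsg.Agent.H441.FPR

open Cfsg.Lie Cfsg.Agent.ChevalleyStructure Cfsg.Agent.ChevalleyStructure.Elts Cfsg.Agent.H79.SimpleGen Matrix
open Cfsg.Agent.H398.FPR Cfsg.Agent.TitsThree.KExcRT

/-! ### `E₈` -/

def R8d : List (List ℕ) := [[0, 120, 122, 125, 129, 134, 140, 168], [119, 0, 121, 124, 128, 133, 139, 167],
  [117, 118, 0, 123, 127, 132, 138, 166], [114, 115, 116, 0, 126, 131, 137, 165],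
  [110, 111, 112, 113, 0, 130, 136, 164], [105, 106, 107, 108, 109, 0, 135, 163],
  [99, 100, 101, 102, 103, 104, 0, 162], [71, 72, 73, 74, 75, 76, 77, 0]]
def r8d : Fin 8 → Fin 8 → ℕ := ![![0, 120, 122, 125, 129, 134, 140, 168], ![119, 0, 121, 124, 128, 133, 139, 167],
  ![117, 118, 0, 123, 127, 132, 138, 166], ![114, 115, 116, 0, 126, 131, 137, 165],
  ![110, 111, 112, 113, 0, 130, 136, 164], ![105, 106, 107, 108, 109, 0, 135, 163],
  ![99, 100, 101, 102, 103, 104, 0, 162], ![71, 72, 73, 74, 75, 76, 77, 0]]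
def g8d : Fin 1 → Fin 8 → ℕ := ![![239, 238, 237, 236, 235, 234, 233, 225]]
def h8d : Fin 0 → Fin 8 → ℕ := ![]
def Γ8d : List ℕ := List.range' 141 21 ++ List.range' 169 71
def st8d : List (ℕ × ℕ) := [239, 238, 237, 236, 235, 234, 233, 225].flatMap fun a =>
  [239, 238, 237, 236, 235, 234, 233, 225].map fun b => (a, 239 - b)

theorem nat8d : ∀ i, NatOK chevE8 r8d 1 (g8d i) (fun _ => 1) := by decide +kernel
theorem dual8d : ∀ i, NatOK chevE8 (fun a b => r8d b a) (-1) (fun a => chevE8.neg (g8d i a)) (fun _ => 1) := by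
  decide +kernel
theorem inv8d : ∀ k ∈ mkL R8d 8, Inv chevE8 Γ8d k := by decide +kernel
theorem inv8d' : ∀ k ∈ mkL R8d 8, Inv chevE8 (Γ8d.map chevE8.neg) k := by decide +kernel

theorem t8d : CB chevE8 r8d 1 g8d (fun _ _ => 1) (fun _ _ => 1) h8d (fun _ _ => 1) (fun _ _ => 1) Γ8d (fun _ => true)
    (mkL R8d 8) (mkst R8d 8) st8d [(109, 142), (130, 97)] where
  rlt := by decide +kernel
  nat := nat8d
  dual := dual8d
  nat' := by decide +kernel
  dual' := by decide +kernel
  gmem := by decide +kernel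
  hmem := by decide +kernel
  pos := by decide +kernel
  inv := inv8d
  inv' := inv8d'
  lg := by decide +kernel
  chain := by decide +kernel
  gen := by decide +kernel

theorem rt8d : RTa chevE8 r8d ∧ (RTb chevE8 r8d fun _ _ => 1) ∧ RTc chevE8 r8d ∧
    ∀ i j, i ≠ j → r8d j i = chevE8.neg (r8d i j) := by decide +kernel

end Cfsg.Agent.H441.FPR
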