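import Cfsg.Agent.H441.FPR.ETabB

/-!
# Tables: `SL_5` in `E₆` and `E₇`
-/

set_option autoImplicit false
set_option maxRecDepth 100000

namespace Cfsg.Agent.H441.FPR

open Cfsg.Lie Cfsg.Agent.ChevalleyStructure Cfsg.Agent.ChevalleyStructure.Elts Cfsg.Agent.H79.SimpleGen Matrix
open Cfsg.Agent.H398.FPR Cfsg.Agent.TitsThree.KExcRT

/-! ### `E₆` -/

def R6e : List (List ℕ) := [[0, 46, 47, 48, 49], [25, 0, 39, 40, 41], [24, 32, 0, 37, 38], [23, 31, 34, 0, 36],
  [22, 30, 33, 35, 0]]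
def r6e : Fin 5 → Fin 5 → ℕ := ![![0, 46, 47, 48, 49], ![25, 0, 39, 40, 41], ![24, 32, 0, 37, 38], ![23, 31, 34, 0, 36],
  ![22, 30, 33, 35, 0]]
def g6e : Fin 1 → Fin 5 → ℕ := ![![71, 70, 69, 68, 67]]
def h6e : Fin 0 → Fin 5 → ℕ := ![]
def u6e : Fin 1 → Fin 5 → ℤ := ![![1, -1, 1, -1, 1]]
def Γ6e : List ℕ := [42, 43, 44, 45, 50, 51, 52, 53, 54, 55, 57, 58, 59, 60, 61, 62, 63, 64, 65, 66, 67, 68, 69, 70, 71]
def st6e : List (ℕ × ℕ) := [71, 70, 69, 68, 67].flatMap fun a => [71, 70, 69, 68, 67].map fun b => (a, 71 - b)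

theorem t6e : CB chevE6 r6e (-1) g6e u6e u6e h6e (fun _ _ => 1) (fun _ _ => 1) Γ6e (fun _ => true)
    (mkL R6e 5) (mkst R6e 5) st6e [(32, 43), (39, 28), (32, 58), (39, 13), (57, 29), (14, 42)] where
  rlt := by decide +kernel
  nat := by decide +kernel
  dual := by decide +kernel
  nat' := by decide +kernel
  dual' := by decide +kernel
  gmem := by decide +kernel
  hmem := by decide +kernel
  pos := by decide +kernel
  inv := by decide +kernel
  inv' := by decide +kernel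
  lg := by decide +kernel
  chain := by decide +kernel
  gen := by decide +kernel

theorem rt6e : RTa chevE6 r6e ∧ (RTb chevE6 r6e fun _ _ => -1) ∧ RTc chevE6 r6e ∧
    ∀ i j, i ≠ j → r6e j i = chevE6.neg (r6e i j) := by decide +kernel

/-! ### `E₇` -/

def R7e : List (List ℕ) := [[0, 63, 65, 68, 72], [62, 0, 64, 67, 71], [60, 61, 0, 66, 70], [57, 58, 59, 0, 69],
  [53, 54, 55, 56, 0]]
def r7e : Fin 5 → Fin 5 → ℕ := ![![0, 63, 65, 68, 72], ![62, 0, 64, 67, 71], ![60, 61, 0, 66, 70], ![57, 58, 59, 0, 69],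
  ![53, 54, 55, 56, 0]]
def g7e : Fin 1 → Fin 5 → ℕ := ![![77, 76, 75, 74, 73]]
def h7e : Fin 0 → Fin 5 → ℕ := ![]
def Γ7e : List ℕ := List.range' 73 53
def st7e : List (ℕ × ℕ) := [77, 76, 75, 74, 73].flatMap fun a => [77, 76, 75, 74, 73].map fun b => (a, 125 - b)

theorem t7e : CB chevE7 r7e 1 g7e (fun _ _ => 1) (fun _ _ => 1) h7e (fun _ _ => 1) (fun _ _ => 1) Γ7e (fun _ => true)
    (mkL R7e 5) (mkst R7e 5) st7e [(56, 79), (69, 46), (56, 95), (69, 30), (94, 52), (31, 73)] where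
  rlt := by decide +kernel
  nat := by decide +kernel
  dual := by decide +kernel
  nat' := by decide +kernel
  dual' := by decide +kernel
  gmem := by decide +kernel
  hmem := by decide +kernel
  pos := by decide +kernel
  inv := by decide +kernel
  inv' := by decide +kernel
  lg := by decide +kernel
  chain := by decide +kernel
  gen := by decide +kernel

theorem rt7e : RTa chevE7 r7e ∧ (RTb chevE7 r7e fun _ _ => 1) ∧ RTc chevE7 r7e ∧
    ∀ i j, i ≠ j → r7e j i = chevE7.neg (r7e i j) := by decide +kernel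

end Cfsg.Agent.H441.FPR
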