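import Cfsg.Agent.H441.FPR.ETabB

/-!
# Table: `SL_7` in `E₈`
-/

set_option autoImplicit false
set_option maxRecDepth 100000

namespace Cfsg.Agent.H441.FPR

open Cfsg.Lie Cfsg.Agent.ChevalleyStructure Cfsg.Agent.ChevalleyStructure.Elts Cfsg.Agent.H79.SimpleGen Matrix
open Cfsg.Agent.H398.FPR Cfsg.Agent.TitsThree.KExcRT

def R8e : List (List ℕ) := [[0, 120, 122, 125, 129, 134, 146], [119, 0, 121, 124, 128, 133, 145],
  [117, 118, 0, 123, 127, 132, 144], [114, 115, 116, 0, 126, 131, 143], [110, 111, 112, 113, 0, 130, 142],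
  [105, 106, 107, 108, 109, 0, 141], [93, 94, 95, 96, 97, 98, 0]]
def r8e : Fin 7 → Fin 7 → ℕ := ![![0, 120, 122, 125, 129, 134, 146], ![119, 0, 121, 124, 128, 133, 145],
  ![117, 118, 0, 123, 127, 132, 144], ![114, 115, 116, 0, 126, 131, 143], ![110, 111, 112, 113, 0, 130, 142],
  ![105, 106, 107, 108, 109, 0, 141], ![93, 94, 95, 96, 97, 98, 0]]
def g8e : Fin 1 → Fin 7 → ℕ := ![![239, 238, 237, 236, 235, 234, 232]]
def h8e : Fin 0 → Fin 7 → ℕ := ![]
def Γ8e : List ℕ := List.range' 135 6 ++ List.range' 147 15 ++ List.range' 163 77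
def st8e : List (ℕ × ℕ) := [239, 238, 237, 236, 235, 234, 232].flatMap fun a =>
  [239, 238, 237, 236, 235, 234, 232].map fun b => (a, 239 - b)

theorem nat8e : ∀ i, NatOK chevE8 r8e 1 (g8e i) (fun _ => 1) := by decide +kernel
theorem dual8e : ∀ i, NatOK chevE8 (fun a b => r8e b a) (-1) (fun a => chevE8.neg (g8e i a)) (fun _ => 1) := by
  decide +kernel
theorem inv8e : ∀ k ∈ mkL R8e 7, Inv chevE8 Γ8e k := by decide +kernel
theorem inv8e' : ∀ k ∈ mkL R8e 7, Inv chevE8 (Γ8e.map chevE8.neg) k := by decide +kernel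

theorem t8e : CB chevE8 r8e 1 g8e (fun _ _ => 1) (fun _ _ => 1) h8e (fun _ _ => 1) (fun _ _ => 1) Γ8e (fun _ => true)
    (mkL R8e 7) (mkst R8e 7) st8e [(109, 136), (130, 103), (109, 164), (130, 75), (163, 104), (76, 135)] where
  rlt := by decide +kernel
  nat := nat8e
  dual := dual8e
  nat' := by decide +kernel
  dual' := by decide +kernel
  gmem := by decide +kernel
  hmem := by decide +kernel
  pos := by decide +kernel
  inv := inv8e
  inv' := inv8e'
  lg := by decide +kernel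
  chain := by decide +kernel
  gen := by decide +kernel

theorem rt8e : RTa chevE8 r8e ∧ (RTb chevE8 r8e fun _ _ => 1) ∧ RTc chevE8 r8e ∧
    ∀ i j, i ≠ j → r8e j i = chevE8.neg (r8e i j) := by decide +kernel

end Cfsg.Agent.H441.FPR
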