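import Cfsg.Agent.H441.FPR.Trans

/-!
# `F₄(q)`, `q` even, `p` dividing `q² + 1`
-/

set_option autoImplicit false
set_option maxRecDepth 100000

namespace Cfsg.Agent.H441.FPR

open Cfsg.Lie Cfsg.Agent.ChevalleyStructure Cfsg.Agent.ChevalleyStructure.Elts Cfsg.Agent.H79.SimpleGen Matrix
open Cfsg.Agent.H398.FPR Cfsg.Agent.TitsThree.KExcRT Cfsg.Agent.ChevalleyStructure.RootVec Cfsg.Agent.Nodes.RGDChev
open Cfsg.Agent.KFacts.RgdChevCoord

universe u

variable {K : Type u} [Field K]

/-! ### The sections -/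

def L4 : List ℕ := [25, 27, 22, 20]
def χ0 : List (ℕ × ℤ) := [(0, 2), (1, 3), (2, 4), (3, 2)]
def χ3 : List (ℕ × ℤ) := [(0, 1), (1, 2), (2, 3), (3, 2)]
def χ0' : List (ℕ × ℤ) := [(0, -2), (1, -3), (2, -4), (3, -2)]
def χ3' : List (ℕ × ℤ) := [(0, -1), (1, -2), (2, -3), (3, -2)]

def sA : Fin 4 → ℕ := ![33, 34, 35, 37]
def sC : Fin 4 → ℕ := ![36, 38, 39, 40]
def sB : Fin 4 → ℕ := ![24, 26, 31, 32]
def sD : Fin 4 → ℕ := ![42, 43, 45, 46]
def sA' : Fin 4 → ℕ := ![14, 13, 12, 10]
def sC' : Fin 4 → ℕ := ![11, 9, 8, 7]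
def sB' : Fin 4 → ℕ := ![23, 21, 16, 15]
def sD' : Fin 4 → ℕ := ![5, 4, 2, 1]

theorem tA : SecOK chevF4 sA 41 L4 χ0 := by constructor <;> decide +kernel
theorem tC : SecOK chevF4 sC 47 L4 χ0 := by constructor <;> decide +kernel
theorem tB : SecOK chevF4 sB 29 L4 χ3 := by constructor <;> decide +kernel
theorem tD : SecOK chevF4 sD 44 L4 χ3 := by constructor <;> decide +kernel
theorem tA' : SecOK chevF4 sA' 6 L4 χ0' := by constructor <;> decide +kernel
theorem tC' : SecOK chevF4 sC' 0 L4 χ0' := by constructor <;> decide +kernel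
theorem tB' : SecOK chevF4 sB' 18 L4 χ3' := by constructor <;> decide +kernel
theorem tD' : SecOK chevF4 sD' 3 L4 χ3' := by constructor <;> decide +kernel

/-! ### The order of the Levi subgroup -/

section Mv

variable (hD : InList chevF4) (h2 : (2 : K) = 0)

theorem conj_one {r k j : ℕ} (hr : r < chevF4.nroots) (hk : k < chevF4.nroots) (hrk : k ≠ r)
    (hneg : k ≠ chevF4.neg r) (h : chevF4.commTerms r k = [(j, 1, 1, 1)]) (t u : K) :
    xS hD r t * xS hD k u * (xS hD r t)⁻¹ = xS hD k u * xS hD j (t * u) := by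
  rw [conj_word hD hr hk hrk hneg, h, wd_cons]
  have h1 : wd hD ([] : List (ℕ × ℤ × ℕ × ℕ)) (-t) u = (1 : ↥(chevF4.group K)) := rfl
  rw [h1, mul_one]
  congr 2
  push_cast
  ring

theorem conj_nil {r k : ℕ} (hr : r < chevF4.nroots) (hk : k < chevF4.nroots) (hrk : k ≠ r)
    (hneg : k ≠ chevF4.neg r) (h : chevF4.commTerms r k = []) (t u : K) :
    xS hD r t * xS hD k u * (xS hD r t)⁻¹ = xS hD k u := by
  rw [conj_word hD hr hk hrk hneg, h]
  have h1 : wd hD ([] : List (ℕ × ℤ × ℕ × ℕ)) (-t) u = (1 : ↥(chevF4.group K)) := rfl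
  rw [h1, mul_one]

theorem conj_two {r k j i : ℕ} {N : ℤ} (hr : r < chevF4.nroots) (hk : k < chevF4.nroots) (hrk : k ≠ r)
    (hneg : k ≠ chevF4.neg r) (h : chevF4.commTerms r k = [(j, 1, 1, 1), (i, N, 1, 2)]) (t u : K) :
    ∃ s : K, xS hD r t * xS hD k u * (xS hD r t)⁻¹ = xS hD k u * xS hD j (t * u) * xS hD i s := by
  refine ⟨(N : K) * (-(-t)) ^ 1 * u ^ 2, ?_⟩
  rw [conj_word hD hr hk hrk hneg, h, wd_cons, wd_cons]
  have h1 : wd hD ([] : List (ℕ × ℤ × ℕ × ℕ)) (-t) u = (1 : ↥(chevF4.group K)) := rfl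
  rw [h1, mul_one, ← mul_assoc]
  congr 3
  push_cast
  ring

/-- the elements of the section `A` -/
noncomputable def PA (v : Fin 4 → K) (s : K) : ↥(chevF4.group K) := spsi hD tA h2 (Multiplicative.ofAdd (v, s))

theorem PA_add (v w : Fin 4 → K) (s t : K) : PA hD h2 (v + w) (s + t) = PA hD h2 v s * PA hD h2 w t := by
  unfold PA
  rw [← map_mul]
  rfl

theorem PA_single (i : Fin 4) (t : K) : PA hD h2 (Pi.single i t) 0 = xS hD (sA i) t := spsi_single hD tA h2 i t

theorem PA_zero (s : K) : PA hD h2 0 s = xS hD 41 s := spsi_zero hD tA h2 s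

theorem mv_gen {g : ↥(chevF4.group K)} (hg : ∀ s : K, Commute g (xS hD 41 s)) {σ : (Fin 4 → K) → (Fin 4 → K)}
    (hσ : ∀ v w, σ (v + w) = σ v + σ w)
    (h : ∀ i u, ∃ s, g * xS hD (sA i) u * g⁻¹ = PA hD h2 (σ (Pi.single i u)) s) (v : Fin 4 → K) (s : K) :
    ∃ s', g * PA hD h2 v s * g⁻¹ = PA hD h2 (σ v) s' := by
  have h0 : σ 0 = 0 := by
    have h1 := hσ 0 0
    rw [add_zero] at h1
    exact (add_eq_left.1 h1.symm)
  have key : ∀ v, ∃ s', g * PA hD h2 v 0 * g⁻¹ = PA hD h2 (σ v) s' := by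
    intro v
    refine vec_induction (P := fun v => ∃ s', g * PA hD h2 v 0 * g⁻¹ = PA hD h2 (σ v) s') ?_ ?_ ?_ v
    · refine ⟨0, ?_⟩
      rw [h0, PA_zero, xS_zero]
      group
    · rintro v w ⟨s1, e1⟩ ⟨s2, e2⟩
      refine ⟨s1 + s2, ?_⟩
      rw [hσ, PA_add, ← e1, ← e2]
      have h3 := PA_add hD h2 v w 0 0
      rw [add_zero] at h3
      rw [h3]
      group
    · intro i u
      rw [PA_single]
      exact h i u
  obtain ⟨s1, e1⟩ := key v
  refine ⟨s1 + s, ?_⟩
  have h3 := PA_add hD h2 v 0 0 s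
  rw [add_zero, zero_add] at h3
  have h4 := PA_add hD h2 (σ v) 0 s1 s
  rw [add_zero] at h4
  rw [h3, h4, ← e1, PA_zero]
  have h5 := (hg s).eq
  calc g * (PA hD h2 v 0 * xS hD 41 s) * g⁻¹ = g * PA hD h2 v 0 * g⁻¹ * (g * xS hD 41 s) * g⁻¹ := by group
    _ = _ := by rw [h5]; group

theorem PA_two (i j : Fin 4) (u w s : K) : PA hD h2 (Pi.single i u + Pi.single j w) s =
    xS hD (sA i) u * xS hD (sA j) w * xS hD 41 s := by
  have h1 := PA_add hD h2 (Pi.single i u + Pi.single j w) 0 0 s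
  rw [add_zero, zero_add] at h1
  have h3 := PA_add hD h2 (Pi.single i u) (Pi.single j w) 0 0
  rw [add_zero] at h3
  rw [h1, h3, PA_single, PA_single, PA_zero]

theorem PA_one (i : Fin 4) (u s : K) : PA hD h2 (Pi.single i u) s = xS hD (sA i) u * xS hD 41 s := by
  have h1 := PA_add hD h2 (Pi.single i u) 0 0 s
  rw [add_zero, zero_add] at h1
  rw [h1, PA_single, PA_zero]

include h2 in
theorem hg41 {k : ℕ} (hk : k ∈ L4) (t s : K) : Commute (xS hD k t) (xS hD 41 s) := (tA.cz k hk).comm hD h2 t s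

theorem mv_27 (t : K) (v : Fin 4 → K) (s : K) :
    ∃ s', xS hD 27 t * PA hD h2 v s * (xS hD 27 t)⁻¹ = PA hD h2 (mv27 t v) s' := by
  refine mv_gen hD h2 (hg41 hD h2 (by decide) t) (σ := mv27 t) ?_ ?_ v s
  · intro v w
    funext i
    fin_cases i <;> simp [mv27] <;> ring
  · intro i u
    fin_cases i
    · have e1 : mv27 t (Pi.single 0 u) = Pi.single 0 u + Pi.single 1 (t * u) := by
        funext i
        fin_cases i <;> simp [mv27]
      refine ⟨0, ?_⟩
      change _ = PA hD h2 (mv27 t (Pi.single 0 u)) 0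
      rw [e1, PA_two, xS_zero, mul_one]
      exact conj_one hD (by decide +kernel) (by decide +kernel) (by decide +kernel) (by decide +kernel)
        (by decide +kernel) t u
    · have e1 : mv27 t (Pi.single 1 u) = Pi.single 1 u := by
        funext i
        fin_cases i <;> simp [mv27]
      refine ⟨0, ?_⟩
      change _ = PA hD h2 (mv27 t (Pi.single 1 u)) 0
      rw [e1, PA_single]
      exact conj_nil hD (by decide +kernel) (by decide +kernel) (by decide +kernel) (by decide +kernel)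
        (by decide +kernel) t u
    · have e1 : mv27 t (Pi.single 2 u) = Pi.single 2 u + Pi.single 3 (t * u) := by
        funext i
        fin_cases i <;> simp [mv27]
      refine ⟨0, ?_⟩
      change _ = PA hD h2 (mv27 t (Pi.single 2 u)) 0
      rw [e1, PA_two, xS_zero, mul_one]
      exact conj_one hD (by decide +kernel) (by decide +kernel) (by decide +kernel) (by decide +kernel)
        (by decide +kernel) t u
    · have e1 : mv27 t (Pi.single 3 u) = Pi.single 3 u := by
        funext i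
        fin_cases i <;> simp [mv27]
      refine ⟨0, ?_⟩
      change _ = PA hD h2 (mv27 t (Pi.single 3 u)) 0
      rw [e1, PA_single]
      exact conj_nil hD (by decide +kernel) (by decide +kernel) (by decide +kernel) (by decide +kernel)
        (by decide +kernel) t u

theorem mv_20 (t : K) (v : Fin 4 → K) (s : K) :
    ∃ s', xS hD 20 t * PA hD h2 v s * (xS hD 20 t)⁻¹ = PA hD h2 (mv20 t v) s' := by
  refine mv_gen hD h2 (hg41 hD h2 (by decide) t) (σ := mv20 t) ?_ ?_ v s
  · intro v w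
    funext i
    fin_cases i <;> simp [mv20] <;> ring
  · intro i u
    fin_cases i
    · have e1 : mv20 t (Pi.single 0 u) = Pi.single 0 u := by
        funext i
        fin_cases i <;> simp [mv20]
      refine ⟨0, ?_⟩
      change _ = PA hD h2 (mv20 t (Pi.single 0 u)) 0
      rw [e1, PA_single]
      exact conj_nil hD (by decide +kernel) (by decide +kernel) (by decide +kernel) (by decide +kernel)
        (by decide +kernel) t u
    · have e1 : mv20 t (Pi.single 1 u) = Pi.single 1 u + Pi.single 0 (t * u) := by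
        funext i
        fin_cases i <;> simp [mv20]
      refine ⟨0, ?_⟩
      change _ = PA hD h2 (mv20 t (Pi.single 1 u)) 0
      rw [e1, PA_two, xS_zero, mul_one]
      exact conj_one hD (by decide +kernel) (by decide +kernel) (by decide +kernel) (by decide +kernel)
        (by decide +kernel) t u
    · have e1 : mv20 t (Pi.single 2 u) = Pi.single 2 u := by
        funext i
        fin_cases i <;> simp [mv20]
      refine ⟨0, ?_⟩
      change _ = PA hD h2 (mv20 t (Pi.single 2 u)) 0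
      rw [e1, PA_single]
      exact conj_nil hD (by decide +kernel) (by decide +kernel) (by decide +kernel) (by decide +kernel)
        (by decide +kernel) t u
    · have e1 : mv20 t (Pi.single 3 u) = Pi.single 3 u + Pi.single 2 (t * u) := by
        funext i
        fin_cases i <;> simp [mv20]
      refine ⟨0, ?_⟩
      change _ = PA hD h2 (mv20 t (Pi.single 3 u)) 0
      rw [e1, PA_two, xS_zero, mul_one]
      exact conj_one hD (by decide +kernel) (by decide +kernel) (by decide +kernel) (by decide +kernel)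
        (by decide +kernel) t u

theorem mv_25 (t : K) (v : Fin 4 → K) (s : K) :
    ∃ s', xS hD 25 t * PA hD h2 v s * (xS hD 25 t)⁻¹ = PA hD h2 (mv25 t v) s' := by
  refine mv_gen hD h2 (hg41 hD h2 (by decide) t) (σ := mv25 t) ?_ ?_ v s
  · intro v w
    funext i
    fin_cases i <;> simp [mv25] <;> ring
  · intro i u
    fin_cases i
    · have e1 : mv25 t (Pi.single 0 u) = Pi.single 0 u := by
        funext i
        fin_cases i <;> simp [mv25]
      refine ⟨0, ?_⟩
      change _ = PA hD h2 (mv25 t (Pi.single 0 u)) 0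
      rw [e1, PA_single]
      exact conj_nil hD (by decide +kernel) (by decide +kernel) (by decide +kernel) (by decide +kernel)
        (by decide +kernel) t u
    · have e1 : mv25 t (Pi.single 1 u) = Pi.single 1 u + Pi.single 2 (t * u) := by
        funext i
        fin_cases i <;> simp [mv25]
      change ∃ s, _ = PA hD h2 (mv25 t (Pi.single 1 u)) s
      rw [e1]
      simp only [PA_two]
      exact conj_two hD (N := 1) (by decide +kernel) (by decide +kernel) (by decide +kernel) (by decide +kernel)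
        (by decide +kernel) t u
    · have e1 : mv25 t (Pi.single 2 u) = Pi.single 2 u := by
        funext i
        fin_cases i <;> simp [mv25]
      refine ⟨0, ?_⟩
      change _ = PA hD h2 (mv25 t (Pi.single 2 u)) 0
      rw [e1, PA_single]
      exact conj_nil hD (by decide +kernel) (by decide +kernel) (by decide +kernel) (by decide +kernel)
        (by decide +kernel) t u
    · have e1 : mv25 t (Pi.single 3 u) = Pi.single 3 u := by
        funext i
        fin_cases i <;> simp [mv25]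
      refine ⟨0, ?_⟩
      change _ = PA hD h2 (mv25 t (Pi.single 3 u)) 0
      rw [e1, PA_single]
      exact conj_nil hD (by decide +kernel) (by decide +kernel) (by decide +kernel) (by decide +kernel)
        (by decide +kernel) t u

theorem mv_22 (t : K) (v : Fin 4 → K) (s : K) :
    ∃ s', xS hD 22 t * PA hD h2 v s * (xS hD 22 t)⁻¹ = PA hD h2 (mv22 t v) s' := by
  refine mv_gen hD h2 (hg41 hD h2 (by decide) t) (σ := mv22 t) ?_ ?_ v s
  · intro v w
    funext i
    fin_cases i <;> simp [mv22] <;> ring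
  · intro i u
    fin_cases i
    · have e1 : mv22 t (Pi.single 0 u) = Pi.single 0 u := by
        funext i
        fin_cases i <;> simp [mv22]
      refine ⟨0, ?_⟩
      change _ = PA hD h2 (mv22 t (Pi.single 0 u)) 0
      rw [e1, PA_single]
      exact conj_nil hD (by decide +kernel) (by decide +kernel) (by decide +kernel) (by decide +kernel)
        (by decide +kernel) t u
    · have e1 : mv22 t (Pi.single 1 u) = Pi.single 1 u := by
        funext i
        fin_cases i <;> simp [mv22]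
      refine ⟨0, ?_⟩
      change _ = PA hD h2 (mv22 t (Pi.single 1 u)) 0
      rw [e1, PA_single]
      exact conj_nil hD (by decide +kernel) (by decide +kernel) (by decide +kernel) (by decide +kernel)
        (by decide +kernel) t u
    · have e1 : mv22 t (Pi.single 2 u) = Pi.single 2 u + Pi.single 1 (t * u) := by
        funext i
        fin_cases i <;> simp [mv22]
      change ∃ s, _ = PA hD h2 (mv22 t (Pi.single 2 u)) s
      rw [e1]
      simp only [PA_two]
      exact conj_two hD (N := -1) (by decide +kernel) (by decide +kernel) (by decide +kernel) (by decide +kernel)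
        (by decide +kernel) t u
    · have e1 : mv22 t (Pi.single 3 u) = Pi.single 3 u := by
        funext i
        fin_cases i <;> simp [mv22]
      refine ⟨0, ?_⟩
      change _ = PA hD h2 (mv22 t (Pi.single 3 u)) 0
      rw [e1, PA_single]
      exact conj_nil hD (by decide +kernel) (by decide +kernel) (by decide +kernel) (by decide +kernel)
        (by decide +kernel) t u

theorem PA_ker {v : Fin 4 → K} {s : K} (h : PA hD h2 v 0 = xS hD 41 s) : v = 0 := by
  by_contra hv
  have hcl : ∀ (g : ↥(chevF4.group K)) (w w' : Fin 4 → K), (∀ s : K, Commute g (xS hD 41 s)) →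
      (∃ s', g * PA hD h2 w 0 * g⁻¹ = PA hD h2 w' s') → (∃ s, PA hD h2 w 0 = xS hD 41 s) →
      ∃ s, PA hD h2 w' 0 = xS hD 41 s := by
    rintro g w w' hg ⟨s', e1⟩ ⟨s, e2⟩
    refine ⟨s - s', ?_⟩
    rw [e2, (hg s).eq, mul_inv_cancel_right] at e1
    have h3 := PA_add hD h2 w' 0 0 s'
    rw [add_zero, zero_add, PA_zero] at h3
    rw [h3] at e1
    rw [sub_eq_add_neg, ← xS_mul, e1, ← xS_inv, mul_inv_cancel_right]
  have h1 := reach (P := fun w => (∃ s, PA hD h2 w 0 = xS hD 41 s) → ∃ s, PA hD h2 ![1, 0, 0, 0] 0 = xS hD 41 s)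
    id (fun t w h3 h4 => h3 (hcl _ _ _ (hg41 hD h2 (by decide) t) (mv_27 hD h2 t w 0) h4))
    (fun t w h3 h4 => h3 (hcl _ _ _ (hg41 hD h2 (by decide) t) (mv_20 hD h2 t w 0) h4))
    (fun t w h3 h4 => h3 (hcl _ _ _ (hg41 hD h2 (by decide) t) (mv_25 hD h2 t w 0) h4))
    (fun t w h3 h4 => h3 (hcl _ _ _ (hg41 hD h2 (by decide) t) (mv_22 hD h2 t w 0) h4)) v hv ⟨s, h⟩
  obtain ⟨s, hs⟩ := h1
  have e0 : (![1, 0, 0, 0] : Fin 4 → K) = Pi.single 0 1 := by
    funext i
    fin_cases i <;> simp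
  rw [e0, PA_single] at hs
  change xS hD 33 1 = _ at hs
  have h3 := conj_one hD (K := K) (r := 27) (k := 33) (j := 34) (by decide +kernel) (by decide +kernel)
    (by decide +kernel) (by decide +kernel) (by decide +kernel) 1 1
  have h4 := hg41 hD h2 (k := 27) (by decide) 1 s
  have h5 : xS hD 27 1 * xS hD 33 1 * (xS hD 27 1)⁻¹ = xS hD 33 (1 : K) := by
    rw [hs, h4.eq, mul_inv_cancel_right]
  rw [h5, mul_one] at h3
  have h6 : xS hD 34 (1 : K) = 1 := mul_eq_left.1 h3.symm
  exact one_ne_zero (xS_eq_one hD (by decide +kernel) h6)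

theorem PA_inj {v w : Fin 4 → K} {s t : K} (h : PA hD h2 v s = PA hD h2 w t) : v = w := by
  have h1 := PA_add hD h2 (v - w) w (s - t) t
  rw [sub_add_cancel, sub_add_cancel, h] at h1
  have h3 : PA hD h2 (v - w) (s - t) = 1 := mul_eq_right.1 h1.symm
  have h4 := PA_add hD h2 (v - w) 0 0 (s - t)
  rw [add_zero, zero_add, h3, PA_zero] at h4
  have h5 : PA hD h2 (v - w) 0 = xS hD 41 (-(s - t)) := by
    rw [← xS_inv]
    exact eq_inv_of_mul_eq_one_left h4.symm
  exact sub_eq_zero.1 (PA_ker hD h2 h5)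

variable [Fintype K]

theorem exists_conjA (g : ↥(UG hD K L4)) (v : Fin 4 → K) :
    ∃ w, ∃ s, (g : ↥(chevF4.group K)) * PA hD h2 v 0 * (g : ↥(chevF4.group K))⁻¹ = PA hD h2 w s := by
  have hrange := spsi_range hD tA h2 (K := K)
  have h1 := UG_conj hD g.2 tA.inv (PA hD h2 v 0) (by rw [← hrange]; exact ⟨_, rfl⟩)
  rw [← hrange] at h1
  obtain ⟨w, hw⟩ := h1
  exact ⟨w.toAdd.1, w.toAdd.2, hw.symm⟩

/-- the action on the section -/
noncomputable def smA (g : ↥(UG hD K L4)) (v : Fin 4 → K) : Fin 4 → K := (exists_conjA hD h2 g v).choose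

theorem smA_spec (g : ↥(UG hD K L4)) (v : Fin 4 → K) :
    ∃ s, (g : ↥(chevF4.group K)) * PA hD h2 v 0 * (g : ↥(chevF4.group K))⁻¹ = PA hD h2 (smA hD h2 g v) s :=
  (exists_conjA hD h2 g v).choose_spec

theorem smA_eq {g : ↥(UG hD K L4)} {v w : Fin 4 → K} {s : K}
    (h : (g : ↥(chevF4.group K)) * PA hD h2 v 0 * (g : ↥(chevF4.group K))⁻¹ = PA hD h2 w s) : smA hD h2 g v = w := by
  obtain ⟨s', h'⟩ := smA_spec hD h2 g v
  exact PA_inj hD h2 (h'.symm.trans h)

include h2 in
theorem comm41 (g : ↥(UG hD K L4)) (s : K) : Commute (g : ↥(chevF4.group K)) (xS hD 41 s) :=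
  UG_comm hD g.2 fun _ hk t => hg41 hD h2 hk t s

/-- the action -/
@[instance_reducible]
noncomputable def actA : MulAction ↥(UG hD K L4) (Fin 4 → K) where
  smul g v := smA hD h2 g v
  one_smul v := by
    apply smA_eq hD h2 (s := 0)
    change 1 * PA hD h2 v 0 * 1⁻¹ = _
    group
  mul_smul g g' v := by
    obtain ⟨s1, e1⟩ := smA_spec hD h2 g' v
    obtain ⟨s2, e2⟩ := smA_spec hD h2 g (smA hD h2 g' v)
    apply smA_eq hD h2 (s := s2 + s1)
    change (g : ↥(chevF4.group K)) * (g' : ↥(chevF4.group K)) * PA hD h2 v 0 * ((g : ↥(chevF4.group K)) * g')⁻¹ = _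
    have h3 : ∀ (w : Fin 4 → K) (s : K), PA hD h2 w s = PA hD h2 w 0 * xS hD 41 s := by
      intro w s
      have h4 := PA_add hD h2 w 0 0 s
      rwa [add_zero, zero_add, PA_zero] at h4
    have h5 := (comm41 hD h2 g s1).eq
    calc (g : ↥(chevF4.group K)) * (g' : ↥(chevF4.group K)) * PA hD h2 v 0 * ((g : ↥(chevF4.group K)) * g')⁻¹ =
        (g : ↥(chevF4.group K)) * (g' * PA hD h2 v 0 * (g' : ↥(chevF4.group K))⁻¹) * (g : ↥(chevF4.group K))⁻¹ := by group
      _ = (g : ↥(chevF4.group K)) * PA hD h2 (smA hD h2 g' v) 0 * (xS hD 41 s1 * (g : ↥(chevF4.group K))⁻¹) := by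
          rw [e1, h3 _ s1]; group
      _ = (g * PA hD h2 (smA hD h2 g' v) 0 * (g : ↥(chevF4.group K))⁻¹) * xS hD 41 s1 := by
          have h6 : xS hD 41 s1 * (g : ↥(chevF4.group K))⁻¹ = (g : ↥(chevF4.group K))⁻¹ * xS hD 41 s1 := by
            rw [eq_inv_mul_iff_mul_eq, ← mul_assoc, h5, mul_inv_cancel_right]
          rw [h6]; group
      _ = PA hD h2 (smA hD h2 g (smA hD h2 g' v)) (s2 + s1) := by
          rw [e2, h3 _ s2, h3 _ (s2 + s1), mul_assoc, xS_mul]

include h2 in
/-- the order of the Levi subgroup is divisible by `q⁴ - 1` -/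
theorem card_levi : Fintype.card K ^ 4 - 1 ∣ Nat.card ↥(UG hD K L4) := by
  classical
  letI := actA hD h2 (K := K)
  have hsm : ∀ (g : ↥(UG hD K L4)) (v : Fin 4 → K), g • v = smA hD h2 g v := fun g v => rfl
  have e0 : (![1, 0, 0, 0] : Fin 4 → K) ≠ 0 := by
    intro h
    have h1 := congrFun h 0
    exact one_ne_zero h1
  have hcl : ∀ (k : ℕ) (hk : k ∈ L4) (t : K) (v w : Fin 4 → K),
      (∃ s', xS hD k t * PA hD h2 v 0 * (xS hD k t)⁻¹ = PA hD h2 w s') →
      w ∈ MulAction.orbit ↥(UG hD K L4) (![1, 0, 0, 0] : Fin 4 → K) →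
      v ∈ MulAction.orbit ↥(UG hD K L4) (![1, 0, 0, 0] : Fin 4 → K) := by
    rintro k hk t v w ⟨s, hs⟩ hw
    have h1 : (⟨xS hD k t, xS_mem_UG hD hk t⟩ : ↥(UG hD K L4)) • v = w := smA_eq hD h2 hs
    have h3 : v = (⟨xS hD k t, xS_mem_UG hD hk t⟩ : ↥(UG hD K L4))⁻¹ • w := by rw [← h1, inv_smul_smul]
    rw [h3]
    obtain ⟨a, ha⟩ := hw
    exact ⟨(⟨xS hD k t, xS_mem_UG hD hk t⟩ : ↥(UG hD K L4))⁻¹ * a, by rw [← ha]; exact mul_smul _ _ _⟩
  have horb : MulAction.orbit ↥(UG hD K L4) (![1, 0, 0, 0] : Fin 4 → K) = {v | v ≠ 0} := by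
    ext v
    constructor
    · rintro ⟨g, rfl⟩ h0
      change g • (![1, 0, 0, 0] : Fin 4 → K) = 0 at h0
      rw [hsm] at h0
      obtain ⟨s, hs⟩ := smA_spec hD h2 g ![1, 0, 0, 0]
      rw [h0, PA_zero, mul_inv_eq_iff_eq_mul, ← (comm41 hD h2 g s).eq] at hs
      exact e0 (PA_ker hD h2 (mul_left_cancel hs))
    · intro hv
      exact reach (P := fun v => v ∈ MulAction.orbit ↥(UG hD K L4) (![1, 0, 0, 0] : Fin 4 → K))
        (MulAction.mem_orbit_self _) (fun t w h => hcl 27 (by decide) t w _ (mv_27 hD h2 t w 0) h)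
        (fun t w h => hcl 20 (by decide) t w _ (mv_20 hD h2 t w 0) h)
        (fun t w h => hcl 25 (by decide) t w _ (mv_25 hD h2 t w 0) h)
        (fun t w h => hcl 22 (by decide) t w _ (mv_22 hD h2 t w 0) h) v hv
  have h1 : Nat.card ↥(MulAction.orbit ↥(UG hD K L4) (![1, 0, 0, 0] : Fin 4 → K)) = Fintype.card K ^ 4 - 1 := by
    rw [horb]
    have h3 : Nat.card {v : Fin 4 → K | v ≠ 0} = Fintype.card {v : Fin 4 → K // v ≠ 0} := Nat.card_eq_fintype_card
    rw [h3, Fintype.card_subtype_compl, Fintype.card_fun, Fintype.card_fin, Fintype.card_subtype_eq]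
  rw [← h1, Nat.card_congr (MulAction.orbitEquivQuotientStabilizer _ _)]
  exact Subgroup.card_quotient_dvd_card _

end Mv

end Cfsg.Agent.H441.FPR
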