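import Cfsg.Agent.H441.FPR.FFour

/-!
# `F₄(q)`, `q` even, `p` dividing `q² + 1` : two radicals
-/

set_option autoImplicit false
set_option maxRecDepth 100000

namespace Cfsg.Agent.H441.FPR

open Cfsg.Lie Cfsg.Agent.ChevalleyStructure Cfsg.Agent.ChevalleyStructure.Elts Cfsg.Agent.H79.SimpleGen Matrix
open Cfsg.Agent.H398.FPR Cfsg.Agent.TitsThree.KExcRT Cfsg.Agent.ChevalleyStructure.RootVec Cfsg.Agent.Nodes.RGDChev
open Cfsg.Agent.KFacts.RgdChevCoord

universe u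

variable {K : Type u} [Field K] {D : ChevalleyDatum}

/-- one term -/
theorem single_mem (hD : InList D) {M : Subgroup ↥(D.group K)} {r s k : ℕ} {N : ℤ} (hr : r < D.nroots)
    (hs : s < D.nroots) (hrs : s ≠ r) (hneg : s ≠ D.neg r) (h : D.commTerms r s = [(k, N, 1, 1)]) (hN : N * N = 1)
    (hc : ∀ t u : K, xS hD s u * xS hD r t * (xS hD s u)⁻¹ * (xS hD r t)⁻¹ ∈ M) (t : K) : xS hD k t ∈ M := by
  have hw := wd_of_comm hD hr hs hrs hneg hc (-((N : K) * t)) 1
  have hNK : (N : K) * (N : K) = 1 := by rw [← Int.cast_mul, hN, Int.cast_one]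
  have h1 : wd hD ([] : List (ℕ × ℤ × ℕ × ℕ)) (-((N : K) * t)) 1 = (1 : ↥(D.group K)) := rfl
  rw [h, wd_cons, h1, mul_one] at hw
  have h2 : (N : K) * (-(-((N : K) * t))) ^ 1 * 1 ^ 1 = t := by
    rw [_root_.neg_neg, pow_one, one_pow, mul_one, ← mul_assoc, hNK, one_mul]
  change xS hD k ((N : K) * (-(-((N : K) * t))) ^ 1 * 1 ^ 1) ∈ M at hw
  rwa [h2] at hw

/-- commutators of two live sections -/
theorem lift_pair (hD : InList D) (h2 : (2 : K) = 0) {M : Subgroup ↥(D.group K)} {x : ↥(D.group K)}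
    {Γ1 Γ2 : List ℕ} {z1 z2 : ℕ}
    (al1 : Alive hD x Γ1 z1) (al2 : Alive hD x Γ2 z2)
    (hM1 : ⁅UG hD K Γ1, Subgroup.zpowers x⁆ ≤ M) (hM2 : ⁅UG hD K Γ2, Subgroup.zpowers x⁆ ≤ M)
    (hn1 : ⁅UG hD K Γ1, Subgroup.zpowers x⁆ ≤ UG hD K Γ1)
    (c1 : ∀ k ∈ Γ2, EvC D z1 k) (c2 : ∀ k ∈ Γ1, EvC D z2 k) {a c : ℕ} (ha : a ∈ Γ1) (hc : c ∈ Γ2) (t u : K) :
    xS hD a t * xS hD c u * (xS hD a t)⁻¹ * (xS hD c u)⁻¹ ∈ M := by
  obtain ⟨m1, hm1, s1, e1⟩ := al1 _ (xS_mem_UG hD ha t)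
  obtain ⟨m2, hm2, s2, e2⟩ := al2 _ (xS_mem_UG hD hc u)
  have k1 : ∀ y ∈ UG hD K Γ2, Commute y (xS hD z1 s1) := fun y hy =>
    UG_comm hD hy fun k hk t => ((c1 k hk).comm hD h2 s1 t).symm
  have k2 : ∀ y ∈ UG hD K Γ1, Commute y (xS hD z2 s2) := fun y hy =>
    UG_comm hD hy fun k hk t => ((c2 k hk).comm hD h2 s2 t).symm
  have j1 := (k1 _ (xS_mem_UG hD hc u)).eq
  have j2 := (k2 _ (hn1 hm1)).eq
  have e3 : xS hD a t * xS hD c u * (xS hD a t)⁻¹ * (xS hD c u)⁻¹ = m1 * m2 * m1⁻¹ * m2⁻¹ := by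
    calc xS hD a t * xS hD c u * (xS hD a t)⁻¹ * (xS hD c u)⁻¹ =
        m1 * (xS hD z1 s1 * xS hD c u) * (xS hD z1 s1)⁻¹ * m1⁻¹ * (xS hD c u)⁻¹ := by rw [e1]; group
      _ = m1 * xS hD c u * m1⁻¹ * (xS hD c u)⁻¹ := by rw [← j1]; group
      _ = m1 * m2 * (xS hD z2 s2 * m1⁻¹) * (xS hD z2 s2)⁻¹ * m2⁻¹ := by rw [e2]; group
      _ = _ := by
          have j3 : xS hD z2 s2 * m1⁻¹ = m1⁻¹ * xS hD z2 s2 := by
            rw [eq_inv_mul_iff_mul_eq, ← mul_assoc, j2, mul_inv_cancel_right]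
          rw [j3]; group
  rw [e3]
  exact mul_mem (mul_mem (mul_mem (hM1 hm1) (hM2 hm2)) (inv_mem (hM1 hm1))) (inv_mem (hM2 hm2))

/-- a live section whose centre is known -/
theorem alive_mem (hD : InList D) {M : Subgroup ↥(D.group K)} {x : ↥(D.group K)} {Γ : List ℕ} {z : ℕ}
    (al : Alive hD x Γ z) (hM : ⁅UG hD K Γ, Subgroup.zpowers x⁆ ≤ M) (hz : ∀ t : K, xS hD z t ∈ M) {k : ℕ}
    (hk : k ∈ Γ) (t : K) : xS hD k t ∈ M := by
  obtain ⟨m, hm, s, e⟩ := al _ (xS_mem_UG hD hk t)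
  rw [e]
  exact mul_mem (hM hm) (hz s)

/-- a dead section and a live section with a nontrivial pairing -/
theorem pair_false (hD : InList D) (h2 : (2 : K) = 0) [Finite K] {a ζ z c : ℕ} {Γ : List ℕ} {N : ℤ} (hP : PairOK D a Γ ζ)
    (hz : EvC D a z) {x : ↥(D.group K)} (hζ : ∀ s : K, Commute x (xS hD ζ s)) (hdead : ∀ t : K, Commute x (xS hD a t))
    (hnorm : ∀ y ∈ UG hD K Γ, x * y * x⁻¹ ∈ UG hD K Γ) (halive : Alive hD x Γ z) (hc : c ∈ Γ)
    (h : D.commTerms a c = [(ζ, N, 1, 1)]) (hN : N * N = 1) : False := by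
  have hcomm := fun t u => (pair_dead hD h2 hP hz hζ hdead hnorm halive hc t u).eq
  obtain ⟨⟨h3, h4, h5, -⟩, -⟩ := hP.2.2 c hc
  have h6 := single_mem hD (K := K) (M := ⊥) hP.1 h3 h4 h5 h hN (fun t u => by
    rw [Subgroup.mem_bot, ← hcomm t u]
    group) (1 : K)
  rw [Subgroup.mem_bot] at h6
  exact one_ne_zero (xS_eq_one hD hP.2.1 h6)

/-! ### The radicals -/

/-- the roots of the unipotent radical -/
def G4 : List ℕ := [24, 26, 29, 31, 32, 33, 34, 35, 36, 37, 38, 39, 40, 41, 42, 43, 44, 45, 46, 47]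

theorem g4_pos : ∀ k ∈ G4, chevF4.IsPosRoot k ∧ chevF4.IsNegRoot (chevF4.neg k) := by decide +kernel
theorem g4_inv : ∀ k ∈ L4, Inv chevF4 G4 k := by decide +kernel
theorem g4_inv' : ∀ k ∈ L4, Inv chevF4 (G4.map chevF4.neg) k := by decide +kernel

theorem sec_sub {g : Fin 4 → ℕ} {z : ℕ} {Γ : List ℕ} (h : ∀ k ∈ List.ofFn g ++ [z], k ∈ Γ) (hD : InList D) :
    UG hD K (List.ofFn g ++ [z]) ≤ UG hD K Γ := UG_le hD fun k hk t => xS_mem_UG hD (h k hk) t

theorem sub_A : ∀ k ∈ List.ofFn sA ++ [41], k ∈ G4 := by decide +kernel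
theorem sub_C : ∀ k ∈ List.ofFn sC ++ [47], k ∈ G4 := by decide +kernel
theorem sub_B : ∀ k ∈ List.ofFn sB ++ [29], k ∈ G4 := by decide +kernel
theorem sub_D : ∀ k ∈ List.ofFn sD ++ [44], k ∈ G4 := by decide +kernel
theorem sub_A' : ∀ k ∈ List.ofFn sA' ++ [6], k ∈ G4.map chevF4.neg := by decide +kernel
theorem sub_C' : ∀ k ∈ List.ofFn sC' ++ [0], k ∈ G4.map chevF4.neg := by decide +kernel
theorem sub_B' : ∀ k ∈ List.ofFn sB' ++ [18], k ∈ G4.map chevF4.neg := by decide +kernel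
theorem sub_D' : ∀ k ∈ List.ofFn sD' ++ [3], k ∈ G4.map chevF4.neg := by decide +kernel

theorem p1 : PairOK chevF4 37 (List.ofFn sC ++ [47]) 44 ∧ EvC chevF4 37 47 := by decide +kernel
theorem p2 : PairOK chevF4 36 (List.ofFn sA' ++ [6]) 29 ∧ EvC chevF4 36 6 := by decide +kernel
theorem p3 : PairOK chevF4 10 (List.ofFn sC' ++ [0]) 3 ∧ EvC chevF4 10 0 := by decide +kernel
theorem p4 : PairOK chevF4 11 (List.ofFn sA ++ [41]) 18 ∧ EvC chevF4 11 41 := by decide +kernel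
theorem p5 : PairOK chevF4 24 (List.ofFn sD ++ [44]) 47 ∧ EvC chevF4 24 44 := by decide +kernel
theorem p6 : PairOK chevF4 42 (List.ofFn sB' ++ [18]) 41 ∧ EvC chevF4 42 18 := by decide +kernel
theorem p7 : PairOK chevF4 23 (List.ofFn sD' ++ [3]) 0 ∧ EvC chevF4 23 3 := by decide +kernel
theorem p8 : PairOK chevF4 5 (List.ofFn sB ++ [29]) 6 ∧ EvC chevF4 5 29 := by decide +kernel

theorem ct : chevF4.commTerms 37 36 = [(44, -1, 1, 1)] ∧ chevF4.commTerms 36 14 = [(29, 1, 1, 1)] ∧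
    chevF4.commTerms 10 11 = [(3, 1, 1, 1)] ∧ chevF4.commTerms 11 33 = [(18, -1, 1, 1)] ∧
    chevF4.commTerms 24 46 = [(47, 1, 1, 1)] ∧ chevF4.commTerms 42 23 = [(41, -1, 1, 1)] ∧
    chevF4.commTerms 23 1 = [(0, -1, 1, 1)] ∧ chevF4.commTerms 5 24 = [(6, 1, 1, 1)] := by
  refine ⟨?_, ?_, ?_, ?_, ?_, ?_, ?_, ?_⟩ <;> decide +kernel

def lS : List ℕ := (List.ofFn sA ++ [41]) ++ (List.ofFn sC ++ [47]) ++ (List.ofFn sA' ++ [6]) ++ (List.ofFn sC' ++ [0])
def lL : List ℕ := (List.ofFn sB ++ [29]) ++ (List.ofFn sD ++ [44]) ++ (List.ofFn sB' ++ [18]) ++ (List.ofFn sD' ++ [3])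

theorem gS : ∀ k ∈ L4, k ∈ gal chevF4 [] [] lS [(34, 14), (13, 33), (6, 34), (6, 35)] := by decide +kernel
theorem gL : ∀ k ∈ L4, k ∈ gal chevF4 [] [] lL [(26, 23), (21, 24), (29, 21), (18, 26)] := by decide +kernel
theorem gM : ∀ k ∈ [27, 20, 29, 18, 44, 3], k ∈ gal chevF4 [] [] lS [(34, 14), (13, 33), (36, 14), (11, 33), (36, 37), (11, 10)] := by
  decide +kernel
def lF : List ℕ := [27, 20, 29, 18, 44, 3] ++ (List.ofFn sB ++ [29]) ++ (List.ofFn sB' ++ [18]) ++ lS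
theorem gF : AllS chevF4 (gal chevF4 [] [] lF [(26, 23), (21, 24)]) := by decide +kernel

theorem ev4 : ∀ ζ ∈ [44, 29, 3, 18, 47, 41, 0, 6], ∀ k ∈ L4, EvC chevF4 k ζ := by decide +kernel

/-- if the roots of `L4` commute with `x` then `x` is central -/
theorem not_all_dead (hD : InList chevF4) {x : ↥(UG hD K L4)} (hx : x ∉ Subgroup.center ↥(UG hD K L4)) {S : List ℕ}
    {st : List (ℕ × ℕ)} (hg : ∀ k ∈ L4, k ∈ gal chevF4 [] [] S st)
    (h : ∀ k ∈ S, ∀ t : K, Commute (x : ↥(chevF4.group K)) (xS hD k t)) : False := by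
  have h1 := gal_sound hD (M := Subgroup.centralizer {(x : ↥(chevF4.group K))}) (L := []) (Γ := [])
    (fun r hr => absurd hr List.not_mem_nil) st (S := S)
    (fun k hk t => Subgroup.mem_centralizer_singleton_iff.2 (h k hk t).eq.symm)
  have h2 : UG hD K L4 ≤ Subgroup.centralizer {(x : ↥(chevF4.group K))} := UG_le hD fun k hk t => h1 k (hg k hk) t
  apply hx
  rw [Subgroup.mem_center_iff]
  intro g
  apply Subtype.ext
  exact Subgroup.mem_centralizer_singleton_iff.1 (h2 g.2)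


/-- **`F₄(q)`, `q` even, `p` dividing `q² + 1`.** -/
theorem f4_four [Fintype K] {r0 : ℕ} [Fact r0.Prime] [CharP K r0] (h2 : (2 : K) = 0) {p : ℕ} (hp : p.Prime)
    (hpK : (p : K) ≠ 0) (ho : orderOf (Fintype.card K : ZMod p) = 4) : TR r0 p ↥(chevF4.group K) := by
  have hT := Cfsg.Agent.Nodes.KindF.isType
  have hD := hT.inList
  have hfin : Finite ↥(chevF4.group K) := inferInstance
  have : Fact p.Prime := ⟨hp⟩
  have hr0 : r0.Prime := Fact.out
  have hpq : ¬ p ∣ Fintype.card K := fun h => hpK (cast_eq_zero_of_dvd hp h)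
  have hp2 : p ≠ 2 := ne_two_of_ord hp hpK (by rw [ho]; norm_num)
  -- the element
  have hdvd : p ∣ Nat.card ↥(UG hD K L4) := by
    refine Dvd.dvd.trans ?_ (card_levi hD h2)
    have h1 : (Fintype.card K : ZMod p) ^ 4 = 1 := by rw [← ho]; exact pow_orderOf_eq_one _
    rw [← ZMod.natCast_eq_zero_iff, Nat.cast_sub (Nat.one_le_pow _ _ Fintype.card_pos), Nat.cast_one, sub_eq_zero,
      Nat.cast_pow]
    exact h1
  obtain ⟨x, ⟨k, hxk⟩, hxc⟩ := exists_noncentral hdvd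
    (S := ((↑) : ↥(UG hD K L4) → ↥(chevF4.group K)) ⁻¹' {g | ∃ k ∈ L4, ∃ t : K, g = xS hD k t})
    (Subgroup.closure_closure_coe_preimage) (by
      rintro ⟨s, hs⟩ ⟨k, hk, t, hst⟩
      refine ⟨2, ?_, (Nat.coprime_primes hp Nat.prime_two).2 hp2⟩
      apply Subtype.ext
      change s ^ 2 = 1
      change s = xS hD k t at hst
      rw [hst, pow_two, xS_mul, ← two_mul, h2, zero_mul, xS_zero])
  obtain ⟨X, hX⟩ : ∃ X : ↥(chevF4.group K), X = (x : ↥(chevF4.group K)) := ⟨_, rfl⟩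
  have hXL : X ∈ UG hD K L4 := by rw [hX]; exact x.2
  have hXk : X ^ p ^ k = 1 := by rw [hX]; exact congrArg Subtype.val hxk
  have hζ : ∀ ζ ∈ [44, 29, 3, 18, 47, 41, 0, 6], ∀ s : K, Commute X (xS hD ζ s) := fun ζ hz s =>
    UG_comm hD hXL fun k hk t => (ev4 ζ hz k hk).comm hD h2 t s
  have hn : ¬ 4 < orderOf (Fintype.card K : ZMod p) → 4 = orderOf (Fintype.card K : ZMod p) := fun _ => ho.symm
  -- the sections
  have dA := tA.dichotomy hT h2 hp hpq hn hXk hXL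
  have dC := tC.dichotomy hT h2 hp hpq hn hXk hXL
  have dA' := tA'.dichotomy hT h2 hp hpq hn hXk hXL
  have dC' := tC'.dichotomy hT h2 hp hpq hn hXk hXL
  have dB := tB.dichotomy hT h2 hp hpq hn hXk hXL
  have dD := tD.dichotomy hT h2 hp hpq hn hXk hXL
  have dB' := tB'.dichotomy hT h2 hp hpq hn hXk hXL
  have dD' := tD'.dichotomy hT h2 hp hpq hn hXk hXL
  obtain ⟨c1, c2, c3, c4, c5, c6, c7, c8⟩ := ct
  have q1 : Dead hD X (List.ofFn sA ++ [41]) → Dead hD X (List.ofFn sC ++ [47]) := fun h =>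
    dC.resolve_right fun al => pair_false hD h2 p1.1 p1.2 (hζ 44 (by decide)) (h 37 (by decide))
      (UG_conj hD hXL tC.inv) al (c := 36) (by decide) c1 (by norm_num)
  have q2 : Dead hD X (List.ofFn sC ++ [47]) → Dead hD X (List.ofFn sA' ++ [6]) := fun h =>
    dA'.resolve_right fun al => pair_false hD h2 p2.1 p2.2 (hζ 29 (by decide)) (h 36 (by decide))
      (UG_conj hD hXL tA'.inv) al (c := 14) (by decide) c2 (by norm_num)
  have q3 : Dead hD X (List.ofFn sA' ++ [6]) → Dead hD X (List.ofFn sC' ++ [0]) := fun h =>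
    dC'.resolve_right fun al => pair_false hD h2 p3.1 p3.2 (hζ 3 (by decide)) (h 10 (by decide))
      (UG_conj hD hXL tC'.inv) al (c := 11) (by decide) c3 (by norm_num)
  have q4 : Dead hD X (List.ofFn sC' ++ [0]) → Dead hD X (List.ofFn sA ++ [41]) := fun h =>
    dA.resolve_right fun al => pair_false hD h2 p4.1 p4.2 (hζ 18 (by decide)) (h 11 (by decide))
      (UG_conj hD hXL tA.inv) al (c := 33) (by decide) c4 (by norm_num)
  have q5 : Dead hD X (List.ofFn sB ++ [29]) → Dead hD X (List.ofFn sD ++ [44]) := fun h =>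
    dD.resolve_right fun al => pair_false hD h2 p5.1 p5.2 (hζ 47 (by decide)) (h 24 (by decide))
      (UG_conj hD hXL tD.inv) al (c := 46) (by decide) c5 (by norm_num)
  have q6 : Dead hD X (List.ofFn sD ++ [44]) → Dead hD X (List.ofFn sB' ++ [18]) := fun h =>
    dB'.resolve_right fun al => pair_false hD h2 p6.1 p6.2 (hζ 41 (by decide)) (h 42 (by decide))
      (UG_conj hD hXL tB'.inv) al (c := 23) (by decide) c6 (by norm_num)
  have q7 : Dead hD X (List.ofFn sB' ++ [18]) → Dead hD X (List.ofFn sD' ++ [3]) := fun h =>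
    dD'.resolve_right fun al => pair_false hD h2 p7.1 p7.2 (hζ 0 (by decide)) (h 23 (by decide))
      (UG_conj hD hXL tD'.inv) al (c := 1) (by decide) c7 (by norm_num)
  have q8 : Dead hD X (List.ofFn sD' ++ [3]) → Dead hD X (List.ofFn sB ++ [29]) := fun h =>
    dB.resolve_right fun al => pair_false hD h2 p8.1 p8.2 (hζ 6 (by decide)) (h 5 (by decide))
      (UG_conj hD hXL tB.inv) al (c := 24) (by decide) c8 (by norm_num)
  have nA : ¬ Dead hD X (List.ofFn sA ++ [41]) := by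
    intro h
    rw [hX] at h q1 q2 q3
    refine not_all_dead hD hxc gS fun k hk t => ?_
    unfold lS at hk
    rw [List.mem_append, List.mem_append, List.mem_append] at hk
    rcases hk with ((hk | hk) | hk) | hk
    · exact h k hk t
    · exact q1 h k hk t
    · exact q2 (q1 h) k hk t
    · exact q3 (q2 (q1 h)) k hk t
  have nB : ¬ Dead hD X (List.ofFn sB ++ [29]) := by
    intro h
    rw [hX] at h q5 q6 q7
    refine not_all_dead hD hxc gL fun k hk t => ?_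
    unfold lL at hk
    rw [List.mem_append, List.mem_append, List.mem_append] at hk
    rcases hk with ((hk | hk) | hk) | hk
    · exact h k hk t
    · exact q5 h k hk t
    · exact q6 (q5 h) k hk t
    · exact q7 (q6 (q5 h)) k hk t
  have aA := dA.resolve_left nA
  have aC' := dC'.resolve_left fun h => nA (q4 h)
  have aA' := dA'.resolve_left fun h => nA (q4 (q3 h))
  have aC := dC.resolve_left fun h => nA (q4 (q3 (q2 h)))
  have aB := dB.resolve_left nB
  have aD' := dD'.resolve_left fun h => nB (q8 h)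
  have aB' := dB'.resolve_left fun h => nB (q8 (q7 h))
  have aD := dD.resolve_left fun h => nB (q8 (q7 (q6 h)))
  -- the radicals
  obtain ⟨U1, hU1⟩ : ∃ U1, U1 = UG hD K G4 := ⟨_, rfl⟩
  obtain ⟨U2, hU2⟩ : ∃ U2, U2 = UG hD K (G4.map chevF4.neg) := ⟨_, rfl⟩
  have hc1 : ∀ y ∈ U1, X * y * X⁻¹ ∈ U1 := by
    rw [hU1]
    exact UG_conj hD hXL g4_inv
  have hc2 : ∀ y ∈ U2, X * y * X⁻¹ ∈ U2 := by
    rw [hU2]
    exact UG_conj hD hXL g4_inv'
  have hp1 : IsPGroup r0 U1 := by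
    rw [hU1]
    exact UG_pos hD r0 fun k hk => (g4_pos k hk).1
  have hp2' : IsPGroup r0 U2 := by
    rw [hU2]
    refine UG_neg hD r0 fun k hk => ?_
    obtain ⟨k', hk', rfl⟩ := List.mem_map.1 hk
    exact (g4_pos k' hk').2
  obtain ⟨P1, Q1⟩ := pair_comm hp hr0 (ne_char hpK) hXk hp1 hc1
  obtain ⟨P2, Q2⟩ := pair_comm hp hr0 (ne_char hpK) hXk hp2' hc2
  refine ⟨0, k, X, _, _, hXk, fun h => absurd h hp2, P1, P2, Q1, Q2, ?_⟩
  obtain ⟨M, hM⟩ : ∃ M, M = Subgroup.closure (({X} ∪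
    ((⁅U1, Subgroup.zpowers X⁆ : Subgroup ↥(chevF4.group K)) : Set ↥(chevF4.group K))) ∪
    ((⁅U2, Subgroup.zpowers X⁆ : Subgroup ↥(chevF4.group K)) : Set ↥(chevF4.group K))) := ⟨_, rfl⟩
  rw [← hM]
  have hM1 : ⁅U1, Subgroup.zpowers X⁆ ≤ M := by
    intro y hy
    rw [hM]
    exact Subgroup.subset_closure (Or.inl (Or.inr hy))
  have hM2 : ⁅U2, Subgroup.zpowers X⁆ ≤ M := by
    intro y hy
    rw [hM]
    exact Subgroup.subset_closure (Or.inr hy)
  have hsub : ∀ {Γ : List ℕ}, (UG hD K Γ ≤ U1 ∨ UG hD K Γ ≤ U2) → ⁅UG hD K Γ, Subgroup.zpowers X⁆ ≤ M := by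
    rintro Γ (h | h)
    · exact (Subgroup.commutator_mono h le_rfl).trans hM1
    · exact (Subgroup.commutator_mono h le_rfl).trans hM2
  have mA := hsub (Γ := List.ofFn sA ++ [41]) (Or.inl (by rw [hU1]; exact sec_sub sub_A hD))
  have mB := hsub (Γ := List.ofFn sB ++ [29]) (Or.inl (by rw [hU1]; exact sec_sub sub_B hD))
  have mC := hsub (Γ := List.ofFn sC ++ [47]) (Or.inl (by rw [hU1]; exact sec_sub sub_C hD))
  have mD := hsub (Γ := List.ofFn sD ++ [44]) (Or.inl (by rw [hU1]; exact sec_sub sub_D hD))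
  have mA' := hsub (Γ := List.ofFn sA' ++ [6]) (Or.inr (by rw [hU2]; exact sec_sub sub_A' hD))
  have mB' := hsub (Γ := List.ofFn sB' ++ [18]) (Or.inr (by rw [hU2]; exact sec_sub sub_B' hD))
  have mC' := hsub (Γ := List.ofFn sC' ++ [0]) (Or.inr (by rw [hU2]; exact sec_sub sub_C' hD))
  have mD' := hsub (Γ := List.ofFn sD' ++ [3]) (Or.inr (by rw [hU2]; exact sec_sub sub_D' hD))
  have hself : ∀ {Γ : List ℕ}, (∀ k ∈ L4, Inv chevF4 Γ k) → ⁅UG hD K Γ, Subgroup.zpowers X⁆ ≤ UG hD K Γ := by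
    intro Γ hΓ
    refine comm_le_of (UG_conj hD hXL hΓ) fun y hy => mul_mem (UG_conj hD hXL hΓ y hy) (inv_mem hy)
  -- the four long root subgroups
  have m47 : ∀ t : K, xS hD 47 t ∈ M := single_mem hD (by decide +kernel) (by decide +kernel) (by decide)
    (by decide +kernel) c5 (by norm_num) fun t u => lift_pair hD h2 aD aB mD mB (hself tD.inv) (by decide +kernel)
      (by decide +kernel) (by decide) (by decide) u t
  have m41 : ∀ t : K, xS hD 41 t ∈ M := single_mem hD (by decide +kernel) (by decide +kernel) (by decide)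
    (by decide +kernel) c6 (by norm_num) fun t u => lift_pair hD h2 aB' aD mB' mD (hself tB'.inv) (by decide +kernel)
      (by decide +kernel) (by decide) (by decide) u t
  have m0 : ∀ t : K, xS hD 0 t ∈ M := single_mem hD (by decide +kernel) (by decide +kernel) (by decide)
    (by decide +kernel) c7 (by norm_num) fun t u => lift_pair hD h2 aD' aB' mD' mB' (hself tD'.inv) (by decide +kernel)
      (by decide +kernel) (by decide) (by decide) u t
  have m6 : ∀ t : K, xS hD 6 t ∈ M := single_mem hD (by decide +kernel) (by decide +kernel) (by decide)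
    (by decide +kernel) c8 (by norm_num) fun t u => lift_pair hD h2 aB aD' mB mD' (hself tB.inv) (by decide +kernel)
      (by decide +kernel) (by decide) (by decide) u t
  have hS : ∀ k ∈ lS, ∀ t : K, xS hD k t ∈ M := by
    intro k hk t
    unfold lS at hk
    rw [List.mem_append, List.mem_append, List.mem_append] at hk
    rcases hk with ((hk | hk) | hk) | hk
    · exact alive_mem hD aA mA m41 hk t
    · exact alive_mem hD aC mC m47 hk t
    · exact alive_mem hD aA' mA' m6 hk t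
    · exact alive_mem hD aC' mC' m0 hk t
  have hg := gal_sound hD (M := M) (L := []) (Γ := []) (fun r hr => absurd hr List.not_mem_nil)
    [(34, 14), (13, 33), (36, 14), (11, 33), (36, 37), (11, 10)] hS
  have hF : ∀ k ∈ lF, ∀ t : K, xS hD k t ∈ M := by
    intro k hk t
    unfold lF at hk
    rw [List.mem_append, List.mem_append, List.mem_append] at hk
    rcases hk with ((hk | hk) | hk) | hk
    · exact hg k (gM k hk) t
    · exact alive_mem hD aB mB (hg 29 (gM 29 (by decide))) hk t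
    · exact alive_mem hD aB' mB' (hg 18 (gM 18 (by decide))) hk t
    · exact hS k hk t
  have hfinal := gal_sound hD (M := M) (L := []) (Γ := []) (fun r hr => absurd hr List.not_mem_nil)
    [(26, 23), (21, 24)] hF
  exact eq_top_of_simple hD M (fun i hi => hfinal _ (gF i hi).1) (fun i hi => hfinal _ (gF i hi).2)

end Cfsg.Agent.H441.FPR
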