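import Cfsg.Agent.H441.FPR.ETabB

/-!
# Tables: long `SL_3` in `F₄`
-/

set_option autoImplicit false
set_option maxRecDepth 100000

namespace Cfsg.Agent.H441.FPR

open Cfsg.Lie Cfsg.Agent.ChevalleyStructure Cfsg.Agent.ChevalleyStructure.Elts Cfsg.Agent.H79.SimpleGen Matrix
open Cfsg.Agent.H398.FPR Cfsg.Agent.TitsThree.KExcRT

def R4 : List (List ℕ) := [[0, 25, 26], [22, 0, 24], [21, 23, 0]]
def r4 : Fin 3 → Fin 3 → ℕ := ![![0, 25, 26], ![22, 0, 24], ![21, 23, 0]]
def g4 : Fin 2 → Fin 3 → ℕ := ![![32, 31, 30], ![43, 42, 41]]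
def h4 : Fin 1 → Fin 3 → ℕ := ![![45, 46, 47]]
def u4 : Fin 2 → Fin 3 → ℤ := fun _ => ![1, -1, 1]
def Γ4 : List ℕ := List.range' 27 21
def st4a : List (ℕ × ℕ) := [(32, 16), (31, 15), (31, 17), (30, 16), (32, 17), (30, 15)]
def st4b : List (ℕ × ℕ) := [(31, 17), (16, 30), (30, 42), (17, 5), (46, 2), (1, 45), (25, 24), (22, 23)]
def st4c : List (ℕ × ℕ) := [(22, 28), (25, 19), (22, 35), (25, 12), (34, 20), (13, 27)]

theorem t4a : CB chevF4 r4 (-1) g4 u4 u4 h4 (fun _ _ => 1) (fun _ _ => 1) Γ4 (fun _ => true)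
    (mkL R4 3) (mkst R4 3) st4a st4c where
  rlt := by decide +kernel
  nat := by decide +kernel
  dual := by decide +kernel
  nat' := by decide +kernel
  dual' := by decide +kernel
  gmem := by decide +kernel
  hmem := by decide +kernel
  pos := by decide +kernel
  inv := by decide +kernel
  inv' := by decide +kernel
  lg := by decide +kernel
  chain := by decide +kernel
  gen := by decide +kernel

theorem t4b : CB chevF4 r4 (-1) g4 u4 u4 h4 (fun _ _ => 1) (fun _ _ => 1) Γ4 ![false, true, true]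
    (mkL R4 3) (mkst R4 3) st4b st4c where
  rlt := by decide +kernel
  nat := by decide +kernel
  dual := by decide +kernel
  nat' := by decide +kernel
  dual' := by decide +kernel
  gmem := by decide +kernel
  hmem := by decide +kernel
  pos := by decide +kernel
  inv := by decide +kernel
  inv' := by decide +kernel
  lg := by decide +kernel
  chain := by decide +kernel
  gen := by decide +kernel

theorem rt4 : RTa chevF4 r4 ∧ (RTb chevF4 r4 fun _ _ => -1) ∧ RTc chevF4 r4 ∧
    ∀ i j, i ≠ j → r4 j i = chevF4.neg (r4 i j) := by decide +kernel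

end Cfsg.Agent.H441.FPR
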