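import Cfsg.Agent.H441.FPR.Tor
import Cfsg.Agent.H259.NatMod

/-!
# `G₂(q)`, `p ∣ q + 1`
-/

set_option autoImplicit false
set_option maxRecDepth 100000

namespace Cfsg.Agent.H441.FPR

open Cfsg.Lie Cfsg.Agent.ChevalleyStructure Cfsg.Agent.ChevalleyStructure.Elts Cfsg.Agent.H79.SimpleGen Matrix
open Cfsg.Agent.H398.FPR Cfsg.Agent.TitsThree.KExcRT Cfsg.Agent.ChevalleyStructure.RootVec Cfsg.Agent.Nodes.RGDChev
open Cfsg.Agent.KFacts.RgdChevCoord
open Cfsg.Agent.FixBN.FieldRGD (uu vv dd ww)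

universe u

variable {K : Type u} [Field K] {D : ChevalleyDatum}

/-- a normal subgroup of `SL_2(q)`, `q > 3`, containing a noncentral element -/
theorem nc_top_two [Fintype K] (hq : 3 < Fintype.card K) {A : SpecialLinearGroup (Fin 2) K}
    (hA : A ∉ Subgroup.center (SpecialLinearGroup (Fin 2) K)) :
    ∀ N : Subgroup (SpecialLinearGroup (Fin 2) K), N.Normal → A ∈ N → N = ⊤ := by
  intro N hN hAN
  have hperf := Cfsg.Agent.H259.NatMod.commutator_eq_top (F := K) hq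
  rcases Cfsg.Agent.S2540.normal_dichotomy hperf
    (Cfsg.Agent.LieClassical.SLGen.psl_isSimpleGroup_of_perfect hperf) N with h | h
  · exact absurd (h hAN) hA
  · exact h

/-- the special step of `G₂` -/
theorem g2_step (hD : InList D) [Fintype K] (hq : 2 < Fintype.card K) {M : Subgroup ↥(D.group K)} {r s k1 k2 k3 k4 : ℕ}
    {N1 N2 N3 N4 : ℤ} (hr : r < D.nroots) (hs : s < D.nroots) (hrs : s ≠ r) (hneg : s ≠ D.neg r)
    (hl : D.commTerms r s = [(k1, N1, 1, 1), (k2, N2, 1, 2), (k3, N3, 1, 3), (k4, N4, 2, 3)])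
    (hN1 : N1 * N1 = 1) (hN2 : N2 * N2 = 1)
    (h3 : ∀ t : K, xS hD k3 t ∈ M) (h4 : ∀ t : K, xS hD k4 t ∈ M)
    (h : ∀ t u : K, xS hD s u * xS hD r t * (xS hD s u)⁻¹ * (xS hD r t)⁻¹ ∈ M) :
    (∀ t : K, xS hD k1 t ∈ M) ∧ ∀ t : K, xS hD k2 t ∈ M := by
  classical
  have hw := wd_of_comm hD hr hs hrs hneg h
  have hNK1 : (N1 : K) * (N1 : K) = 1 := by rw [← Int.cast_mul, hN1, Int.cast_one]
  have hNK2 : (N2 : K) * (N2 : K) = 1 := by rw [← Int.cast_mul, hN2, Int.cast_one]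
  have hw2 : ∀ t u : K, xS hD k1 ((N1 : K) * (-t) ^ 1 * u ^ 1) * xS hD k2 ((N2 : K) * (-t) ^ 1 * u ^ 2) ∈ M := by
    intro t u
    have h1 := hw t u
    rw [hl, wd_cons, wd_cons, ← mul_assoc] at h1
    refine (Subgroup.mul_mem_cancel_right M ?_).1 h1
    refine wd_mem hD ?_ t u
    intro c hc t
    rcases List.mem_cons.1 hc with rfl | hc
    · exact h3 t
    · rw [List.mem_singleton.1 hc]
      exact h4 t
  obtain ⟨b, hb⟩ : ∃ b : K, b ∉ ({0, 1} : Finset K) := by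
    by_contra hcon
    push Not at hcon
    have h5 : (Finset.univ : Finset K) ⊆ {0, 1} := fun x _ => hcon x
    have h6 := Finset.card_le_card h5
    rw [Finset.card_univ] at h6
    have h7 : ({0, 1} : Finset K).card ≤ 2 := Finset.card_le_two
    omega
  rw [Finset.mem_insert, Finset.mem_singleton, not_or] at hb
  have hk2 : ∀ t : K, xS hD k2 t ∈ M := by
    intro t
    have hb1 : b - 1 ≠ 0 := sub_ne_zero.2 hb.2
    have e1 := hw2 (-((N2 : K) * t / (b - 1))) 1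
    have e2 := hw2 (-((N2 : K) * t / (b - 1) / b)) b
    have e3 := mul_mem (inv_mem e1) e2
    rw [_root_.neg_neg, _root_.neg_neg] at e3
    have f1 : (N1 : K) * ((N2 : K) * t / (b - 1) / b) ^ 1 * b ^ 1 = (N1 : K) * ((N2 : K) * t / (b - 1)) ^ 1 * 1 ^ 1 := by
      have := hb.1
      field_simp
    rw [f1] at e3
    have f2 : (xS hD k1 ((N1 : K) * ((N2 : K) * t / (b - 1)) ^ 1 * 1 ^ 1) *
        xS hD k2 ((N2 : K) * ((N2 : K) * t / (b - 1)) ^ 1 * 1 ^ 2))⁻¹ *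
        (xS hD k1 ((N1 : K) * ((N2 : K) * t / (b - 1)) ^ 1 * 1 ^ 1) *
          xS hD k2 ((N2 : K) * ((N2 : K) * t / (b - 1) / b) ^ 1 * b ^ 2)) =
        (xS hD k2 ((N2 : K) * ((N2 : K) * t / (b - 1)) ^ 1 * 1 ^ 2))⁻¹ *
          xS hD k2 ((N2 : K) * ((N2 : K) * t / (b - 1) / b) ^ 1 * b ^ 2) := by group
    rw [f2, xS_inv, xS_mul] at e3
    have f3 : -((N2 : K) * ((N2 : K) * t / (b - 1)) ^ 1 * 1 ^ 2) + (N2 : K) * ((N2 : K) * t / (b - 1) / b) ^ 1 * b ^ 2 =
        t := by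
      have hb0 := hb.1
      have f4 : (N2 : K) * ((N2 : K) * t / (b - 1) / b) ^ 1 * b ^ 2 = (N2 : K) * ((N2 : K) * t / (b - 1)) * b := by
        field_simp
      rw [f4]
      have f5 : -((N2 : K) * ((N2 : K) * t / (b - 1)) ^ 1 * 1 ^ 2) + (N2 : K) * ((N2 : K) * t / (b - 1)) * b =
          ((N2 : K) * (N2 : K)) * (t / (b - 1) * (b - 1)) := by ring
      rw [f5, hNK2, one_mul, div_mul_cancel₀ t hb1]
    rwa [f3] at e3
  refine ⟨fun t => ?_, hk2⟩
  have e1 := hw2 (-((N1 : K) * t)) 1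
  have e2 := (Subgroup.mul_mem_cancel_right M (hk2 _)).1 e1
  rwa [_root_.neg_neg, pow_one, one_pow, mul_one, ← mul_assoc, hNK1, one_mul] at e2

/-- the roots of `SL_2` -/
def r2 : Fin 2 → Fin 2 → ℕ := ![![0, 6], ![5, 0]]

theorem nat2 : NatOK chevG2 r2 1 ![11, 10] ![1, 1] := by decide +kernel

theorem dual2 : NatOK chevG2 (fun a b => r2 b a) (-1) (fun a => chevG2.neg ((![11, 10] : Fin 2 → ℕ) a)) ![1, 1] := by
  decide +kernel

theorem g2_type : IsType chevG2 2 CoxeterMatrix.G₂ := by simp [IsType, typeList]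

theorem r2_lt : ∀ a b, a ≠ b → r2 a b < chevG2.nroots := by decide +kernel

theorem g2_hom : ∃ φ : SpecialLinearGroup (Fin 2) K →* ↥(chevG2.group K), ∀ a b (hab : a ≠ b) c,
    φ (SpecialLinearGroup.transvection hab c) = xS g2_type.inList (r2 a b) (((1 : ℤ) : K) * c) := by
  obtain ⟨φ, hu, hv, -⟩ := Cfsg.Agent.OddHalf.NI.ModelChev.exists_sl g2_type (K := K) (r := 6) (by decide +kernel)
  refine ⟨φ, fun a b hab c => ?_⟩
  rw [Int.cast_one, one_mul]
  fin_cases a <;> fin_cases b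
  · exact absurd rfl hab
  · have h1 : SpecialLinearGroup.transvection hab c = uu c := by
      apply Subtype.ext
      change Matrix.transvection _ _ c = !![1, c; 0, 1]
      ext i j
      fin_cases i <;> fin_cases j <;> simp [Matrix.transvection]
    rw [h1, hu]
    apply Subtype.ext
    rw [coe_xc g2_type (by decide +kernel)]
    rfl
  · have h1 : SpecialLinearGroup.transvection hab c = vv c := by
      apply Subtype.ext
      change Matrix.transvection _ _ c = !![1, 0; c, 1]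
      ext i j
      fin_cases i <;> fin_cases j <;> simp [Matrix.transvection]
    rw [h1, hv, ← vec_neg g2_type (by decide +kernel)]
    apply Subtype.ext
    rw [coe_xc g2_type (by decide +kernel)]
    rfl
  · exact absurd rfl hab

theorem g2_pos : ∀ k ∈ [7, 8, 9, 10, 11], chevG2.IsPosRoot k ∧ chevG2.IsNegRoot (chevG2.neg k) := by decide +kernel

theorem g2_inv : ∀ k ∈ [6, 5], Inv chevG2 [7, 8, 9, 10, 11] k ∧
    Inv chevG2 ([7, 8, 9, 10, 11].map chevG2.neg) k := by decide +kernel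

theorem r2_mem : ∀ a b, a ≠ b → r2 a b ∈ gal chevG2 [] [] [6, 5] [] := by decide +kernel

/-- `G₂(q)`, `q > 3`, `p` odd dividing `q + 1` -/
theorem g2_two [Fintype K] {r0 : ℕ} [Fact r0.Prime] [CharP K r0] (hq : 3 < Fintype.card K) {p : ℕ} (hp : p.Prime)
    (hpK : (p : K) ≠ 0) (h1 : orderOf (Fintype.card K : ZMod p) ≠ 1) (hn : orderOf (Fintype.card K : ZMod p) ∣ 2) :
    TR r0 p ↥(chevG2.group K) := by
  have hD := g2_type.inList
  have hfin : Finite ↥(chevG2.group K) := inferInstance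
  obtain ⟨φ, hφ⟩ := g2_hom (K := K)
  obtain ⟨A, hA1, hA2⟩ := exists_sl_free hp hpK h1 hn
  have hnc := nc_top_two hq (not_center_of_free hp (not_dvd_of_ord h1) hA1 hA2)
  have hx : φ A ^ p ^ 1 = 1 := by rw [← map_pow, hA1, map_one]
  have hr0 : r0.Prime := Fact.out
  let φ' : SpecialLinearGroup (Fin 2) K →* ↥(chevG2.group K) := φ.comp (itr 2 K)
  have hφ' : ∀ a b (hab : a ≠ b) c, φ' (SpecialLinearGroup.transvection hab c) =
      xS hD (r2 b a) (((-1 : ℤ) : K) * c) := by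
    intro a b hab c
    change φ (itr 2 K _) = _
    rw [itr_transvection, hφ, Int.cast_neg]
    congr 1
    ring
  have hxA : φ A = φ' (itr 2 K A) := by
    change _ = φ (itr 2 K (itr 2 K A))
    rw [itr_itr]
  have hr' : ∀ a b, a ≠ b → r2 b a < chevG2.nroots := fun a b hab => r2_lt b a hab.symm
  obtain ⟨U1, hU1⟩ : ∃ U1, U1 = UG hD K [7, 8, 9, 10, 11] := ⟨_, rfl⟩
  obtain ⟨U2, hU2⟩ : ∃ U2, U2 = UG hD K ([7, 8, 9, 10, 11].map chevG2.neg) := ⟨_, rfl⟩
  have hc1 : ∀ z, ∀ y ∈ U1, φ z * y * (φ z)⁻¹ ∈ U1 := by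
    intro z
    rw [hU1]
    exact conj_UG hD hφ (fun k hk => (g2_inv k hk).1) r2_mem z
  have hc2 : ∀ z, ∀ y ∈ U2, φ z * y * (φ z)⁻¹ ∈ U2 := by
    intro z
    rw [hU2]
    exact conj_UG hD hφ (fun k hk => (g2_inv k hk).2) r2_mem z
  have hp1 : IsPGroup r0 U1 := by
    rw [hU1]
    exact UG_pos hD r0 fun k hk => (g2_pos k hk).1
  have hp2' : IsPGroup r0 U2 := by
    rw [hU2]
    refine UG_neg hD r0 fun k hk => ?_
    obtain ⟨k', hk', rfl⟩ := List.mem_map.1 hk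
    exact (g2_pos k' hk').2
  obtain ⟨P1, Q1⟩ := pair_comm hp hr0 (ne_char hpK) hx hp1 (hc1 A)
  obtain ⟨P2, Q2⟩ := pair_comm hp hr0 (ne_char hpK) hx hp2' (hc2 A)
  refine ⟨0, 1, φ A, _, _, hx, fun h => absurd h (ne_two_of_ord hp hpK h1), P1, P2, Q1, Q2, ?_⟩
  obtain ⟨M, hM⟩ : ∃ M, M = Subgroup.closure (({φ A} ∪
    ((⁅U1, Subgroup.zpowers (φ A)⁆ : Subgroup ↥(chevG2.group K)) : Set ↥(chevG2.group K))) ∪
    ((⁅U2, Subgroup.zpowers (φ A)⁆ : Subgroup ↥(chevG2.group K)) : Set ↥(chevG2.group K))) := ⟨_, rfl⟩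
  rw [← hM]
  have hM1 : ∀ y ∈ U1, φ A * y * (φ A)⁻¹ * y⁻¹ ∈ M := by
    intro y hy
    rw [hM]
    exact Subgroup.subset_closure (Or.inl (Or.inr (mem_comm_zpowers hy)))
  have hM2 : ∀ y ∈ U2, φ A * y * (φ A)⁻¹ * y⁻¹ ∈ M := by
    intro y hy
    rw [hM]
    exact Subgroup.subset_closure (Or.inr (mem_comm_zpowers hy))
  have hg1 : ∀ a, ∀ t : K, xS hD ((![11, 10] : Fin 2 → ℕ) a) t ∈ U1 := by
    intro a t
    rw [hU1]
    refine xS_mem_UG hD ?_ t
    fin_cases a <;> decide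
  have hg2 : ∀ a, ∀ t : K, xS hD (chevG2.neg ((![11, 10] : Fin 2 → ℕ) a)) t ∈ U2 := by
    intro a t
    rw [hU2]
    refine xS_mem_UG hD (List.mem_map_of_mem ?_) t
    fin_cases a <;> decide
  have hS1 : ∀ a, ∀ t : K, xS hD ((![11, 10] : Fin 2 → ℕ) a) t ∈ M := by
    intro a t
    obtain ⟨y, hy, hyt⟩ := natpart hD nat2 r2_lt hφ (a := a) (fun t => exists_sub hA2 _) hg1 t
    rw [← hyt]
    exact hM1 y hy
  have hS2 : ∀ a, ∀ t : K, xS hD (chevG2.neg ((![11, 10] : Fin 2 → ℕ) a)) t ∈ M := by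
    intro a t
    obtain ⟨y, hy, hyt⟩ := natpart hD dual2 hr' hφ' (a := a) (fun t => exists_sub (itr_free hA2) _) hg2 t
    rw [← hyt, ← hxA]
    exact hM2 y hy
  have hneg : chevG2.neg 11 = 0 ∧ chevG2.neg 10 = 1 := by decide +kernel
  have hS : ∀ k ∈ [11, 10, 1, 0], ∀ t : K, xS hD k t ∈ M := by
    intro k hk t
    simp only [List.mem_cons, List.not_mem_nil, or_false] at hk
    rcases hk with rfl | rfl | rfl | rfl
    · exact hS1 0 t
    · exact hS1 1 t
    · have h3 := hS2 1 t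
      change xS hD (chevG2.neg 10) t ∈ M at h3
      rwa [hneg.2] at h3
    · have h3 := hS2 0 t
      change xS hD (chevG2.neg 11) t ∈ M at h3
      rwa [hneg.1] at h3
  have hS' := gal_sound hD (M := M) (L := []) (Γ := []) (fun r hr => absurd hr List.not_mem_nil) [(11, 1), (0, 10)] hS
  have hgal : ∀ k ∈ [6, 5, 11, 10, 1, 0], k ∈ gal chevG2 [] [] [11, 10, 1, 0] [(11, 1), (0, 10)] := by decide +kernel
  have hS'' : ∀ k ∈ [6, 5, 11, 10, 1, 0], ∀ t : K, xS hD k t ∈ M := fun k hk t => hS' k (hgal k hk) t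
  have hφM : ∀ z, φ z ∈ M := by
    intro z
    have h1 : (⊤ : Subgroup (SpecialLinearGroup (Fin 2) K)) ≤ M.comap φ := by
      rw [← Cfsg.Agent.LieClassical.SLGen.closure_transvections, Subgroup.closure_le]
      rintro _ ⟨a, b, hab, c, rfl⟩
      change φ _ ∈ M
      rw [hφ]
      refine hS'' _ ?_ _
      revert hab
      revert a b
      decide +kernel
    exact h1 (Subgroup.mem_top z)
  have hn1 := nc_mem hc1 hφM hM1 hnc
  have hn2 := nc_mem hc2 hφM hM2 hnc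
  have hone : ∀ a b, a ≠ b → ∀ t : K, ∃ z, xS hD (r2 a b) t = φ z := by
    intro a b hab t
    refine ⟨SpecialLinearGroup.transvection hab t, ?_⟩
    rw [hφ, Int.cast_one, one_mul]
  have hcm : ∀ {r s : ℕ} {t v : K}, (xS hD r t * xS hD s v * (xS hD r t)⁻¹ * (xS hD s v)⁻¹ ∈ M) →
      xS hD s v * xS hD r t * (xS hD s v)⁻¹ * (xS hD r t)⁻¹ ∈ M := by
    intro r s t v h
    have h2 : xS hD s v * xS hD r t * (xS hD s v)⁻¹ * (xS hD r t)⁻¹ =
        (xS hD r t * xS hD s v * (xS hD r t)⁻¹ * (xS hD s v)⁻¹)⁻¹ := by group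
    rw [h2]
    exact inv_mem h
  have h67 : ∀ t u : K, xS hD 7 u * xS hD 6 t * (xS hD 7 u)⁻¹ * (xS hD 6 t)⁻¹ ∈ M := by
    intro t u
    apply hcm
    obtain ⟨z, hz⟩ := hone 0 1 (by decide) t
    change xS hD 6 t = φ z at hz
    rw [hz]
    exact hn1 z _ (by rw [hU1]; exact xS_mem_UG hD (by decide) u)
  have h54 : ∀ t u : K, xS hD 4 u * xS hD 5 t * (xS hD 4 u)⁻¹ * (xS hD 5 t)⁻¹ ∈ M := by
    intro t u
    apply hcm
    obtain ⟨z, hz⟩ := hone 1 0 (by decide) t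
    change xS hD 5 t = φ z at hz
    rw [hz]
    exact hn2 z _ (by rw [hU2]; exact xS_mem_UG hD (by decide +kernel) u)
  have hq2 : 2 < Fintype.card K := by omega
  obtain ⟨m8, m9⟩ := g2_step hD hq2 (M := M) (r := 6) (s := 7) (k1 := 8) (k2 := 9) (k3 := 10) (k4 := 11)
    (N1 := 1) (N2 := 1) (N3 := -1) (N4 := -2) (by decide +kernel) (by decide +kernel) (by decide) (by decide +kernel)
    (by decide +kernel) (by decide) (by decide) (hS'' 10 (by decide)) (hS'' 11 (by decide)) h67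
  obtain ⟨m3, m2⟩ := g2_step hD hq2 (M := M) (r := 5) (s := 4) (k1 := 3) (k2 := 2) (k3 := 1) (k4 := 0)
    (N1 := -1) (N2 := 1) (N3 := 1) (N4 := -2) (by decide +kernel) (by decide +kernel) (by decide) (by decide +kernel)
    (by decide +kernel) (by decide) (by decide) (hS'' 1 (by decide)) (hS'' 0 (by decide)) h54
  have hT : ∀ k ∈ [6, 5, 11, 10, 9, 8, 3, 2, 1, 0], ∀ t : K, xS hD k t ∈ M := by
    intro k hk t
    simp only [List.mem_cons, List.not_mem_nil, or_false] at hk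
    rcases hk with rfl | rfl | rfl | rfl | rfl | rfl | rfl | rfl | rfl | rfl
    · exact hS'' 6 (by decide) t
    · exact hS'' 5 (by decide) t
    · exact hS'' 11 (by decide) t
    · exact hS'' 10 (by decide) t
    · exact m9 t
    · exact m8 t
    · exact m3 t
    · exact m2 t
    · exact hS'' 1 (by decide) t
    · exact hS'' 0 (by decide) t
  have hT' := gal_sound hD (M := M) (L := []) (Γ := []) (fun r hr => absurd hr List.not_mem_nil) [(5, 8), (6, 3)] hT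
  have hfin : AllS chevG2 (gal chevG2 [] [] [6, 5, 11, 10, 9, 8, 3, 2, 1, 0] [(5, 8), (6, 3)]) := by decide +kernel
  exact eq_top_of_simple hD M (fun i hi => hT' _ (hfin i hi).1) (fun i hi => hT' _ (hfin i hi).2)

end Cfsg.Agent.H441.FPR
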