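import Cfsg.Agent.H398.FPR.Frob
import Cfsg.Agent.H398.FPR.Count
import Cfsg.Agent.H409.FprBasic

/-!
# Growth through the image of a covering group
-/

set_option autoImplicit false

namespace Cfsg.Agent.H441.FPR.Grow

open Subgroup MulAction
open scoped commutatorElement
open Cfsg.Agent.H398.FPR (UGood Good growth_uGood)
open Cfsg.Agent.H409 (FprRow fix_le_of_map)

/-- a small centraliser -/
theorem uGood_direct {G : Type*} [Group G] [Finite G] {x : G} {b c i : ℕ}
    (hc : Nat.card (centralizer ({x} : Set G)) ≤ c) (hi : ∀ H : Subgroup G, H ≠ ⊤ → i ≤ H.index)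
    (h : b * c ≤ i) : UGood 1 b x := by
  intro H hH
  refine Cfsg.Agent.H398.FPR.ratio_of_bound H hc (i := Nat.card H) ?_ ?_
  · exact Nat.card_le_card_of_injective (fun y : {y : H // orderOf y = orderOf x} => y.1) Subtype.val_injective
  · rw [one_mul, ← H.card_mul_index, ← mul_assoc, mul_comm (Nat.card H)]
    exact Nat.mul_le_mul_right _ (h.trans (hi H hH))

/-- **A torus containing the centralisers.** -/
theorem uGood_torus {G : Type*} [Group G] [Finite G] {p : ℕ} [hp : Fact p.Prime] {T : Subgroup G} {N d i b : ℕ}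
    (h1 : Nat.card ↥T ∣ N) (h2 : N ∣ d * Nat.card ↥T) (hpN : p ∣ N) (hpd : ¬ p ∣ d) (hN : 0 < N)
    (hcent : ∀ y ∈ T, orderOf y = p → Subgroup.centralizer {y} ≤ T) (hi : ∀ H : Subgroup G, H ≠ ⊤ → i ≤ H.index)
    (h : b * N ≤ i) : ∃ y : G, orderOf y = p ∧ UGood 1 b y := by
  have h3 : p ∣ Nat.card ↥T := (hp.out.dvd_mul.1 (hpN.trans h2)).resolve_left hpd
  obtain ⟨y, hy⟩ := exists_prime_orderOf_dvd_card' p h3
  have hy' : orderOf (y : G) = p := by rw [← hy]; exact Subgroup.orderOf_coe y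
  exact ⟨y, hy', uGood_direct ((Nat.card_le_card_of_injective _ (Subgroup.inclusion_injective (hcent _ y.2 hy'))).trans
    (Nat.le_of_dvd hN h1)) hi h⟩

/-- the fixed point ratio of a quotient by a central subgroup -/
theorem uGood_of_quot {R Q : Type*} [Group R] [Finite R] [Group Q] [Finite Q] (ρ : R →* Q) (hρ : Function.Surjective ρ)
    (hcen : ρ.ker ≤ Subgroup.center R) (hperf : commutator R = ⊤) {b : ℕ} {x : R} (h : UGood 1 b (ρ x)) : UGood 1 b x := by
  intro H hH
  by_cases hH' : H.map ρ = ⊤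
  · exfalso
    apply hH
    have hsup : ∀ r : R, ∃ y ∈ H, ∃ z ∈ Subgroup.center R, r = y * z := by
      intro r
      obtain ⟨y, hy, e⟩ : ρ r ∈ H.map ρ := by rw [hH']; trivial
      refine ⟨y, hy, y⁻¹ * r, hcen ?_, by group⟩
      rw [MonoidHom.mem_ker, map_mul, map_inv, e, inv_mul_cancel]
    rw [eq_top_iff, ← hperf, commutator_def, Subgroup.commutator_le]
    intro r _ s _
    obtain ⟨y, hy, z, hz, rfl⟩ := hsup r
    obtain ⟨y', hy', z', hz', rfl⟩ := hsup s
    have e1 := Subgroup.mem_center_iff.1 hz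
    have e2 := Subgroup.mem_center_iff.1 hz'
    have e : ⁅y * z, y' * z'⁆ = ⁅y, y'⁆ := by
      simp only [commutatorElement_def]
      calc y * z * (y' * z') * (y * z)⁻¹ * (y' * z')⁻¹ =
          y * (z * (y' * z')) * z⁻¹ * y⁻¹ * z'⁻¹ * y'⁻¹ := by group
        _ = y * ((y' * z') * z) * z⁻¹ * y⁻¹ * z'⁻¹ * y'⁻¹ := by rw [e1 (y' * z')]
        _ = y * y' * (z' * y⁻¹) * z'⁻¹ * y'⁻¹ := by group
        _ = y * y' * (y⁻¹ * z') * z'⁻¹ * y'⁻¹ := by rw [e2 y⁻¹]
        _ = _ := by group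
    rw [e, commutatorElement_def]
    exact mul_mem (mul_mem (mul_mem hy hy') (inv_mem hy)) (inv_mem hy')
  · refine fix_le_of_map ρ hρ (Ω := R ⧸ H) (Ω' := Q ⧸ H.map ρ)
      (Quotient.map' ρ (fun a b hab => by
        rw [QuotientGroup.leftRel_apply] at hab ⊢
        rw [← map_inv, ← map_mul]
        exact ⟨_, hab, rfl⟩)) ?_ x (h _ hH')
    intro g ω
    induction ω using QuotientGroup.induction_on with
    | H r =>
      show ((ρ (g * r) : Q) : Q ⧸ H.map ρ) = ρ g • ((ρ r : Q) : Q ⧸ H.map ρ)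
      rw [map_mul]
      rfl

/-- **Lifting to the image of a covering group.** -/
theorem exists_lift {S G Q : Type*} [Group S] [Group G] [Finite G] [Group Q] [Finite Q] (f : S →* G) (θ : S →* Q)
    (hθ : Function.Surjective θ) (hker : f.ker ≤ θ.ker) (hcen : θ.ker ≤ Subgroup.center S) (hperf : commutator S = ⊤)
    {p : ℕ} (hp : p.Prime) {x6 : Q} (hx6 : orderOf x6 = p) {b : ℕ} (hb : UGood 1 b x6) :
    ∃ x, ∃ hx : x ∈ f.range, (∃ k, x ^ p ^ k = 1) ∧ UGood 1 b (⟨x, hx⟩ : f.range) := by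
  have hfR : Finite f.range := inferInstance
  have hker' : f.rangeRestrict.ker ≤ θ.ker := by rw [MonoidHom.ker_rangeRestrict]; exact hker
  let ρ : f.range →* Q := f.rangeRestrict.liftOfSurjective f.rangeRestrict_surjective ⟨θ, hker'⟩
  have hρ : ∀ s, ρ (f.rangeRestrict s) = θ s := fun s =>
    f.rangeRestrict.liftOfRightInverse_comp_apply (Function.surjInv f.rangeRestrict_surjective)
      (Function.rightInverse_surjInv f.rangeRestrict_surjective) ⟨θ, hker'⟩ s
  have hρs : Function.Surjective ρ := by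
    intro y
    obtain ⟨s, rfl⟩ := hθ y
    exact ⟨_, hρ s⟩
  have hρc : ρ.ker ≤ Subgroup.center f.range := by
    intro r hr
    obtain ⟨s, rfl⟩ := f.rangeRestrict_surjective r
    rw [MonoidHom.mem_ker, hρ] at hr
    rw [Subgroup.mem_center_iff]
    intro g
    obtain ⟨t, rfl⟩ := f.rangeRestrict_surjective g
    rw [← map_mul, ← map_mul, Subgroup.mem_center_iff.1 (hcen hr) t]
  have hperf' : commutator f.range = ⊤ := by
    have h1 := Subgroup.map_commutator (⊤ : Subgroup S) ⊤ f.rangeRestrict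
    rw [← commutator_def, hperf, ← MonoidHom.range_eq_map, MonoidHom.range_eq_top.2 f.rangeRestrict_surjective] at h1
    rw [commutator_def]
    exact h1.symm
  obtain ⟨s, hs⟩ := hθ x6
  set r := f.rangeRestrict s with hr
  have hrx : ρ r = x6 := by rw [hr, hρ, hs]
  have ho : orderOf r ≠ 0 := (orderOf_pos r).ne'
  obtain ⟨a, n', hn', hoy⟩ := Nat.exists_eq_pow_mul_and_not_dvd ho p hp.ne_one
  have hcop : Nat.Coprime p n' := (Nat.Prime.coprime_iff_not_dvd hp).2 hn'
  obtain ⟨u, hu1, hu2⟩ := Nat.chineseRemainder hcop 1 0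
  have hnu : n' ∣ u := Nat.modEq_zero_iff_dvd.1 hu2
  have hxu : ρ (r ^ u) = x6 := by
    rw [map_pow, hrx]
    have h1 : x6 ^ u = x6 ^ 1 := pow_eq_pow_iff_modEq.2 (by rw [hx6]; exact hu1)
    rw [h1, pow_one]
  refine ⟨(r ^ u : f.range), (r ^ u).2, ⟨a, ?_⟩, ?_⟩
  · obtain ⟨c, rfl⟩ := hnu
    have h1 : (r ^ (n' * c)) ^ p ^ a = 1 := by
      rw [← pow_mul]
      have : n' * c * p ^ a = (p ^ a * n') * c := by ring
      rw [this, ← hoy, pow_mul, pow_orderOf_eq_one, one_pow]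
    have h2 := congrArg (fun z : f.range => (z : G)) h1
    exact h2
  · exact uGood_of_quot ρ hρs hρc hperf' (by rw [hxu]; exact hb)

/-- **Growth.** -/
theorem row_of_growth {G : Type*} [Group G] [Finite G] {p : ℕ} (hp : p.Prime) {K : Subgroup G} {x y : G} (hx : x ∈ K)
    (hy : y ∈ K) (hxp : ∃ k, x ^ p ^ k = 1) (hK : UGood 1 (2 * (p + 1)) (⟨x, hx⟩ : K)) (hyG : UGood 1 (2 * (p + 1)) y) :
    FprRow (p + 1) 1 p G := by
  have h1 := growth_uGood hx hy (by omega) hK hyG
  obtain ⟨k, hk⟩ := hxp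
  obtain ⟨m, -, hm⟩ := (Nat.dvd_prime_pow hp).1 (orderOf_dvd_of_pow_eq_one hk)
  have h2 : UGood 1 (p + 1) x := by
    refine h1.mono (by positivity) ?_
    rw [one_mul]
    have : 2 * (p + 1) + 2 * (p + 1) - 1 ≤ 4 * (p + 1) := by omega
    calc (2 * (p + 1) + 2 * (p + 1) - 1) * (p + 1) ≤ 4 * (p + 1) * (p + 1) := Nat.mul_le_mul_right _ this
      _ = 2 * (p + 1) * (2 * (p + 1)) := by ring
  exact fun H hH => ⟨x, ⟨m, hm⟩, h2 H hH⟩

/-- conjugates and generators of the same cyclic group -/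
theorem uGood_conj {G : Type*} [Group G] [Finite G] {a b : ℕ} {x : G} (h : UGood a b x) (g : G) : UGood a b (g * x * g⁻¹) := by
  intro H hH
  have h1 := h H hH
  refine le_trans (Nat.mul_le_mul_left _ ?_) h1
  refine Nat.card_le_card_of_injective (fun z : fixedBy (G ⧸ H) (g * x * g⁻¹) => (⟨g⁻¹ • z.1, ?_⟩ : fixedBy (G ⧸ H) x)) ?_
  · have h2 := z.2
    rw [mem_fixedBy] at h2 ⊢
    rw [mul_smul, mul_smul] at h2
    rw [← eq_inv_smul_iff] at h2
    exact h2
  · intro z w hzw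
    exact Subtype.ext (smul_left_cancel _ (congrArg Subtype.val hzw))

theorem uGood_of_zpowers {G : Type*} [Group G] [Finite G] {a b : ℕ} {x y : G} (h : UGood a b x)
    (hxy : x ∈ zpowers y) : UGood a b y := by
  intro H hH
  refine le_trans (Nat.mul_le_mul_left _ ?_) (h H hH)
  refine Nat.card_mono (Set.toFinite _) ?_
  intro z hz
  rw [mem_fixedBy] at hz ⊢
  have h1 : zpowers y ≤ stabilizer G z := by rw [zpowers_le]; exact hz
  exact h1 hxy

end Cfsg.Agent.H441.FPR.Grow
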