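import Cfsg.Agent.H441.FPR.Tor

/-!
# Torus elements: `F₄`, `G₂`
-/

set_option autoImplicit false
set_option maxRecDepth 100000

namespace Cfsg.Agent.H441.FPR

open Cfsg.Lie Cfsg.Agent.ChevalleyStructure

theorem tor4 : TorOK chevF4 3 [25, 26, 28, 29, 30, 31, 35, 36, 37, 38, 41, 42, 46, 47]
    [(26, 22), (21, 25), (28, 22), (19, 25), (35, 19), (12, 28)] where
  rk := by decide +kernel
  pos := by decide +kernel
  lt := by decide +kernel
  refl := by decide +kernel
  refl' := by decide +kernel
  gen := by decide +kernel

theorem tor2 : TorOK chevG2 1 [7, 8, 10, 11] [(11, 1), (0, 10)] where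
  rk := by decide +kernel
  pos := by decide +kernel
  lt := by decide +kernel
  refl := by decide +kernel
  refl' := by decide +kernel
  gen := by decide +kernel

end Cfsg.Agent.H441.FPR
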