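import Cfsg.Agent.H441.FPR.ETabC
import Cfsg.Agent.H441.FPR.ETabB
import Cfsg.Agent.H441.FPR.TorTab
import Cfsg.Agent.H441.FPR.GTwo
import Cfsg.Agent.H441.FPR.FFourB
import Cfsg.Agent.H444.FprOdd
import Cfsg.Agent.S2378
import Cfsg.Agent.S1054
import Cfsg.Agent.S1055
import Cfsg.Agent.S1059
import Cfsg.Agent.S1062
import Cfsg.Agent.S1063
import Cfsg.Agent.S1064
import Cfsg.Agent.S1065

/-!
# Exceptional Chevalley groups: the rows
-/

set_option autoImplicit false
set_option maxRecDepth 100000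

namespace Cfsg.Agent.H441.FPR

open Cfsg.Lie Cfsg.Agent.ChevalleyStructure
open Cfsg.Agent.H398.FPR
open Cfsg.Agent.H409 (FprRow)

universe u

variable {K : Type u} [Field K]

/-! ### The order of `q` modulo `p` -/

theorem ord_dvd {q p m : ℕ} (hq : 0 < q) (h : p ∣ q ^ m - 1) : orderOf (q : ZMod p) ∣ m := by
  rw [orderOf_dvd_iff_pow_eq_one]
  have h2 : ((q ^ m - 1 : ℕ) : ZMod p) = 0 := (ZMod.natCast_eq_zero_iff _ _).2 h
  rw [Nat.cast_sub (Nat.one_le_pow _ _ hq), Nat.cast_one, sub_eq_zero, Nat.cast_pow] at h2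
  exact h2

theorem dvd_of_ord {q p m : ℕ} (hq : 0 < q) (h : orderOf (q : ZMod p) ∣ m) : p ∣ q ^ m - 1 := by
  rw [orderOf_dvd_iff_pow_eq_one] at h
  rw [← ZMod.natCast_eq_zero_iff, Nat.cast_sub (Nat.one_le_pow _ _ hq), Nat.cast_one, sub_eq_zero, Nat.cast_pow]
  exact h

/-- the order of `q` divides `p - 1` -/
theorem ord_dvd_sub {q p : ℕ} [hp : Fact p.Prime] (h : ¬ p ∣ q) : orderOf (q : ZMod p) ∣ p - 1 := by
  rw [orderOf_dvd_iff_pow_eq_one]
  apply ZMod.pow_card_sub_one_eq_one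
  intro h1
  exact h ((ZMod.natCast_eq_zero_iff _ _).1 h1)

/-- cyclic Sylow subgroups -/
theorem row_cyc [Fintype K] {c : ChevalleyDatum × List ℕ}
    (hc : c ∈ [(Cfsg.Lie.chevG2, [2, 6]), (Cfsg.Lie.chevB2, [2, 4]), (Cfsg.Lie.chevD4, [2, 4, 4, 6]), (Cfsg.Lie.chevF4, [2, 6, 8, 12]),
      (Cfsg.Lie.chevE6, [2, 5, 6, 8, 9, 12]), (Cfsg.Lie.chevE7, [2, 6, 8, 10, 12, 14, 18]), (Cfsg.Lie.chevE8, [2, 8, 12, 14, 18, 20, 24, 30])])
    {p e : ℕ} [Fact p.Prime] [IsSimpleGroup ↥(c.1.group K)] [Finite ↥(c.1.group K)]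
    (hpq : ¬ p ∣ Fintype.card K) (hpW : ¬ p ∣ c.2.prod) (hd : p ∣ Nat.card ↥(c.1.group K))
    (he : orderOf (Fintype.card K : ZMod p) = e)
    (hf : (c.2.filter (fun x => e ∣ x)).length = 1) : FprRow (2 * p - 1) (p - 1) p ↥(c.1.group K) := by
  obtain ⟨P⟩ : Nonempty (Sylow p ↥(c.1.group K)) := inferInstance
  have h1 := Cfsg.Agent.S2378.result rfl c hc p hpq hpW hd P
  rw [he] at h1
  have h2 : IsCyclic (P : Subgroup ↥(c.1.group K)) := by
    generalize (c.2.filter (fun x => e ∣ x)).length = k at hf h1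
    subst hf
    obtain ⟨f⟩ := h1
    exact isCyclic_of_injective (f.trans (MulEquiv.funUnique (Fin 1) _)).toMonoidHom (MulEquiv.injective _)
  exact Cfsg.Agent.H444.Fpr.row_of_cyclic (Cfsg.Agent.H444.Fpr.pGen_of_simple hd) P h2

/-! ### Two radicals -/

section TR

variable [Fintype K] {r0 : ℕ} [Fact r0.Prime] [CharP K r0] {p : ℕ} (hp : p.Prime) (hpK : (p : K) ≠ 0)

theorem ord_zero_ne (hp : p.Prime) (hpK : (p : K) ≠ 0) : orderOf (Fintype.card K : ZMod p) ≠ 0 := by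
  have : Fact p.Prime := ⟨hp⟩
  have h1 := ord_dvd_sub (q := Fintype.card K) (p := p) fun h => hpK (cast_eq_zero_of_dvd hp h)
  intro h2
  rw [h2, zero_dvd_iff] at h1
  have := hp.two_le
  omega

include hp hpK

/-- `E₆` -/
theorem e6_tr (ho : orderOf (Fintype.card K : ZMod p) ∈ [1, 2, 3, 4]) : TR r0 p ↥(chevE6.group K) := by
  by_cases h1 : orderOf (Fintype.card K : ZMod p) = 1
  · by_cases h2 : p = 2
    · subst h2
      exact TabOK.tr_two Cfsg.Agent.Nodes.KindE.isType6 (n := 0) t6a (by exact_mod_cast hpK)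
    · have h3 := dvd_of_ord (m := 1) (Fintype.card_pos (α := K)) (p := p) (by rw [h1])
      rw [pow_one] at h3
      exact TabOK.tr_one Cfsg.Agent.Nodes.KindE.isType6 (n := 0) t6a hp h2 h3
  · simp only [List.mem_cons, List.not_mem_nil, or_false] at ho
    rcases ho with ho | ho | ho | ho
    · exact absurd ho h1
    · exact TabOK.tr_ord Cfsg.Agent.Nodes.KindE.isType6 (n := 1) t6a hp hpK h1 (by rw [ho]; norm_num)
    · exact TabOK.tr_ord Cfsg.Agent.Nodes.KindE.isType6 (n := 0) t6b hp hpK h1 (by rw [ho])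
    · exact TabOK.tr_ord Cfsg.Agent.Nodes.KindE.isType6 (n := 1) t6a hp hpK h1 (by rw [ho])

/-- `E₇` -/
theorem e7_tr (ho : orderOf (Fintype.card K : ZMod p) ∈ [1, 2, 3, 4, 6]) : TR r0 p ↥(chevE7.group K) := by
  by_cases h1 : orderOf (Fintype.card K : ZMod p) = 1
  · by_cases h2 : p = 2
    · subst h2
      exact TabOK.tr_two Cfsg.Agent.Nodes.KindE.isType7 (n := 0) t7a (by exact_mod_cast hpK)
    · have h3 := dvd_of_ord (m := 1) (Fintype.card_pos (α := K)) (p := p) (by rw [h1])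
      rw [pow_one] at h3
      exact TabOK.tr_one Cfsg.Agent.Nodes.KindE.isType7 (n := 0) t7a hp h2 h3
  · simp only [List.mem_cons, List.not_mem_nil, or_false] at ho
    rcases ho with ho | ho | ho | ho | ho
    · exact absurd ho h1
    · exact TabOK.tr_ord Cfsg.Agent.Nodes.KindE.isType7 (n := 1) t7a hp hpK h1 (by rw [ho]; norm_num)
    · exact TabOK.tr_ord Cfsg.Agent.Nodes.KindE.isType7 (n := 0) t7b hp hpK h1 (by rw [ho])
    · exact TabOK.tr_ord Cfsg.Agent.Nodes.KindE.isType7 (n := 1) t7a hp hpK h1 (by rw [ho])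
    · exact CB.tr_ord Cfsg.Agent.Nodes.KindE.isType7 (n := 3) (by norm_num) rt7c.1 rt7c.2.1 rt7c.2.2.1 rt7c.2.2.2 t7c
        hp hpK h1 (by rw [ho])

/-- `E₈` -/
theorem e8_tr (ho : orderOf (Fintype.card K : ZMod p) ∈ [1, 2, 3, 4, 5, 6, 8]) : TR r0 p ↥(chevE8.group K) := by
  by_cases h1 : orderOf (Fintype.card K : ZMod p) = 1
  · by_cases h2 : p = 2
    · subst h2
      exact TabOK.tr_two Cfsg.Agent.Nodes.KindE.isType8 (n := 1) t8a (by exact_mod_cast hpK)
    · have h3 := dvd_of_ord (m := 1) (Fintype.card_pos (α := K)) (p := p) (by rw [h1])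
      rw [pow_one] at h3
      exact TabOK.tr_one Cfsg.Agent.Nodes.KindE.isType8 (n := 1) t8a hp h2 h3
  · simp only [List.mem_cons, List.not_mem_nil, or_false] at ho
    rcases ho with ho | ho | ho | ho | ho | ho | ho
    · exact absurd ho h1
    · exact TabOK.tr_ord Cfsg.Agent.Nodes.KindE.isType8 (n := 3) t8a hp hpK h1 (by rw [ho]; norm_num)
    · exact TabOK.tr_ord Cfsg.Agent.Nodes.KindE.isType8 (n := 3) t8a hp hpK h1 (by rw [ho]; norm_num)
    · exact TabOK.tr_ord Cfsg.Agent.Nodes.KindE.isType8 (n := 1) t8c hp hpK h1 (by rw [ho])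
    · exact TabOK.tr_ord Cfsg.Agent.Nodes.KindE.isType8 (n := 2) t8b hp hpK h1 (by rw [ho])
    · exact TabOK.tr_ord Cfsg.Agent.Nodes.KindE.isType8 (n := 3) t8a hp hpK h1 (by rw [ho])
    · exact CB.tr_ord Cfsg.Agent.Nodes.KindE.isType8 (n := 5) (by norm_num) rt8d.1 rt8d.2.1 rt8d.2.2.1 rt8d.2.2.2 t8d
        hp hpK h1 (by rw [ho])

/-- `F₄` -/
theorem f4_tr (ho : orderOf (Fintype.card K : ZMod p) ∈ [1, 2, 3]) : TR r0 p ↥(chevF4.group K) := by
  by_cases h1 : orderOf (Fintype.card K : ZMod p) = 1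
  · by_cases h2 : p = 2
    · subst h2
      exact TorOK.tr_two Cfsg.Agent.Nodes.KindF.isType tor4 (by exact_mod_cast hpK)
    · have h3 := dvd_of_ord (m := 1) (Fintype.card_pos (α := K)) (p := p) (by rw [h1])
      rw [pow_one] at h3
      exact TorOK.tr_one Cfsg.Agent.Nodes.KindF.isType tor4 hp h2 h3
  · simp only [List.mem_cons, List.not_mem_nil, or_false] at ho
    rcases ho with ho | ho | ho
    · exact absurd ho h1
    · exact CB.tr_emb Cfsg.Agent.Nodes.KindF.isType (by norm_num) rt4.1 rt4.2.1 rt4.2.2.1 rt4.2.2.2 t4b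
        hp hpK h1 (by rw [ho])
    · exact CB.tr_ord Cfsg.Agent.Nodes.KindF.isType (n := 0) (by norm_num) rt4.1 rt4.2.1 rt4.2.2.1 rt4.2.2.2 t4a
        hp hpK h1 (by rw [ho])

/-- `G₂` -/
theorem g2_tr (h3 : 3 ≤ Fintype.card K) (ho : orderOf (Fintype.card K : ZMod p) ∈ [1, 2]) :
    TR r0 p ↥(chevG2.group K) := by
  by_cases h1 : orderOf (Fintype.card K : ZMod p) = 1
  · by_cases h2 : p = 2
    · subst h2
      exact TorOK.tr_two g2_type tor2 (by exact_mod_cast hpK)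
    · have h3 := dvd_of_ord (m := 1) (Fintype.card_pos (α := K)) (p := p) (by rw [h1])
      rw [pow_one] at h3
      exact TorOK.tr_one g2_type tor2 hp h2 h3
  · simp only [List.mem_cons, List.not_mem_nil, or_false] at ho
    rcases ho with ho | ho
    · exact absurd ho h1
    · refine g2_two ?_ hp hpK h1 (by rw [ho])
      by_contra hcon
      have h4 : Fintype.card K = 3 := by omega
      have h5 := dvd_of_ord (m := 2) (Fintype.card_pos (α := K)) (p := p) (by rw [ho])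
      rw [h4] at h5
      have h6 : p ∣ 2 ^ 3 := h5
      exact ne_two_of_ord hp hpK h1 ((Nat.prime_dvd_prime_iff_eq hp Nat.prime_two).1 (hp.dvd_of_dvd_pow h6))

end TR

/-! ### The rows of S3569 -/

theorem small_prime {p a b c d : ℕ} (hp : p.Prime) (h : p ∣ 2 ^ a * 3 ^ b * 5 ^ c * 7 ^ d) :
    p = 2 ∨ p = 3 ∨ p = 5 ∨ p = 7 := by
  rcases (hp.dvd_mul).1 h with h | h
  · rcases (hp.dvd_mul).1 h with h | h
    · rcases (hp.dvd_mul).1 h with h | h
      · exact Or.inl ((Nat.prime_dvd_prime_iff_eq hp Nat.prime_two).1 (hp.dvd_of_dvd_pow h))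
      · exact Or.inr (Or.inl ((Nat.prime_dvd_prime_iff_eq hp Nat.prime_three).1 (hp.dvd_of_dvd_pow h)))
    · exact Or.inr (Or.inr (Or.inl ((Nat.prime_dvd_prime_iff_eq hp Nat.prime_five).1 (hp.dvd_of_dvd_pow h))))
  · exact Or.inr (Or.inr (Or.inr ((Nat.prime_dvd_prime_iff_eq hp (by norm_num)).1 (hp.dvd_of_dvd_pow h))))

/-- a prime with a large order does not divide the order of the Weyl group -/
theorem not_dvd_weyl {p q e N a b c d : ℕ} (hp : p.Prime) (hpq : ¬ p ∣ q) (he : orderOf (q : ZMod p) = e)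
    (h3 : e = 3 ∨ 5 ≤ e) (h6 : e ≠ 6 ∨ d = 0) (hN : N = 2 ^ a * 3 ^ b * 5 ^ c * 7 ^ d) (hcd : e ≠ 3 ∨ d = 0) : ¬ p ∣ N := by
  intro h
  have : Fact p.Prime := ⟨hp⟩
  have h1 := ord_dvd_sub (q := q) (p := p) hpq
  rw [he] at h1
  rw [hN] at h
  rcases small_prime hp h with rfl | rfl | rfl | rfl
  · have := Nat.le_of_dvd (by norm_num) h1
    omega
  · have := Nat.le_of_dvd (by norm_num) h1
    omega
  · have h2 := Nat.le_of_dvd (by norm_num) h1
    have h4 : e = 3 := by omega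
    rw [h4] at h1
    revert h1
    norm_num
  · have h2 := Nat.le_of_dvd (by norm_num) h1
    norm_num at h1 h2
    have h5 : e ≠ 5 := by rintro rfl; revert h1; norm_num
    have h7 : d = 0 := by omega
    subst h7
    rw [pow_zero, mul_one] at h
    rcases (hp.dvd_mul).1 h with h | h
    · rcases (hp.dvd_mul).1 h with h | h
      · exact absurd ((Nat.prime_dvd_prime_iff_eq hp Nat.prime_two).1 (hp.dvd_of_dvd_pow h)) (by norm_num)
      · exact absurd ((Nat.prime_dvd_prime_iff_eq hp Nat.prime_three).1 (hp.dvd_of_dvd_pow h)) (by norm_num)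
    · exact absurd ((Nat.prime_dvd_prime_iff_eq hp Nat.prime_five).1 (hp.dvd_of_dvd_pow h)) (by norm_num)

section Rows

variable [Fintype K] {p : ℕ} (hp : p.Prime) (hpK : (p : K) ≠ 0)

theorem not_dvd_card (hpK : (p : K) ≠ 0) (hp : p.Prime) : ¬ p ∣ Fintype.card K :=
  fun h => hpK (cast_eq_zero_of_dvd hp h)

theorem exists_deg {q p N : ℕ} (hq : 0 < q) (hp : p.Prime) (hpq : ¬ p ∣ q) {l : List ℕ}
    (h : p ∣ q ^ N * (l.map fun m => q ^ m - 1).prod) : ∃ m ∈ l, orderOf (q : ZMod p) ∣ m := by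
  rcases (hp.dvd_mul).1 h with h | h
  · exact absurd (hp.dvd_of_dvd_pow h) hpq
  · obtain ⟨a, ha, h1⟩ := (Prime.dvd_prod_iff hp.prime).1 h
    obtain ⟨m, hm, rfl⟩ := List.mem_map.1 ha
    exact ⟨m, hm, ord_dvd hq h1⟩

theorem mem_of_dvd {l l' : List ℕ} {B e : ℕ} (hl : ∀ m ∈ l, 0 < m ∧ m ≤ B)
    (h : ∀ m ∈ l, ∀ e < B + 1, e ∣ m → e ∈ l') (h1 : ∃ m ∈ l, e ∣ m) : e ∈ l' := by
  obtain ⟨m, hm, h2⟩ := h1
  have h3 := Nat.le_of_dvd (hl m hm).1 h2
  have h4 := (hl m hm).2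
  exact h m hm e (by omega) h2

include hp hpK

/-- the possible orders for `E₆` -/
theorem e6_ord (hd : p ∣ Nat.card ↥(chevE6.group K)) :
    orderOf (Fintype.card K : ZMod p) ∈ [1, 2, 3, 4, 5, 6, 8, 9, 12] := by
  have h1 := Cfsg.Agent.S1063.result (F := K) rfl
  have h2 : p ∣ Nat.gcd 3 (Fintype.card K - 1) * Nat.card ↥(chevE6.group K) := Dvd.dvd.mul_left hd _
  rw [h1] at h2
  refine mem_of_dvd (l := [2, 5, 6, 8, 9, 12]) (B := 12) (by decide) (by decide)
    (exists_deg Fintype.card_pos hp (not_dvd_card hpK hp) (N := 36) ?_)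
  simpa [mul_assoc] using h2

/-- the possible orders for `E₇` -/
theorem e7_ord (hd : p ∣ Nat.card ↥(chevE7.group K)) :
    orderOf (Fintype.card K : ZMod p) ∈ [1, 2, 3, 4, 5, 6, 7, 8, 9, 10, 12, 14, 18] := by
  have h1 := Cfsg.Agent.S1064.result (F := K) rfl
  have h2 : p ∣ Nat.gcd 2 (Fintype.card K - 1) * Nat.card ↥(chevE7.group K) := Dvd.dvd.mul_left hd _
  rw [h1] at h2
  refine mem_of_dvd (l := [2, 6, 8, 10, 12, 14, 18]) (B := 18) (by decide) (by decide)
    (exists_deg Fintype.card_pos hp (not_dvd_card hpK hp) (N := 63) ?_)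
  simpa [mul_assoc] using h2

/-- the possible orders for `E₈` -/
theorem e8_ord (hd : p ∣ Nat.card ↥(chevE8.group K)) :
    orderOf (Fintype.card K : ZMod p) ∈ [1, 2, 3, 4, 5, 6, 7, 8, 9, 10, 12, 14, 15, 18, 20, 24, 30] := by
  have h1 := Cfsg.Agent.S1065.result (F := K) rfl
  rw [h1] at hd
  refine mem_of_dvd (l := [2, 8, 12, 14, 18, 20, 24, 30]) (B := 30) (by decide) (by decide)
    (exists_deg Fintype.card_pos hp (not_dvd_card hpK hp) (N := 120) ?_)
  simpa [mul_assoc] using hd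

/-- the possible orders for `F₄` -/
theorem f4_ord (hd : p ∣ Nat.card ↥(chevF4.group K)) :
    orderOf (Fintype.card K : ZMod p) ∈ [1, 2, 3, 4, 6, 8, 12] := by
  have h1 := Cfsg.Agent.S1062.result (F := K) rfl
  rw [h1] at hd
  refine mem_of_dvd (l := [2, 6, 8, 12]) (B := 12) (by decide) (by decide)
    (exists_deg Fintype.card_pos hp (not_dvd_card hpK hp) (N := 24) ?_)
  simpa [mul_assoc] using hd

/-- the possible orders for `G₂` -/
theorem g2_ord (hd : p ∣ Nat.card ↥(chevG2.group K)) :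
    orderOf (Fintype.card K : ZMod p) ∈ [1, 2, 3, 6] := by
  have h1 := Cfsg.Agent.S1059.result (F := K) rfl
  rw [h1] at hd
  refine mem_of_dvd (l := [2, 6]) (B := 6) (by decide) (by decide)
    (exists_deg Fintype.card_pos hp (not_dvd_card hpK hp) (N := 6) ?_)
  simpa [mul_assoc] using hd

/-- `E₆` -/
theorem e6_row (hd : p ∣ Nat.card ↥(chevE6.group K)) (h6 : orderOf (Fintype.card K : ZMod p) ≠ 6) :
    FprRow (2 * p - 1) (p - 1) p ↥(chevE6.group K) := by
  have : Fact p.Prime := ⟨hp⟩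
  obtain ⟨r0, hr0⟩ := CharP.exists K
  have : Fact r0.Prime := ⟨CharP.char_is_prime K r0⟩
  have : IsSimpleGroup ↥(chevE6.group K) := (Cfsg.Agent.S1054.result chevE6 (by simp)).1
  have hq := not_dvd_card hpK hp
  by_cases ho : orderOf (Fintype.card K : ZMod p) ∈ [1, 2, 3, 4]
  · exact (e6_tr (r0 := r0) hp hpK ho).row hp
  · have h1 := e6_ord hp hpK hd
    simp only [List.mem_cons, List.not_mem_nil, or_false] at ho h1
    have h2 : orderOf (Fintype.card K : ZMod p) = 5 ∨ orderOf (Fintype.card K : ZMod p) = 8 ∨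
      orderOf (Fintype.card K : ZMod p) = 9 ∨ orderOf (Fintype.card K : ZMod p) = 12 := by omega
    have hW : ¬ p ∣ [2, 5, 6, 8, 9, 12].prod :=
      not_dvd_weyl (a := 7) (b := 4) (c := 1) (d := 0) hp hq rfl (by omega) (by omega) (by norm_num) (by omega)
    rcases h2 with h2 | h2 | h2 | h2
    all_goals exact row_cyc (c := (chevE6, [2, 5, 6, 8, 9, 12])) (by simp) hq hW hd h2 (by decide)

/-- `E₇` -/
theorem e7_row (hd : p ∣ Nat.card ↥(chevE7.group K)) : FprRow (2 * p - 1) (p - 1) p ↥(chevE7.group K) := by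
  have : Fact p.Prime := ⟨hp⟩
  obtain ⟨r0, hr0⟩ := CharP.exists K
  have : Fact r0.Prime := ⟨CharP.char_is_prime K r0⟩
  have : IsSimpleGroup ↥(chevE7.group K) := (Cfsg.Agent.S1054.result chevE7 (by simp)).1
  have hq := not_dvd_card hpK hp
  by_cases ho : orderOf (Fintype.card K : ZMod p) ∈ [1, 2, 3, 4, 6]
  · exact (e7_tr (r0 := r0) hp hpK ho).row hp
  · have h1 := e7_ord hp hpK hd
    simp only [List.mem_cons, List.not_mem_nil, or_false] at ho h1
    have h2 : orderOf (Fintype.card K : ZMod p) = 5 ∨ orderOf (Fintype.card K : ZMod p) = 7 ∨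
      orderOf (Fintype.card K : ZMod p) = 8 ∨ orderOf (Fintype.card K : ZMod p) = 9 ∨
      orderOf (Fintype.card K : ZMod p) = 10 ∨ orderOf (Fintype.card K : ZMod p) = 12 ∨
      orderOf (Fintype.card K : ZMod p) = 14 ∨ orderOf (Fintype.card K : ZMod p) = 18 := by omega
    have hW : ¬ p ∣ [2, 6, 8, 10, 12, 14, 18].prod :=
      not_dvd_weyl (a := 10) (b := 4) (c := 1) (d := 1) hp hq rfl (by omega) (by omega) (by norm_num) (by omega)
    rcases h2 with h2 | h2 | h2 | h2 | h2 | h2 | h2 | h2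
    all_goals exact row_cyc (c := (chevE7, [2, 6, 8, 10, 12, 14, 18])) (by simp) hq hW hd h2 (by decide)

/-- `E₈` -/
theorem e8_row (hd : p ∣ Nat.card ↥(chevE8.group K)) (h10 : orderOf (Fintype.card K : ZMod p) ≠ 10)
    (h12 : orderOf (Fintype.card K : ZMod p) ≠ 12) : FprRow (2 * p - 1) (p - 1) p ↥(chevE8.group K) := by
  have : Fact p.Prime := ⟨hp⟩
  obtain ⟨r0, hr0⟩ := CharP.exists K
  have : Fact r0.Prime := ⟨CharP.char_is_prime K r0⟩
  have : IsSimpleGroup ↥(chevE8.group K) := (Cfsg.Agent.S1054.result chevE8 (by simp)).1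
  have hq := not_dvd_card hpK hp
  by_cases ho : orderOf (Fintype.card K : ZMod p) ∈ [1, 2, 3, 4, 5, 6, 8]
  · exact (e8_tr (r0 := r0) hp hpK ho).row hp
  · have h1 := e8_ord hp hpK hd
    simp only [List.mem_cons, List.not_mem_nil, or_false] at ho h1
    have h2 : orderOf (Fintype.card K : ZMod p) = 7 ∨ orderOf (Fintype.card K : ZMod p) = 9 ∨
      orderOf (Fintype.card K : ZMod p) = 14 ∨ orderOf (Fintype.card K : ZMod p) = 15 ∨
      orderOf (Fintype.card K : ZMod p) = 18 ∨ orderOf (Fintype.card K : ZMod p) = 20 ∨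
      orderOf (Fintype.card K : ZMod p) = 24 ∨ orderOf (Fintype.card K : ZMod p) = 30 := by omega
    have hW : ¬ p ∣ [2, 8, 12, 14, 18, 20, 24, 30].prod :=
      not_dvd_weyl (a := 14) (b := 5) (c := 2) (d := 1) hp hq rfl (by omega) (by omega) (by norm_num) (by omega)
    rcases h2 with h2 | h2 | h2 | h2 | h2 | h2 | h2 | h2
    all_goals exact row_cyc (c := (chevE8, [2, 8, 12, 14, 18, 20, 24, 30])) (by simp) hq hW hd h2 (by decide)

/-- `F₄` -/
theorem f4_row (hd : p ∣ Nat.card ↥(chevF4.group K)) (h4 : orderOf (Fintype.card K : ZMod p) ≠ 4)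
    (h6 : orderOf (Fintype.card K : ZMod p) ≠ 6) : FprRow (2 * p - 1) (p - 1) p ↥(chevF4.group K) := by
  have : Fact p.Prime := ⟨hp⟩
  obtain ⟨r0, hr0⟩ := CharP.exists K
  have : Fact r0.Prime := ⟨CharP.char_is_prime K r0⟩
  have : IsSimpleGroup ↥(chevF4.group K) := (Cfsg.Agent.S1054.result chevF4 (by simp)).1
  have hq := not_dvd_card hpK hp
  by_cases ho : orderOf (Fintype.card K : ZMod p) ∈ [1, 2, 3]
  · exact (f4_tr (r0 := r0) hp hpK ho).row hp
  · have h1 := f4_ord hp hpK hd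
    simp only [List.mem_cons, List.not_mem_nil, or_false] at ho h1
    have h2 : orderOf (Fintype.card K : ZMod p) = 8 ∨ orderOf (Fintype.card K : ZMod p) = 12 := by omega
    have hW : ¬ p ∣ [2, 6, 8, 12].prod :=
      not_dvd_weyl (a := 7) (b := 2) (c := 0) (d := 0) hp hq rfl (by omega) (by omega) (by norm_num) (by omega)
    rcases h2 with h2 | h2
    all_goals exact row_cyc (c := (chevF4, [2, 6, 8, 12])) (by simp) hq hW hd h2 (by decide)

/-- `F₄(q)`, `q` even -/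
theorem f4_row_even (h2 : (2 : K) = 0) (hd : p ∣ Nat.card ↥(chevF4.group K))
    (h6 : orderOf (Fintype.card K : ZMod p) ≠ 6) : FprRow (2 * p - 1) (p - 1) p ↥(chevF4.group K) := by
  by_cases h4 : orderOf (Fintype.card K : ZMod p) = 4
  · obtain ⟨r0, hr0⟩ := CharP.exists K
    have : Fact r0.Prime := ⟨CharP.char_is_prime K r0⟩
    exact (f4_four (r0 := r0) h2 hp hpK h4).row hp
  · exact f4_row hp hpK hd h4 h6

/-- `G₂` -/
theorem g2_row (h3 : 3 ≤ Fintype.card K) (hd : p ∣ Nat.card ↥(chevG2.group K)) :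
    FprRow (2 * p - 1) (p - 1) p ↥(chevG2.group K) := by
  have : Fact p.Prime := ⟨hp⟩
  obtain ⟨r0, hr0⟩ := CharP.exists K
  have : Fact r0.Prime := ⟨CharP.char_is_prime K r0⟩
  have hex : ∃ a : K, a ≠ 0 ∧ a ≠ 1 := by
    classical
    by_contra hcon
    push Not at hcon
    have h5 : (Finset.univ : Finset K) ⊆ {0, 1} := by
      intro x _
      by_cases hx : x = 0
      · simp [hx]
      · simp [hcon x hx]
    have h6 := Finset.card_le_card h5
    rw [Finset.card_univ] at h6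
    have h7 : ({0, 1} : Finset K).card ≤ 2 := Finset.card_le_two
    omega
  have : IsSimpleGroup ↥(chevG2.group K) := (Cfsg.Agent.S1055.result hex).1
  have hq := not_dvd_card hpK hp
  by_cases ho : orderOf (Fintype.card K : ZMod p) ∈ [1, 2]
  · exact (g2_tr (r0 := r0) hp hpK h3 ho).row hp
  · have h1 := g2_ord hp hpK hd
    simp only [List.mem_cons, List.not_mem_nil, or_false] at ho h1
    have h2 : orderOf (Fintype.card K : ZMod p) = 3 ∨ orderOf (Fintype.card K : ZMod p) = 6 := by omega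
    have hW : ¬ p ∣ [2, 6].prod :=
      not_dvd_weyl (a := 2) (b := 1) (c := 0) (d := 0) hp hq rfl (by omega) (by omega) (by norm_num) (by omega)
    rcases h2 with h2 | h2
    all_goals exact row_cyc (c := (chevG2, [2, 6])) (by simp) hq hW hd h2 (by decide)

end Rows

end Cfsg.Agent.H441.FPR
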