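import Cfsg.Agent.H441.FPR.GrowB
import Cfsg.Agent.H441.FPR.BitR
import Cfsg.Agent.H441.FPR.Row
import Cfsg.Agent.H448.FprExc.TorC
import Cfsg.Agent.H65.UnivE
import Cfsg.Agent.S1077
import Cfsg.Agent.Lib.Zsigmondy
import Cfsg.Agent.ChevalleyStructure.StEmbed

/-!
# Growth: `E₇(q)`, `q` of order `12`
-/

set_option autoImplicit false
set_option linter.unusedSectionVars false
set_option linter.unusedVariables false
set_option maxRecDepth 100000

namespace Cfsg.Agent.H441.FPR.Grow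

open CoxeterSystem Cfsg.Agent.ChevalleyStructure.CoxeterGeom Cfsg.Agent.Tits.Roots Cfsg.Agent.Tits.Core
  Cfsg.Agent.Nodes.Reps Cfsg.Agent.Nodes.BNOf Cfsg.Agent.Nodes.Coroot Cfsg.Agent.Nodes.LeviDec
  Cfsg.Agent.Nodes.PosPair Cfsg.Agent.Nodes.StabComb Cfsg.Agent.Nodes.KindChev Cfsg.Agent.KFacts.RgdCent
  Cfsg.Agent.Nodes.Bruhat Cfsg.Agent.Nodes.OppDec Cfsg.Agent.Tits.Exchange
  Cfsg.Agent.KFacts.RgdPar Cfsg.Agent.KFacts.RgdSL Cfsg.Agent.KFacts.RgdTI Cfsg.Agent.Nodes.RGDChev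
  Cfsg.Agent.ChevalleyStructure.CoxeterGeomTypes
open Cfsg.Lie Cfsg.Agent.ChevalleyStructure Cfsg.Agent.ChevalleyStructure.Elts Cfsg.Agent.ChevalleyStructure.NPerm
open Cfsg.Agent.KFacts.RgdChevCoord Cfsg.Agent.Nodes.ChevCls
open Cfsg.Agent.H400.TwoExc Cfsg.Agent.H400.Fpr
open Cfsg.Agent.H398.FPR (UGood Good)
open Cfsg.Agent.H409 (FprRow)
open Cfsg.Agent.H79.SimpleGen
open Cfsg.Agent.H400
open Cfsg.Agent.H441.FPR.Heis Cfsg.Agent.H441.FPR.Bit
open Cfsg.Agent.ChevalleyStructure.StEmbed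

universe u

variable {K : Type u} [Field K] [Fintype K]

/-- a primitive prime divisor of `r ^ (m a) - 1` for `q = r ^ a` -/
theorem exists_zsig {r a m : ℕ} (hr : 2 ≤ r) (ha : 0 < a) (hm : 7 ≤ m) :
    ∃ l : ℕ, l.Prime ∧ l ≠ r ∧ m < l ∧ orderOf ((r ^ a : ℕ) : ZMod l) = m ∧
      (∀ t : ℕ, t ≠ 0 → r ^ t ≡ 1 [MOD l] → (r ^ a) ^ m ≤ r ^ t) := by
  have h7 : 7 ≤ m * a := hm.trans (Nat.le_mul_of_pos_right _ ha)
  obtain ⟨l, hl, h1, h2, h3⟩ := Cfsg.Agent.Lib.Zsigmondy.exists_primitive (a := r) (n := m * a) hr (by omega)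
    (by omega) (by omega)
  have hlr : l ≠ r := by rintro rfl; exact h3 dvd_rfl
  have hmod : ∀ t, r ^ t ≡ 1 [MOD l] ↔ m * a ∣ t := by
    intro t
    rw [← h1 t, Nat.ModEq.comm, Nat.modEq_iff_dvd' (Nat.one_le_pow _ _ (by omega))]
  have hml : m < l := by
    have h4 : m * a ≤ l - 1 := Nat.le_of_dvd (by have := hl.two_le; omega) h2
    have h5 : m ≤ m * a := Nat.le_mul_of_pos_right _ ha
    have := hl.two_le
    omega
  refine ⟨l, hl, hlr, hml, ?_, ?_⟩
  · have : Fact l.Prime := ⟨hl⟩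
    have key : ∀ t, ((r ^ a : ℕ) : ZMod l) ^ t = 1 ↔ m ∣ t := by
      intro t
      have e1 : ((r ^ a : ℕ) : ZMod l) ^ t = ((r ^ (a * t) : ℕ) : ZMod l) := by push_cast; rw [← pow_mul]
      rw [e1, ← Nat.cast_one (R := ZMod l), ZMod.natCast_eq_natCast_iff, hmod, mul_comm m a,
        Nat.mul_dvd_mul_iff_left ha]
    apply Nat.dvd_antisymm
    · exact orderOf_dvd_of_pow_eq_one ((key m).2 dvd_rfl)
    · exact (key _).1 (pow_orderOf_eq_one _)
  · intro t ht h4
    rw [hmod] at h4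
    rw [← pow_mul, mul_comm a m]
    exact Nat.pow_le_pow_right (by omega) (Nat.le_of_dvd (Nat.pos_of_ne_zero ht) h4)

/-- cyclic Sylow subgroups -/
theorem syl_cyc {c : ChevalleyDatum × List ℕ}
    (hc : c ∈ [(Cfsg.Lie.chevG2, [2, 6]), (Cfsg.Lie.chevB2, [2, 4]), (Cfsg.Lie.chevD4, [2, 4, 4, 6]), (Cfsg.Lie.chevF4, [2, 6, 8, 12]),
      (Cfsg.Lie.chevE6, [2, 5, 6, 8, 9, 12]), (Cfsg.Lie.chevE7, [2, 6, 8, 10, 12, 14, 18]), (Cfsg.Lie.chevE8, [2, 8, 12, 14, 18, 20, 24, 30])])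
    {p e : ℕ} [Fact p.Prime] (hpq : ¬ p ∣ Fintype.card K) (hpW : ¬ p ∣ c.2.prod) (hd : p ∣ Nat.card ↥(c.1.group K))
    (he : orderOf (Fintype.card K : ZMod p) = e)
    (hf : (c.2.filter (fun x => e ∣ x)).length = 1) (P : Sylow p ↥(c.1.group K)) :
    IsCyclic (P : Subgroup ↥(c.1.group K)) := by
  have h1 := Cfsg.Agent.S2378.result rfl c hc p hpq hpW hd P
  rw [he] at h1
  generalize (c.2.filter (fun x => e ∣ x)).length = k at hf h1
  subst hf
  obtain ⟨f⟩ := h1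
  exact isCyclic_of_injective (f.trans (MulEquiv.funUnique (Fin 1) _)).toMonoidHom (MulEquiv.injective _)

/-- the homomorphism to `E₇(q)` is not trivial -/
theorem f67_ne (θ7 : chevE7.SteinbergGroup K →* ↥(chevE7.group K))
    (he7 : ∀ (r : ℕ) (t : K), r < chevE7.nroots → ((θ7 (chevE7.stGen K r t) : ↥(chevE7.group K)) : GL chevE7.Idx K) = chevE7.x K r t) :
    (θ7.comp (hom emb67 K)) (chevE6.stGen K 0 1) ≠ 1 := by
  intro h2
  have h0 : (0 : ℕ) < chevE6.nroots := by decide +kernel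
  have h7 : ι67 0 < chevE7.nroots := by decide +kernel
  rw [MonoidHom.comp_apply, hom_stGen emb67 h0] at h2
  have h3 := he7 (ι67 0) 1 h7
  rw [h2] at h3
  have hD : InList chevE7 := by simp
  have h4 : xG (F := K) hD (ι67 0) 1 = 1 := Units.ext h3.symm
  exact one_ne_zero ((xG_eq_one_iff hD h7 _).1 h4)

/-- an element of order `l`, `l` of order `8`, with small ratios -/
theorem e7_y : ∃ l : ℕ, l.Prime ∧ 8 < l ∧ ¬ l ∣ Fintype.card K ∧ orderOf (Fintype.card K : ZMod l) = 8 ∧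
    ∃ y : ↥(chevE7.group K), orderOf y = l ∧ ∀ p, p + 3 ≤ Fintype.card K ^ 4 → UGood 1 (2 * (p + 1)) y := by
  have hK1 : 1 < Fintype.card K := Fintype.one_lt_card
  have hfin : Finite ↥(chevE7.group K) := inferInstance
  have hsimp := Cfsg.Agent.S1054.result (F := K) chevE7 (by simp)
  have hsim : IsSimpleGroup ↥(chevE7.group K) := hsimp.1
  have hcen : Subgroup.center ↥(chevE7.group K) = ⊥ := center_eq_bot hsimp.2
  let cs : CoxeterSystem CoxeterMatrix.E₇ _ := CoxeterMatrix.E₇.toCoxeterSystem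
  have hT : IsType chevE7 7 CoxeterMatrix.E₇ := by simp [IsType, typeList]
  have hW : Finite CoxeterMatrix.E₇.Group := finite_W hT cs
  obtain ⟨r, hrK⟩ := CharP.exists K
  have hr := CharP.char_is_prime K r
  have : Fact r.Prime := ⟨hr⟩
  obtain ⟨a, -, ha⟩ := FiniteField.card K r
  have HD := hd_E7 (K := K) cs r
  rcases Nat.lt_or_ge 2 (Fintype.card K) with hK | hK
  · obtain ⟨l, hl, hlr, hl8, hlo, hM⟩ := exists_zsig (m := 8) hr.two_le a.pos (by norm_num)
    rw [← ha] at hlo hM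
    have hlK : ¬ l ∣ Fintype.card K := by
      rw [ha]
      intro h
      exact hlr ((Nat.prime_dvd_prime_iff_eq hl hr).1 (hl.dvd_of_dvd_pow h))
    have hlq : ¬ l ∣ Fintype.card K - 1 := by
      intro h1
      have h2 : (Fintype.card K : ZMod l) = 1 := by
        have h3 := (ZMod.natCast_eq_zero_iff _ _).2 h1
        rwa [Nat.cast_sub Fintype.card_pos, Nat.cast_one, sub_eq_zero] at h3
      rw [h2, orderOf_one] at hlo
      omega
    obtain ⟨x, hx, hxo⟩ := e7_x (m := 8) cs hl hlr hlq hlo (by decide) dvd_rfl hT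
    have key := uGood_x (M' := Fintype.card K ^ 8) HD hsim hcen hK hl hlr hx hxo hM (Nat.one_le_pow _ _ (by omega))
    refine ⟨l, hl, hl8, hlK, hlo, x, hxo, fun p hp => key.mono (by omega) ?_⟩
    have h1 : 81 ≤ Fintype.card K ^ 4 := by
      calc 81 = 3 ^ 4 := by norm_num
        _ ≤ _ := Nat.pow_le_pow_left hK 4
    have h2 : Fintype.card K ^ 8 = Fintype.card K ^ 4 * Fintype.card K ^ 4 := by ring
    have h3 : 81 * Fintype.card K ^ 4 ≤ Fintype.card K ^ 8 := by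
      rw [h2]
      exact Nat.mul_le_mul_right _ h1
    omega
  · have hK2 : Fintype.card K = 2 := by omega
    have h2 : r = 2 := by
      rw [hK2] at ha
      exact (card_two hr ha).1
    subst h2
    obtain ⟨x, hx, j, hj, hx1, hcard⟩ := b17_x cs 2 (by exact_mod_cast CharP.cast_eq_zero K 2) hT
    have ho8 : orderOf ((2 : ℕ) : ZMod 17) = 8 := by
      have : Fact (Nat.Prime 17) := ⟨by norm_num⟩
      refine (orderOf_eq_iff (by norm_num)).2 ⟨by decide, ?_⟩
      intro m hm hm0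
      interval_cases m <;> decide
    have hM : ∀ t : ℕ, t ≠ 0 → 2 ^ t ≡ 1 [MOD 17] → 2 ^ 8 ≤ 2 ^ t := by
      intro t ht h1
      have h2 : ((2 : ℕ) : ZMod 17) ^ t = 1 := by
        have := (ZMod.natCast_eq_natCast_iff _ _ _).2 h1
        push_cast at this ⊢
        exact this
      have h3 := Nat.le_of_dvd (Nat.pos_of_ne_zero ht) (orderOf_dvd_of_pow_eq_one h2)
      rw [ho8] at h3
      exact Nat.pow_le_pow_right (by norm_num) h3
    have h17 : Nat.Prime 17 := by norm_num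
    have hxo : orderOf x = 17 := by
      obtain ⟨i, -, hi⟩ := (Nat.dvd_prime_pow h17).1 (orderOf_dvd_of_pow_eq_one hj)
      have hG := Cfsg.Agent.S1064.result (F := K) hK2
      norm_num at hG
      have hdv := orderOf_dvd_natCard x
      rcases Nat.lt_or_ge i 2 with h1 | h1
      · have h3 : i ≠ 0 := by
          rintro rfl
          rw [pow_zero] at hi
          exact hx1 (orderOf_eq_one_iff.1 hi)
        have h4 : i = 1 := by omega
        rw [hi, h4, pow_one]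
      · exfalso
        have h3 : 17 ^ 2 ∣ orderOf x := by rw [hi]; exact pow_dvd_pow 17 h1
        have h4 := h3.trans hdv
        rw [hG] at h4
        revert h4
        norm_num
    rw [hK2] at hcard
    have key := uGood_small (M' := 2 ^ 8) HD.hs hsim hcen (G1_eq_top hT cs) h17 (by norm_num) hx hj hx1
      (isPGroup_QQ HD.toHB) hcard (by norm_num) hM (by norm_num)
    refine ⟨17, h17, by norm_num, by rw [hK2]; norm_num, by rw [hK2]; exact ho8, x, hxo, fun p hp => key.mono (by norm_num) ?_⟩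
    rw [hK2] at hp
    norm_num at hp ⊢
    omega

/-- **`E₇(q)`, `q` of order `12`.** -/
theorem e7_twelve {p : ℕ} (hp : p.Prime) (ho : orderOf (Fintype.card K : ZMod p) = 12) :
    FprRow (p + 1) 1 p ↥(chevE7.group K) := by
  have : Fact p.Prime := ⟨hp⟩
  have hs6 := (Cfsg.Agent.S1054.result (F := K) chevE6 (by simp)).1
  have hs7 := (Cfsg.Agent.S1054.result (F := K) chevE7 (by simp)).1
  obtain ⟨l, hl, hl8, hlK, hlo, y, hyo, hy⟩ := e7_y (K := K)
  have : Fact l.Prime := ⟨hl⟩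
  obtain ⟨q, hF⟩ : ∃ q, Fintype.card K = q := ⟨_, rfl⟩
  have hq2 : 2 ≤ q := by rw [← hF]; exact Fintype.one_lt_card
  rw [hF] at ho hlK hlo hy
  have hi : ∀ H : Subgroup ↥(chevE6.group K), H ≠ ⊤ → 2 * q ^ 11 ≤ H.index := fun H hH => by
    rw [← hF]; exact Cfsg.Agent.H934.HeisE6.two_mul_le hs6 H hH
  obtain ⟨N, hN, hN0, hN1⟩ := Cfsg.Agent.H448.FprExc.exists_N12 hq2
  have hpN := Cfsg.Agent.H448.FprExc.dvd_12 ho hN
  have hp8 := Cfsg.Agent.H448.FprExc.le_of_ord hp (by norm_num) ho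
  obtain ⟨T, -, h1, h2, h3⟩ := Cfsg.Agent.H448.FprExc.torus12 hF hN hp (by omega) hpN
  have h4 : 2 ^ 2 ≤ q ^ 2 := Nat.pow_le_pow_left hq2 2
  have h5 := Nat.le_of_dvd hN0 hpN
  obtain ⟨x6, hx6, hb⟩ := uGood_torus (b := 2 * (p + 1)) h1 h2 (hpN.mul_left _) (fun h => by
      have := Nat.le_of_dvd (by norm_num) h
      omega) (Nat.mul_pos (by omega) hN0) h3 hi (by
    have h6 : q ^ 2 + q + 1 ≤ 2 * q ^ 2 := by nlinarith
    calc 2 * (p + 1) * ((q ^ 2 + q + 1) * N) ≤ 2 * (q ^ 4) * ((2 * q ^ 2) * q ^ 4) :=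
          Nat.mul_le_mul (Nat.mul_le_mul_left _ (by omega)) (Nat.mul_le_mul h6 (by omega))
      _ = 2 * (2 * q ^ 10) := by ring
      _ ≤ 2 * (q * q ^ 10) := Nat.mul_le_mul_left _ (Nat.mul_le_mul_right _ hq2)
      _ = 2 * q ^ 11 := by ring)
  obtain ⟨θ6, hs6', hk6, he6⟩ := Cfsg.Agent.S1077.result (K := K) chevE6 (by simp)
  obtain ⟨θ7, hs7', hk7, he7⟩ := Cfsg.Agent.S1077.result (K := K) chevE7 (by simp)
  have hperf := Cfsg.Agent.H65.UnivE.Typ.perfect Cfsg.Agent.H65.UnivE.typE6 K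
  -- the prime `l` divides the order of `E₆(q)`
  have hlq8 : l ∣ q ^ 8 - 1 := dvd_of_ord (by omega) (by rw [hlo])
  have hl6 : l ∣ Nat.card ↥(chevE6.group K) := by
    have h7 := Cfsg.Agent.S1063.result (F := K) hF
    have h8 : l ∣ Nat.gcd 3 (q - 1) * Nat.card ↥(chevE6.group K) := by
      rw [h7]
      exact Dvd.dvd.mul_right (Dvd.dvd.mul_right (Dvd.dvd.mul_left hlq8 _) _) _
    refine ((hl.dvd_mul).1 h8).resolve_left fun h9 => ?_
    have := Nat.le_of_dvd (by norm_num) (h9.trans (Nat.gcd_dvd_left _ _))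
    omega
  have hl7 : l ∣ Nat.card ↥(chevE7.group K) := by rw [← hyo]; exact orderOf_dvd_natCard y
  obtain ⟨P⟩ : Nonempty (Sylow l ↥(chevE7.group K)) := inferInstance
  have hP := syl_cyc (K := K) (c := (chevE7, [2, 6, 8, 10, 12, 14, 18])) (by simp) (p := l) (e := 8) (by rwa [hF])
    (by
      show ¬ l ∣ 2 * (6 * (8 * (10 * (12 * (14 * (18 * 1))))))
      intro h9
      have h10 : l ∣ 2 ^ 10 * 3 ^ 4 * 5 * 7 := by
        have : 2 * (6 * (8 * (10 * (12 * (14 * (18 * 1)))))) = 2 ^ 10 * 3 ^ 4 * 5 * 7 := by norm_num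
        rwa [this] at h9
      rcases (hl.dvd_mul).1 h10 with h11 | h11
      · rcases (hl.dvd_mul).1 h11 with h12 | h12
        · rcases (hl.dvd_mul).1 h12 with h13 | h13
          · have := Nat.le_of_dvd (by norm_num) (hl.dvd_of_dvd_pow h13); omega
          · have := Nat.le_of_dvd (by norm_num) (hl.dvd_of_dvd_pow h13); omega
        · have := Nat.le_of_dvd (by norm_num) h12; omega
      · have := Nat.le_of_dvd (by norm_num) h11; omega) hl7 (by rw [hF]; exact hlo) (by decide) P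
  exact growth_main hs6 (θ7.comp (hom emb67 K)) θ6 hs6' hk6.le hperf (f67_ne θ7 he7) hp hx6 hb hl6 hP hyo
    (hy p (by omega))

end Cfsg.Agent.H441.FPR.Grow
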