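import Cfsg.Agent.H400.FprOne
import Cfsg.Agent.H400.FprArith

/-!
# The Heisenberg lemma with a bound for the centraliser of `x` in `Q`
-/

set_option autoImplicit false
set_option linter.unusedSectionVars false
set_option linter.unusedVariables false

namespace Cfsg.Agent.H441.FPR.Heis

open CoxeterSystem Cfsg.Agent.ChevalleyStructure.CoxeterGeom Cfsg.Agent.Tits.Roots Cfsg.Agent.Tits.Core
  Cfsg.Agent.Tits.Exchange Cfsg.Agent.Nodes.Reps Cfsg.Agent.Nodes.BNOf Cfsg.Agent.Nodes.StabComb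
  Cfsg.Agent.Nodes.Bruhat Cfsg.Agent.Nodes.OppDec Cfsg.Agent.Nodes.PosPair Cfsg.Agent.Nodes.Coroot
  Cfsg.Agent.KFacts.RgdPar Cfsg.Agent.KFacts.RgdSL Cfsg.Agent.KFacts.RgdTI Cfsg.Agent.Nodes.LeviDec
open Cfsg.Agent.H400.TwoExc Cfsg.Agent.H400.Fpr
open Cfsg.Agent.H398.FPR (CommFull UGood Pair)
open Cfsg.Agent.H435.Fpr (PairM T3M_uGood)
open Subgroup MulAction
open scoped commutatorElement Pointwise

section Abs

variable {Y : Type*} [Group Y]

/-- **The Heisenberg lemma**, with the order of `C_Q(x)`. -/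
theorem heis_uGoodC [Finite Y] {r m p k q D M : ℕ} (hr : r.Prime) (hp : p.Prime) (hm : m = p ^ k) {Z Q : Subgroup Y}
    {x n h : Y} (H : HX r m Z Q x) (S : Sc q Z Q h) (hn : n ∈ Z ⊔ cc n Z) (hh : h ∈ Z ⊔ cc n Z)
    (hgen : Q ⊔ cc n Q = ⊤) (hxn : n * x = x * n) (hxh : h * x = x * h) (hx : ∃ w ∈ Q, x * w ≠ w * x)
    (hcard : Nat.card ↥(Q ⊓ centralizer {x}) < q ^ (D + 1) * Nat.card Z)
    (hM : ∀ t : ℕ, t ≠ 0 → r ^ t ≡ 1 [MOD p] → M ≤ r ^ t) (hM1 : 1 ≤ M) :
    UGood (D + 2) (M + D + 1) x := by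
  have hne := H.exists_ne hx
  have hP := H.pairM hr hp hm hne hM
  -- the centraliser
  let C : Subgroup Y := Q ⊓ centralizer {x}
  have hCmem : ∀ y, y ∈ C ↔ y ∈ Q ∧ y * x = x * y := fun y => by
    rw [mem_inf, mem_centralizer_singleton_iff]
  have hCC : ∀ y ∈ C, h * y * h⁻¹ ∈ C := by
    intro y hy
    rw [hCmem] at hy ⊢
    refine ⟨S.hQ y hy.1, ?_⟩
    have hxh' : Commute h x := hxh
    have hxy : Commute y x := hy.2
    exact ((hxh'.mul_left hxy).mul_left hxh'.inv_left)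
  have hZC : Z ≤ C := fun z hz => (hCmem z).2 ⟨H.c2.le hz, (H.xZ z hz).symm⟩
  obtain ⟨e, he, hgenC⟩ := S.gens H.c2 (inf_le_left : C ≤ Q) hCC D Z le_rfl hZC S.hZ hcard
  -- the family
  let R : Option (Option (Fin D)) → Subgroup Y := fun a => match a with
    | none => RQ H
    | some none => cc n (RQ H)
    | some (some i) => cc (e i) (cc n (RQ H))
  have hR : ∀ a, PairM M x (R a) := by
    rintro (_ | _ | i)
    · exact hP
    · exact pairM_cc hP hxn
    · exact pairM_cc (pairM_cc hP hxn) ((hCmem _).1 (he i)).2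
  have hcl : Subgroup.closure ({x} ∪ ⋃ a, (R a : Set Y)) = ⊤ := by
    set K := Subgroup.closure ({x} ∪ ⋃ a, (R a : Set Y)) with hK
    have hRK : ∀ a, R a ≤ K := by
      intro a y hy
      apply Subgroup.subset_closure
      exact Or.inr (Set.mem_iUnion.2 ⟨a, hy⟩)
    have h1 : RQ H ≤ K := hRK none
    have h2 : cc n (RQ H) ≤ K := hRK (some none)
    have h3 : ∀ i, cc (e i) (cc n (RQ H)) ≤ K := fun i => hRK (some (some i))
    have hZK : Z ≤ K := H.Z_le_RQ.trans h1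
    have hZK' : cc n Z ≤ K := (cc_mono H.Z_le_RQ).trans h2
    have hLK : Z ⊔ cc n Z ≤ K := sup_le hZK hZK'
    have hnK : n ∈ K := hLK hn
    have hhK : h ∈ K := hLK hh
    -- the conjugates of `h`
    have hhe : ∀ i, e i * h * (e i)⁻¹ ∈ K := by
      intro i
      have h4 : cc (e i) (Z ⊔ cc n Z) ≤ K := by
        unfold cc
        rw [Subgroup.map_sup]
        refine sup_le ?_ ((map_mono (map_mono H.Z_le_RQ)).trans (h3 i))
        rintro _ ⟨z, hz, rfl⟩
        have h5 := H.c2.cen z hz _ ((hCmem _).1 (he i)).1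
        show e i * z * (e i)⁻¹ ∈ K
        rw [← h5, mul_inv_cancel_right]
        exact hZK hz
      exact h4 (conj_mem_cc hh)
    -- `e i ∈ K`
    have heK : ∀ i, e i ∈ K := by
      intro i
      let V : Subgroup Y := K ⊓ Q
      have hV : ∀ y ∈ V, h * y * h⁻¹ ∈ V := fun y hy =>
        mem_inf.2 ⟨mul_mem (mul_mem hhK (mem_inf.1 hy).1) (inv_mem hhK), S.hQ y (mem_inf.1 hy).2⟩
      have hZV : Z ≤ V := le_inf hZK H.c2.le
      have heQ := ((hCmem _).1 (he i)).1
      have h4 : ⁅h, e i⁆ ∈ V := by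
        refine mem_inf.2 ⟨?_, ?_⟩
        · have h5 : ⁅h, e i⁆ = h * (e i * h * (e i)⁻¹)⁻¹ := by rw [commutatorElement_def]; group
          rw [h5]
          exact mul_mem hhK (inv_mem (hhe i))
        · rw [commutatorElement_def]
          exact mul_mem (S.hQ _ heQ) (inv_mem heQ)
      have hf : ∀ v ∈ Q, ⁅h, v⁆ ∈ Z → v ∈ Z := by
        intro v hv h5
        apply S.free 1 one_pos (by have := S.two; omega) v hv
        rwa [pow_one]
      exact (mem_inf.1 (H.c2.free_sub S.hZ hf hZV inf_le_right hV heQ h4)).1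
    have hCK : C ≤ K := hgenC K hZK (fun y hy => mul_mem (mul_mem hhK hy) (inv_mem hhK)) heK
    have hQK : Q ≤ K := by
      intro w hw
      obtain ⟨c, hc, v, hv, hxc, rfl⟩ := H.decomp hw
      exact mul_mem (hCK ((hCmem c).2 ⟨hc, hxc.symm⟩)) (h1 hv)
    rw [eq_top_iff, ← hgen]
    exact sup_le hQK (cc_le hnK hQK)
  have h4 := T3M_uGood hM1 R hR hcl
  have h5 : Fintype.card (Option (Option (Fin D))) = D + 2 := by
    rw [Fintype.card_option, Fintype.card_option, Fintype.card_fin]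
  rw [h5] at h4
  have h6 : M + (D + 2) - 1 = M + D + 1 := by omega
  rwa [h6] at h4

/-- a transversal -/
theorem exists_reps [Finite Y] {Z C : Subgroup Y} (hZC : Z ≤ C) {k : ℕ} (hk : Nat.card C ≤ k * Nat.card Z) (hk0 : 0 < k) :
    ∃ e : Fin k → Y, (∀ i, e i ∈ C) ∧ ∀ c ∈ C, ∃ i, (e i)⁻¹ * c ∈ Z := by
  have h1 : Nat.card (C ⧸ Z.subgroupOf C) ≤ k := by
    have h2 := Subgroup.card_eq_card_quotient_mul_card_subgroup (Z.subgroupOf C)
    rw [Nat.card_congr (Subgroup.subgroupOfEquivOfLe hZC).toEquiv] at h2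
    rw [h2] at hk
    exact Nat.le_of_mul_le_mul_right hk Nat.card_pos
  have hfin : Finite (C ⧸ Z.subgroupOf C) := inferInstance
  have := Fintype.ofFinite (C ⧸ Z.subgroupOf C)
  have hne : Nonempty (C ⧸ Z.subgroupOf C) := inferInstance
  obtain ⟨f⟩ : Nonempty ((C ⧸ Z.subgroupOf C) ↪ Fin k) := by
    rw [Function.Embedding.nonempty_iff_card_le, Fintype.card_fin, ← Nat.card_eq_fintype_card]
    exact h1
  refine ⟨fun i => ((Function.invFun f i).out : C), fun i => ((Function.invFun f i).out : C).2, fun c hc => ?_⟩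
  refine ⟨f (QuotientGroup.mk ⟨c, hc⟩), ?_⟩
  have h2 : Function.invFun f (f (QuotientGroup.mk (⟨c, hc⟩ : C))) = (QuotientGroup.mk (⟨c, hc⟩ : C) : C ⧸ Z.subgroupOf C) :=
    Function.leftInverse_invFun f.injective _
  show (((Function.invFun f (f (QuotientGroup.mk (⟨c, hc⟩ : C)))).out : C) : Y)⁻¹ * c ∈ Z
  rw [h2]
  have h3 : ((QuotientGroup.mk (⟨c, hc⟩ : C) : C ⧸ Z.subgroupOf C)).out⁻¹ * ⟨c, hc⟩ ∈ Z.subgroupOf C := by
    rw [← QuotientGroup.eq, QuotientGroup.out_eq']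
  exact h3

/-- **All conjugates under `C_Q(x)`.** -/
theorem heis_small [Finite Y] {r m p k d M : ℕ} (hr : r.Prime) (hp : p.Prime) (hm : m = p ^ k) {Z Q : Subgroup Y}
    {x n : Y} (H : HX r m Z Q x) (hn : n ∈ Z ⊔ cc n Z) (hs : IsSimpleGroup Y)
    (hgen : Q ⊔ cc n Q = ⊤) (hxn : n * x = x * n) (hx : ∃ w ∈ Q, x * w ≠ w * x)
    (hcard : Nat.card ↥(Q ⊓ centralizer {x}) ≤ d * Nat.card Z) (hd : 0 < d)
    (hM : ∀ t : ℕ, t ≠ 0 → r ^ t ≡ 1 [MOD p] → M ≤ r ^ t) (hM1 : 1 ≤ M) :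
    UGood (d + 1) (M + d) x := by
  have hne := H.exists_ne hx
  have hP := H.pairM hr hp hm hne hM
  let C : Subgroup Y := Q ⊓ centralizer {x}
  have hCmem : ∀ y, y ∈ C ↔ y ∈ Q ∧ y * x = x * y := fun y => by
    rw [mem_inf, mem_centralizer_singleton_iff]
  have hZC : Z ≤ C := fun z hz => (hCmem z).2 ⟨H.c2.le hz, (H.xZ z hz).symm⟩
  obtain ⟨e, he, hrep⟩ := exists_reps hZC hcard hd
  let R : Option (Fin d) → Subgroup Y := fun a => match a with
    | none => RQ H
    | some i => cc (e i) (cc n (RQ H))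
  have hR : ∀ a, PairM M x (R a) := by
    rintro (_ | i)
    · exact hP
    · exact pairM_cc (pairM_cc hP hxn) ((hCmem _).1 (he i)).2
  have hcl : Subgroup.closure ({x} ∪ ⋃ a, (R a : Set Y)) = ⊤ := by
    set K := Subgroup.closure ({x} ∪ ⋃ a, (R a : Set Y)) with hK
    have hRK : ∀ a, R a ≤ K := by
      intro a y hy
      apply Subgroup.subset_closure
      exact Or.inr (Set.mem_iUnion.2 ⟨a, hy⟩)
    have hxK : x ∈ K := Subgroup.subset_closure (Or.inl rfl)
    have h1 : RQ H ≤ K := hRK none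
    have h3 : ∀ i, cc (e i) (cc n (RQ H)) ≤ K := fun i => hRK (some i)
    have hZK : Z ≤ K := H.Z_le_RQ.trans h1
    -- all conjugates
    have h4 : ∀ c ∈ C, cc c (cc n (RQ H)) ≤ K := by
      intro c hc
      obtain ⟨i, hi⟩ := hrep c hc
      have h5 : c = ((e i)⁻¹ * c) * e i := by
        have h6 := H.c2.cen _ hi _ ((hCmem _).1 (he i)).1
        rw [h6, mul_inv_cancel_left]
      rw [h5, ← cc_cc]
      exact cc_le (hZK hi) (h3 i)
    have h2 : cc n (RQ H) ≤ K := by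
      have := h4 1 (one_mem _)
      rwa [cc_one] at this
    have hZK' : cc n Z ≤ K := (cc_mono H.Z_le_RQ).trans h2
    have hnK : n ∈ K := (sup_le hZK hZK') hn
    -- `C` normalises `K`
    have hCK : ∀ c ∈ C, ∀ y ∈ K, c * y * c⁻¹ ∈ K := by
      intro c hc
      have h5 : K ≤ K.comap (MulAut.conj c).toMonoidHom := by
        rw [hK, Subgroup.closure_le, ← hK]
        rintro y (hy | hy)
        · rw [Set.mem_singleton_iff] at hy
          show c * y * c⁻¹ ∈ K
          rw [hy, ((hCmem c).1 hc).2, mul_inv_cancel_right]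
          exact hxK
        · obtain ⟨a, ha⟩ := Set.mem_iUnion.1 hy
          show c * y * c⁻¹ ∈ K
          rcases a with _ | i
          · have ha' : y ∈ RQ H := ha
            have h6 : c * y * c⁻¹ = ⁅c, y⁆ * y := by rw [commutatorElement_def]; group
            rw [h6]
            exact mul_mem (hZK (H.c2.com c ((hCmem c).1 hc).1 y (H.RQ_le ha'))) (h1 ha')
          · have ha' : y ∈ cc (e i) (cc n (RQ H)) := ha
            have h6 := h4 (c * e i) (mul_mem hc (he i))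
            rw [← cc_cc] at h6
            exact h6 (conj_mem_cc ha')
      exact fun y hy => h5 hy
    have hfinK : Finite K := inferInstance
    have hnorm : K.Normal := by
      rw [← Subgroup.normalizer_eq_top_iff, eq_top_iff, ← hgen]
      have hQN : Q ≤ normalizer (K : Set Y) := by
        intro w hw
        obtain ⟨c, hc, v, hv, hxc, rfl⟩ := H.decomp hw
        exact mul_mem (norm_iff.2 (hCK c ((hCmem c).2 ⟨hc, hxc.symm⟩))) (Subgroup.le_normalizer (h1 hv))
      exact sup_le hQN (cc_le (Subgroup.le_normalizer hnK) hQN)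
    rcases hs.eq_bot_or_eq_top_of_normal K hnorm with h5 | h5
    · exfalso
      rw [h5, mem_bot] at hxK
      obtain ⟨w, -, hw⟩ := hx
      apply hw
      rw [hxK, one_mul, mul_one]
    · exact h5
  have h4 := T3M_uGood hM1 R hR hcl
  have h5 : Fintype.card (Option (Fin d)) = d + 1 := by
    rw [Fintype.card_option, Fintype.card_fin]
  rw [h5] at h4
  have h6 : M + (d + 1) - 1 = M + d := by omega
  rwa [h6] at h4

end Abs

variable {I W Y : Type*} [Fintype I] [DecidableEq I] [Group W] [Group Y] {M : CoxeterMatrix I}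
  {cs : CoxeterSystem M W} {A : I → I → ℤ} {h : IsCartan M A} {p : ℕ} {T : Subgroup Y} {n : I → Y}
  {X : (I → ℤ) → Subgroup Y}

/-- **The input of the Heisenberg lemmas** for a long root. -/
theorem rgd_input {R : RGD cs h p T n X} {r : I → ℤ} [Finite W] [Finite Y] [Fact p.Prime] (H : Hs R r)
    (hs : IsSimpleGroup Y) (hcen : Subgroup.center Y = ⊥) (hG1 : Cfsg.Agent.Nodes.RGDLib.G1 cs h X = ⊤) {ℓ k : ℕ}
    (hℓ : ℓ.Prime) (hℓp : ℓ ≠ p) {x : Y} (hx : x ∈ L0 cs h X r) (hxk : x ^ ℓ ^ k = 1) (hx1 : x ≠ 1)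
    (hQp : IsPGroup p (QQ cs h X r)) :
    ∃ m : Y, HX p (ℓ ^ k) (X r) (QQ cs h X r) x ∧ m ∈ X r ⊔ cc m (X r) ∧ cc m (X r) = X (-r) ∧
      QQ cs h X r ⊔ cc m (QQ cs h X r) = ⊤ ∧ m * x = x * m ∧ ∃ w ∈ QQ cs h X r, x * w ≠ w * x := by
  have hp : p.Prime := Fact.out
  have hr := H.L.root
  obtain ⟨m, hm, hmX⟩ := exists_refl R hr
  have hcj : cj m (X r) = X (-r) := by
    rw [hmX r hr, cpr_self cs h hr]
    congr 1
    rw [two_smul]; abel
  have hcjQ := cj_QQ (R := R) hr hmX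
  have HXx : HX p (ℓ ^ k) (X r) (QQ cs h X r) x := by
    refine ⟨c2_of_hs H, fun a ha haz z hz => H.surj ha haz hz, hQp, hxk, ?_, ?_, L0_norm H hx⟩
    · intro s
      exact Nat.Coprime.pow _ _ ((Nat.coprime_primes hℓ hp).2 hℓp)
    · intro z hz
      exact L0_comm H hx (Subgroup.mem_sup_left hz)
  have hgen : QQ cs h X r ⊔ cc m (QQ cs h X r) = ⊤ := by
    rw [cc_eq_cj, hcjQ]
    exact sup_QQ_eq_top H hs hG1
  have hmx : m * x = x * m := (L0_comm H hx hm).symm
  refine ⟨m, HXx, ?_, hcj, hgen, hmx, ?_⟩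
  · rw [cc_eq_cj, hcj]; exact hm
  · by_contra hcon
    push Not at hcon
    apply hx1
    have h1 : (⊤ : Subgroup Y) ≤ Subgroup.centralizer {x} := by
      rw [← hgen]
      have h2 : QQ cs h X r ≤ Subgroup.centralizer {x} := fun w hw =>
        Subgroup.mem_centralizer_singleton_iff.2 (hcon w hw).symm
      exact sup_le h2 (cc_le (Subgroup.mem_centralizer_singleton_iff.2 hmx) h2)
    rw [← Subgroup.mem_bot, ← hcen, Subgroup.mem_center_iff]
    intro y
    exact Subgroup.mem_centralizer_singleton_iff.1 (h1 (Subgroup.mem_top y))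

end Cfsg.Agent.H441.FPR.Heis
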