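import Cfsg.Agent.H441.FPR.HeisC
import Cfsg.Agent.H400.TwoExcTabF

/-!
# The Heisenberg lemma for the Chevalley groups: the data
-/

set_option autoImplicit false
set_option linter.unusedSectionVars false
set_option linter.unusedVariables false

namespace Cfsg.Agent.H441.FPR.Heis

open CoxeterSystem Cfsg.Agent.ChevalleyStructure.CoxeterGeom Cfsg.Agent.Tits.Roots Cfsg.Agent.Tits.Core
  Cfsg.Agent.Nodes.Reps Cfsg.Agent.Nodes.BNOf Cfsg.Agent.Nodes.Coroot Cfsg.Agent.Nodes.LeviDec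
  Cfsg.Agent.Nodes.PosPair Cfsg.Agent.Nodes.StabComb Cfsg.Agent.Nodes.KindChev Cfsg.Agent.KFacts.RgdCent
  Cfsg.Agent.Nodes.Bruhat Cfsg.Agent.Nodes.OppDec Cfsg.Agent.Tits.Exchange
  Cfsg.Agent.KFacts.RgdPar Cfsg.Agent.KFacts.RgdSL Cfsg.Agent.KFacts.RgdTI Cfsg.Agent.Nodes.RGDChev
  Cfsg.Agent.ChevalleyStructure.CoxeterGeomTypes
open Cfsg.Lie Cfsg.Agent.ChevalleyStructure Cfsg.Agent.ChevalleyStructure.Elts Cfsg.Agent.ChevalleyStructure.NPerm
open Cfsg.Agent.KFacts.RgdChevCoord Cfsg.Agent.Nodes.ChevCls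
open Cfsg.Agent.H400.TwoExc Cfsg.Agent.H400.Fpr
open Cfsg.Agent.H398.FPR (UGood)

universe u

/-- the data of a long root -/
structure HB {D : ChevalleyDatum} {l : ℕ} {M : CoxeterMatrix (Fin l)} (hp : IsType D l M) (K : Type u) [Field K]
    [Fintype K] {W : Type} [Group W] [Finite W] (cs : CoxeterSystem M W) (p : ℕ) [Fact p.Prime] [CharP K p]
    (r : Fin l → ℤ) (k : ℕ) (ex : List (ℕ × ℕ)) : Prop where
  lr : LR (rgd (K := K) hp cs p) r
  cardX : Nat.card (XX D l K r) = Fintype.card K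
  cardQ : Nat.card (QQ cs hp.isCartan (XX D l K) r) = Fintype.card K ^ (2 * k + 1)
  index : (PS (TT D K) (XX D l K) (Ge cs hp.isCartan r)).index =
    (ex.map fun z => Fintype.card K ^ z.1 + Fintype.card K ^ z.2).sum
  long : ∃ (i : Fin l) (w : W), rep cs hp.isCartan w (sr i) = r ∧
    ∀ s ∈ Gt cs hp.isCartan (sr i), s ≠ sr i → cpr cs hp.isCartan s (sr i) = 1

/-- the data of a long root, with the Heisenberg group -/
structure HD {D : ChevalleyDatum} {l : ℕ} {M : CoxeterMatrix (Fin l)} (hp : IsType D l M) (K : Type u) [Field K]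
    [Fintype K] {W : Type} [Group W] [Finite W] (cs : CoxeterSystem M W) (p : ℕ) [Fact p.Prime] [CharP K p]
    (r : Fin l → ℤ) (k : ℕ) (ex : List (ℕ × ℕ)) : Prop extends HB hp K cs p r k ex where
  hs : Hs (rgd (K := K) hp cs p) r

section SL

variable {D : ChevalleyDatum} {l : ℕ} {M : CoxeterMatrix (Fin l)} (hp : IsType D l M) {K : Type u} [Field K]
  [Fintype K]

theorem hd_SL {W : Type} [Group W] [Finite W] (cs : CoxeterSystem M W) (p : ℕ) [Fact p.Prime] [CharP K p]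
    (h4 : ∀ i j, M i j ≠ 4) (h6 : ∀ i j, M i j ≠ 6)
    {CA : List (List ℤ)} {dl : List ℤ} {P : List (List ℤ × List ℤ × ℕ)}
    (hA : ∀ i : Fin l, CA.getD i [] = List.ofFn (cartanOf D l i))
    (hdl : ∀ i : Fin l, dl.getD i 0 = 1) (hck : chkT l CA dl (fun _ => 1) P = true) {rl : List ℤ}
    (hdm : domL l CA P 2 = [rl]) {k : ℕ} (hgt : cntF P (fun z => decide (0 < z)) rl = 2 * k + 1) (i₀ : Fin l)
    (hi₀ : dotL (CA.getD i₀ []) rl = 1) {ex : List (ℕ × ℕ)} (hex : expF P 2 = ex) :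
    HD hp K cs p (toV rl) k ex := by
  have R := rgd (K := K) hp cs p
  have hG1 := G1_eq_top (K := K) hp cs
  have hs : SL cs hp.isCartan := fun _ _ hx hy => Nodes.SimplyLaced.cpr_symm cs _ h4 h6 hx hy
  have hG : GG cs hp.isCartan (TT D K) (XX D l K) = ⊤ := KFacts.RgdRigid.GG_eq_top hG1
  obtain ⟨H, F⟩ := of_chkT hA hck (e := fun _ => 1) (fun _ _ => rfl)
  set d : Fin l → ℤ := toV dl with hd
  have hd1 : d = fun _ => 1 := by
    funext i; exact hdl i
  have hAs : ∀ i j, cartanOf D l i j = cartanOf D l j i := by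
    intro i j
    have h1 := hs (sr j) (sr i) (isRoot_sr cs hp.isCartan j) (isRoot_sr cs hp.isCartan i)
    rw [cpr_sr, cpr_sr] at h1
    have h2 : ∀ a b : Fin l, pairing (cartanOf D l) a (sr b) = cartanOf D l a b := by
      intro a b
      unfold pairing sr
      simp [Pi.single_apply]
    rwa [h2, h2] at h1
  have hdA : ∀ i j, d i * cartanOf D l i j = d j * cartanOf D l j i := by
    intro i j
    rw [hd1, one_mul, one_mul, hAs]
  have hqr : ∀ s, IsRoot cs hp.isCartan s → qf (cartanOf D l) d s s = 2 := by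
    rintro _ ⟨w, i, rfl⟩
    rw [qf_root cs hp.isCartan hdA, hd1, mul_one]
  -- the dominant root
  have hrl : rl ∈ domL l CA P 2 := by rw [hdm]; exact List.mem_singleton_self _
  unfold domL at hrl
  obtain ⟨pr, hpr, hpe⟩ := List.mem_map.1 hrl
  rw [List.mem_filter, Bool.and_eq_true, List.all_eq_true] at hpr
  obtain ⟨hprP, hpr1, -⟩ := hpr
  set r : Fin l → ℤ := toV rl with hr
  have hrL : r ∈ P.map fun p => (toV p.1 : Fin l → ℤ) := List.mem_map.2 ⟨pr, hprP, by rw [hpe]⟩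
  have hrr : IsRoot cs hp.isCartan r := H.isRoot hrL
  have hrlen : rl.length = l := by rw [← hpe]; exact (F.row pr hprP).1
  have hr1 : ∀ i, 0 ≤ pairing (cartanOf D l) i r := by
    intro i
    have h1 := hpr1 i (List.mem_range.2 i.2)
    rw [decide_eq_true_iff, hpe] at h1
    rw [hr, pairing_toV hA i hrlen]
    exact h1
  have hN : qf (cartanOf D l) d r r = 2 := hqr r hrr
  have hdom := dom_of_chk hA F hdm hN
  have hdr : ∀ i, 0 ≤ cpr cs hp.isCartan (sr i) r := by
    intro i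
    rw [hs _ _ (isRoot_sr cs hp.isCartan i) hrr, cpr_sr]; exact hr1 i
  have horb : ∀ s, IsRoot cs hp.isCartan s → ∃ w : W, rep cs hp.isCartan w r = s := by
    intro s hs'
    exact (orbit_iff H hdA hdom hs').2 (by rw [hqr s hs', hN])
  have h1r : cpr cs hp.isCartan r (sr i₀) = 1 := by
    rw [cpr_sr, hr, pairing_toV hA i₀ hrlen, hi₀]
  have hL : ∀ a, IsRoot cs hp.isCartan a → LR R a := by
    refine lr_all R hs fun a ha => ?_
    obtain ⟨w, rfl⟩ := horb a ha
    exact ⟨rep cs hp.isCartan w (sr i₀), (isRoot_sr cs hp.isCartan i₀).act w, by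
      rw [cpr_rep cs hp.isCartan w _ (isRoot_sr cs hp.isCartan i₀)]; exact h1r⟩
  have hcard : ∀ s, IsRoot cs hp.isCartan s → Nat.card (XX D l K s) = Fintype.card K := by
    rintro _ ⟨w, i, rfl⟩
    rw [Nodes.CardSup.card_X_rep R w (isRoot_sr cs hp.isCartan i),
      Nat.card_congr (Subgroup.subgroupOfEquivOfLe (XV_le_group hp _)).toEquiv, XV_sr hp i,
      card_rootSubgroup hp (NPerm.simple_lt hp.inList (lt_rank hp i)), Nat.card_eq_fintype_card]
  have hcard' : ∀ t ∈ P.map (fun p => (toV p.1 : Fin l → ℤ)), Nat.card (XX D l K t) = Fintype.card K ^ 1 := by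
    intro t ht
    rw [hcard t (H.isRoot ht), pow_one]
  have hindex := index_tab (R := R) hG H hdA (hL r hrr) (by rw [hN]; norm_num) hr1 hdom (q := Fintype.card K)
    (fun _ => 1) hcard'
  rw [F.sum_eq, hN, hex] at hindex
  refine ⟨⟨hL r hrr, hcard r hrr, ?_, hindex, ?_⟩, Hs.of_SL R hs hrr (isRoot_sr cs hp.isCartan i₀) h1r⟩
  · rw [card_QQ R H hdA hrr (by rw [hN]; norm_num) hdr (fun _ => 1) hcard', ← hgt]
    congr 1
    have := F.cnt_eq hprP (fun z => decide (0 < z))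
    rw [hpe] at this
    exact this
  · obtain ⟨w, hw⟩ := horb (sr i₀) (isRoot_sr cs hp.isCartan i₀)
    refine ⟨i₀, w⁻¹, ?_, ?_⟩
    · rw [← hw, ← rep_mul_apply, inv_mul_cancel, map_one, Module.End.one_apply]
    · intro s hs' hsr
      have h0 := hs'.2
      have h2 : s ≠ -sr i₀ := by
        rintro rfl
        rw [cpr_neg_left _ (isRoot_sr cs hp.isCartan i₀), cpr_self cs hp.isCartan (isRoot_sr cs hp.isCartan i₀)] at h0
        omega
      have h3 := hs.abs_le hs'.1 (isRoot_sr cs hp.isCartan i₀) hsr h2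
      omega

theorem hd_E6 {W : Type} [Group W] [Finite W] (cs : CoxeterSystem CoxeterMatrix.E₆ W) (p : ℕ) [Fact p.Prime] [CharP K p] :
    HD (D := chevE6) (l := 6) (M := CoxeterMatrix.E₆) (by simp [IsType, typeList]) K cs p (toV [1, 2, 2, 3, 2, 1]) 10 exE6 :=
  hd_SL _ cs p ne_E6.1 ne_E6.2 (CA := CAE6) (by decide +kernel) (dl := dlE6) (by decide +kernel)
    chkE6 domE6 (k := 10) gtE6 1 (by decide +kernel) expE6

theorem hd_E7 {W : Type} [Group W] [Finite W] (cs : CoxeterSystem CoxeterMatrix.E₇ W) (p : ℕ) [Fact p.Prime] [CharP K p] :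
    HD (D := chevE7) (l := 7) (M := CoxeterMatrix.E₇) (by simp [IsType, typeList]) K cs p (toV [2, 2, 3, 4, 3, 2, 1]) 16 exE7 :=
  hd_SL _ cs p ne_E7.1 ne_E7.2 (CA := CAE7) (by decide +kernel) (dl := dlE7) (by decide +kernel)
    chkE7 domE7 (k := 16) gtE7 0 (by decide +kernel) expE7

theorem hd_E8 {W : Type} [Group W] [Finite W] (cs : CoxeterSystem CoxeterMatrix.E₈ W) (p : ℕ) [Fact p.Prime] [CharP K p] :
    HD (D := chevE8) (l := 8) (M := CoxeterMatrix.E₈) (by simp [IsType, typeList]) K cs p (toV [2, 3, 4, 6, 5, 4, 3, 2]) 28 exE8 :=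
  hd_SL _ cs p ne_E8.1 ne_E8.2 (CA := CAE8) (by decide +kernel) (dl := dlE8) (by decide +kernel)
    chkE8 domE8 (k := 28) gtE8 7 (by decide +kernel) expE8

end SL

section GRow

variable {D : ChevalleyDatum} {l : ℕ} {M : CoxeterMatrix (Fin l)} (hp : IsType D l M) {K : Type u} [Field K]
  [Fintype K]

theorem hb_GR {W : Type} [Group W] [Finite W] (cs : CoxeterSystem M W) (p : ℕ) [Fact p.Prime] [CharP K p]
    {CA : List (List ℤ)} {dl : List ℤ} {P : List (List ℤ × List ℤ × ℕ)}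
    (hA : ∀ i : Fin l, CA.getD i [] = List.ofFn (cartanOf D l i))
    (hck : chkT l CA dl (fun _ => 1) P = true) {rl : List ℤ} {N : ℤ}
    (hdm : domL l CA P N = [rl]) {k : ℕ} (hgt : cntF P (fun z => decide (0 < z)) rl = 2 * k + 1)
    (hN : chkN D = true) (GG' : GR cs hp.isCartan (toV dl) (toV rl))
    (hqN : qf (cartanOf D l) (toV dl) (toV rl) (toV rl) = N) (i₀ : Fin l)
    (hi₀ : qf (cartanOf D l) (toV dl) (sr i₀) (sr i₀) = N)
    {ex : List (ℕ × ℕ)} (hex : expF P N = ex) :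
    HB hp K cs p (toV rl) k ex := by
  have R := rgd (K := K) hp cs p
  have hG1 := G1_eq_top (K := K) hp cs
  have hG : GG cs hp.isCartan (TT D K) (XX D l K) = ⊤ := KFacts.RgdRigid.GG_eq_top hG1
  obtain ⟨H, F⟩ := of_chkT hA hck (e := fun _ => 1) (fun _ _ => rfl)
  have hrl : rl ∈ domL l CA P N := by rw [hdm]; exact List.mem_singleton_self _
  unfold domL at hrl
  obtain ⟨pr, hpr, hpe⟩ := List.mem_map.1 hrl
  have hprP := List.mem_of_mem_filter hpr
  have hpe : pr.1 = rl := hpe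
  have hdom := dom_of_chk hA F hdm hqN
  set d : Fin l → ℤ := toV dl with hd
  set r : Fin l → ℤ := toV rl with hr
  have hcard : ∀ s, IsRoot cs hp.isCartan s → Nat.card (XX D l K s) = Fintype.card K := by
    rintro _ ⟨w, i, rfl⟩
    rw [Nodes.CardSup.card_X_rep R w (isRoot_sr cs hp.isCartan i),
      Nat.card_congr (Subgroup.subgroupOfEquivOfLe (XV_le_group hp _)).toEquiv, XV_sr hp i,
      card_rootSubgroup hp (NPerm.simple_lt hp.inList (lt_rank hp i)), Nat.card_eq_fintype_card]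
  have hcard' : ∀ t ∈ P.map (fun p => (toV p.1 : Fin l → ℤ)), Nat.card (XX D l K t) = Fintype.card K ^ 1 := by
    intro t ht
    rw [hcard t (H.isRoot ht), pow_one]
  have horb : ∀ s, IsRoot cs hp.isCartan s → qf (cartanOf D l) d s s = qf (cartanOf D l) d r r →
      ∃ w : W, rep cs hp.isCartan w r = s := fun s hs hs' =>
    (orbit_iff H GG'.hd hdom hs).2 hs'
  have hLR : LR R r := by
    refine ⟨GG'.rr, ?_⟩
    rintro x hx h0 ⟨u, hu'⟩ hu ⟨v, hv'⟩ hv
    refine Subtype.ext (commX hp hN hx GG'.rr ?_ (GG'.add_not_root hx h0) hu hv)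
    rintro rfl
    rw [cpr_neg cs hp.isCartan _ GG'.rr, cpr_self cs hp.isCartan GG'.rr] at h0
    omega
  have hindex := index_tab (R := R) hG H GG'.hd hLR (GG'.qf_pos GG'.rr) GG'.dom hdom (q := Fintype.card K)
    (fun _ => 1) hcard'
  rw [F.sum_eq, hqN, hex] at hindex
  refine ⟨hLR, hcard r GG'.rr, ?_, hindex, ?_⟩
  · rw [card_QQ R H GG'.hd GG'.rr (GG'.qf_pos GG'.rr) GG'.hdr (fun _ => 1) hcard', ← hgt]
    congr 1
    have := F.cnt_eq hprP (fun z => decide (0 < z))
    rw [hpe] at this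
    exact this
  · obtain ⟨w, hw⟩ := horb (sr i₀) (isRoot_sr cs hp.isCartan i₀) (by rw [hi₀, hqN])
    refine ⟨i₀, w⁻¹, ?_, ?_⟩
    · rw [← hw, ← rep_mul_apply, inv_mul_cancel, map_one, Module.End.one_apply]
    · intro s hs' hsr
      have h1 : rep cs hp.isCartan w⁻¹ s ≠ r := by
        intro h2
        apply hsr
        rw [← hw, ← h2, ← rep_mul_apply, mul_inv_cancel, map_one, Module.End.one_apply]
      have h3 := hs'.2
      rw [← hw] at h3 ⊢
      have h4 : cpr cs hp.isCartan s (rep cs hp.isCartan w r) = cpr cs hp.isCartan (rep cs hp.isCartan w⁻¹ s) r := by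
        rw [cpr_rep_left w⁻¹ s GG'.rr, inv_inv]
      rw [h4] at h3 ⊢
      exact GG'.cpr_one (hs'.1.act _) h1 h3

theorem isType_F4 : IsType chevF4 4 CoxeterMatrix.F₄ := by simp [IsType, typeList]

theorem hb_F4 {W : Type} [Group W] [Finite W] (cs : CoxeterSystem CoxeterMatrix.F₄ W) (p : ℕ) [Fact p.Prime] [CharP K p] :
    HB isType_F4 K cs p (toV [2, 4, 3, 2]) 7 exF4c :=
  hb_GR isType_F4 cs p (CA := CAF4c) (by decide +kernel) chkF4c domF4c (k := 7) gtF4c chkNF
    (grF cs isType_F4) (by decide +kernel) 3 (by decide +kernel) expF4c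

theorem hd_F4 {W : Type} [Group W] [Finite W] (cs : CoxeterSystem CoxeterMatrix.F₄ W) (p : ℕ) [Fact p.Prime] [CharP K p]
    (h2 : (2 : K) ≠ 0) : HD isType_F4 K cs p (toV [2, 4, 3, 2]) 7 exF4c := by
  refine ⟨hb_F4 cs p, ?_⟩
  have h1 : vec chevF4 4 47 = toV [2, 4, 3, 2] := by decide +kernel
  have h3 := grF cs isType_F4
  rw [← h1] at h3 ⊢
  exact (giChev isType_F4 chkNF chkSF (by decide +kernel) (by exact_mod_cast h2) h3 p).hs

end GRow

end Cfsg.Agent.H441.FPR.Heis
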