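import Cfsg.Agent.H441.FPR.HeisW

/-!
# The Heisenberg lemma for a long root of `F₄(q)`, `q` even (after `Cfsg.Agent.H400.TwoExcHeis`, `FprRgd`)
-/

set_option autoImplicit false
set_option linter.unusedSectionVars false
set_option linter.unusedVariables false

namespace Cfsg.Agent.H441.FPR.Heis

open CoxeterSystem Cfsg.Agent.ChevalleyStructure.CoxeterGeom Cfsg.Agent.Tits.Roots Cfsg.Agent.Tits.Core
  Cfsg.Agent.Tits.Exchange Cfsg.Agent.Nodes.Reps Cfsg.Agent.Nodes.BNOf Cfsg.Agent.Nodes.StabComb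
  Cfsg.Agent.Nodes.Bruhat Cfsg.Agent.Nodes.OppDec Cfsg.Agent.Nodes.PosPair Cfsg.Agent.Nodes.Coroot
  Cfsg.Agent.KFacts.RgdPar Cfsg.Agent.KFacts.RgdSL Cfsg.Agent.KFacts.RgdTI Cfsg.Agent.Nodes.LeviDec
open Cfsg.Agent.H400.TwoExc Cfsg.Agent.H400.Fpr
open Cfsg.Agent.H398.FPR (CommFull UGood Pair)
open Cfsg.Agent.H435.Fpr (PairM T3M_uGood)
open scoped commutatorElement

variable {I W Y : Type*} [Fintype I] [DecidableEq I] [Group W] [Group Y] {M : CoxeterMatrix I}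
  {cs : CoxeterSystem M W} {A : I → I → ℤ} {h : IsCartan M A} {p : ℕ} {T : Subgroup Y} {n : I → Y}
  {X : (I → ℤ) → Subgroup Y}

/-- the hypotheses on the long root `r`; the root groups of `Gt r \\ S` are central in `Q` -/
structure Hv (R : RGD cs h p T n X) (r : I → ℤ) (S : Set (I → ℤ)) : Prop where
  L : LR R r
  sub : ∀ s ∈ Gt cs h r, s ≠ r → r - s ∈ Gt cs h r
  com : ∀ s ∈ Gt cs h r, ∀ t ∈ Gt cs h r, s ≠ r → t ≠ r → s + t ≠ r → ∀ u ∈ X s, ∀ v ∈ X t, u * v = v * u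
  cen : ∀ s ∈ Gt cs h r, s ≠ r → ∀ u ∈ X s, ∀ v ∈ X (r - s), ⁅u, v⁆ ∈ X r
  SG : ∀ s ∈ S, s ∈ Gt cs h r ∧ s ≠ r
  cenS : ∀ s ∈ Gt cs h r, s ∉ S → ∀ t ∈ Gt cs h r, ∀ u ∈ X s, ∀ v ∈ X t, u * v = v * u
  sur : ∀ s ∈ S, ∀ u ∈ X s, u ≠ 1 → ∀ w ∈ X r, ∃ v ∈ X (r - s), ⁅u, v⁆ = w

namespace Hv

variable {R : RGD cs h p T n X} {r : I → ℤ} {Sg : Set (I → ℤ)} (H : Hv R r Sg) [Finite W]

include H

theorem mem_Gt : r ∈ Gt cs h r := ⟨H.L.root, by rw [cpr_self cs h H.L.root]; norm_num⟩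

theorem X_le {s : I → ℤ} (hs : s ∈ Gt cs h r) : X s ≤ QQ cs h X r := RGD.le_Sup hs

theorem X_le_QQ : X r ≤ QQ cs h X r := H.X_le H.mem_Gt

theorem comm_r {z v : Y} (hz : z ∈ X r) {s : I → ℤ} (hs : s ∈ Gt cs h r) (hv : v ∈ X s) : z * v = v * z :=
  (H.L.comm s hs.1 hs.2.le v hv z hz).symm

theorem central {z g : Y} (hz : z ∈ X r) (hg : g ∈ QQ cs h X r) : z * g = g * z := by
  refine (H.L.comm' (RGD.Sup_mono (S' := Ge cs h r) (fun s hs => ⟨hs.1, hs.2.le⟩) hg) hz).symm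

theorem comm_mem {a b : Y} (ha : a ∈ QQ cs h X r) (hb : b ∈ QQ cs h X r) : ⁅a, b⁆ ∈ X r := by
  refine comm_mem_of_gen (fun s : Gt cs h r => X s.1) (fun z hz s v hv => H.comm_r hz s.2 hv) ?_ a ha b hb
  rintro ⟨s, hs⟩ ⟨t, ht⟩ u hu v hv
  have h1 : u * v = v * u → ⁅u, v⁆ ∈ X r := by
    intro h1
    rw [commutatorElement_eq_one_iff_mul_comm.2 h1]; exact one_mem _
  by_cases hsr : s = r
  · subst hsr
    exact h1 (H.comm_r hu ht hv)
  by_cases htr : t = r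
  · subst htr
    exact h1 (H.comm_r hv hs hu).symm
  by_cases hst : s + t = r
  · have h2 : t = r - s := by rw [← hst]; abel
    subst h2
    exact H.cen s hs hsr u hu v hv
  · exact h1 (H.com s hs t ht hsr htr hst u hu v hv)

/-- an element outside `X r` has a non-trivial component -/
theorem exists_comp {E : Subgroup Y} (hrE : X r ≤ E) (hE : E ≤ QQ cs h X r) {S : Set (I → ℤ)}
    (hS : ∀ s ∈ Gt cs h r, s ≠ r → s ∉ S → X s ≤ E) (hSG : S ⊆ Gt cs h r) {y : Y}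
    (hy : y ∈ QQ cs h X r) (hyE : y ∉ E) :
    ∃ s ∈ S, ∃ x ∈ X s, x ≠ 1 ∧ ∃ y' ∈ RGD.Sup X (S \ {s}) ⊔ E, y = x * y' := by
  classical
  have hfin : S.Finite := (RGD.finite_roots (cs := cs) (h := h)).subset fun a ha => (hSG ha).1
  have h1 : (⨆ i ∈ hfin.toFinset, (fun i => if i ∈ S then X i else ⊥) i) ⊔ E = QQ cs h X r := by
    apply le_antisymm
    · refine sup_le (iSup₂_le fun i hi => ?_) hE
      rw [Set.Finite.mem_toFinset] at hi
      show (if i ∈ S then X i else ⊥) ≤ _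
      rw [if_pos hi]
      exact H.X_le (hSG hi)
    · refine RGD.Sup_le fun s hs => ?_
      by_cases hsr : s = r
      · subst hsr; exact le_trans hrE le_sup_right
      by_cases hsS : s ∈ S
      · refine le_trans (le_trans ?_ (le_iSup₂ (f := fun i (_ : i ∈ hfin.toFinset) =>
          (fun i => if i ∈ S then X i else ⊥) i) s ((Set.Finite.mem_toFinset _).2 hsS))) le_sup_left
        show _ ≤ (if s ∈ S then X s else ⊥)
        rw [if_pos hsS]
      · exact le_trans (hS s hs hsr hsS) le_sup_right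
  obtain ⟨s, hs, x, hx, hx1, y', hy', e⟩ := exists_component (Q := QQ cs h X r) (Z := E)
    (fun a ha b hb => hrE (H.comm_mem ha hb)) hE (fun i => if i ∈ S then X i else ⊥) (fun i => by
      show (if i ∈ S then X i else ⊥) ≤ _
      split_ifs with hi
      · exact H.X_le (hSG hi)
      · exact bot_le) hfin.toFinset (by rw [h1]; exact hy) hyE
  have hsS : s ∈ S := (Set.Finite.mem_toFinset _).1 hs
  refine ⟨s, hsS, x, ?_, hx1, y', ?_, e⟩
  · have h2 : x ∈ (if s ∈ S then X s else ⊥) := hx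
    rwa [if_pos hsS] at h2
  · refine sup_le_sup_right (iSup₂_le fun i hi => ?_) E hy'
    rw [Finset.mem_erase, Set.Finite.mem_toFinset] at hi
    show (if i ∈ S then X i else ⊥) ≤ _
    rw [if_pos hi.2]
    exact RGD.le_Sup (S := S \ {s}) ⟨hi.2, hi.1⟩

/-- the commutator with an element having a component in `S` is onto -/
theorem surj {y : Y} (hy : y ∈ QQ cs h X r) (hyr : y ∉ RGD.Sup X (Gt cs h r \ Sg)) {w : Y} (hw : w ∈ X r) :
    ∃ g ∈ QQ cs h X r, ⁅y, g⁆ = w := by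
  have hrS : r ∉ Sg := fun h0 => (H.SG r h0).2 rfl
  have hE : RGD.Sup X (Gt cs h r \ Sg) ≤ QQ cs h X r := RGD.Sup_mono Set.sdiff_subset
  have hrE : X r ≤ RGD.Sup X (Gt cs h r \ Sg) := RGD.le_Sup ⟨H.mem_Gt, hrS⟩
  obtain ⟨s, hs, x, hx, hx1, y', hy', rfl⟩ := H.exists_comp (E := RGD.Sup X (Gt cs h r \ Sg)) hrE hE
    (S := Sg) (fun s hs hsr hsS => RGD.le_Sup (S := Gt cs h r \ Sg) ⟨hs, hsS⟩) (fun s hs => (H.SG s hs).1) hy hyr
  obtain ⟨hsG, hsr⟩ := H.SG s hs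
  obtain ⟨v, hv, hvw⟩ := H.sur s hs x hx hx1 w hw
  have hr' := H.sub s hsG hsr
  have hne : r - s ≠ r := by
    intro h1
    exact hsG.1.ne_zero (by simpa using h1)
  refine ⟨v, H.X_le hr' hv, ?_⟩
  have h1 : RGD.Sup X (Sg \ {s}) ⊔ RGD.Sup X (Gt cs h r \ Sg) ≤ Subgroup.centralizer ({v} : Set Y) := by
    refine sup_le (RGD.Sup_le ?_) (RGD.Sup_le ?_)
    · rintro t ⟨ht, hts⟩ u hu
      have hts : t ≠ s := hts
      obtain ⟨htG, htr⟩ := H.SG t ht
      rw [Subgroup.mem_centralizer_iff]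
      rintro _ rfl
      refine (H.com t htG (r - s) hr' htr hne ?_ u hu _ hv).symm
      intro h2
      apply hts
      have : t = t + (r - s) - (r - s) := by abel
      rw [this, h2]; abel
    · rintro t ⟨ht, htS⟩ u hu
      rw [Subgroup.mem_centralizer_iff]
      rintro _ rfl
      exact (H.cenS t ht htS (r - s) hr' u hu _ hv).symm
  have h2 : v * y' = y' * v := Subgroup.mem_centralizer_iff.1 (h1 hy') v rfl
  rw [← hvw]
  simp only [commutatorElement_def]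
  have h3 : x * y' * v * (x * y')⁻¹ * v⁻¹ = x * (y' * v) * y'⁻¹ * x⁻¹ * v⁻¹ := by group
  rw [h3, ← h2]; group

end Hv

/-- The root groups with `⟨s, r^∨⟩ ≥ 0` normalise `Q`. -/
theorem X_norm_QQ' {R : RGD cs h p T n X} {r : I → ℤ} {Sg : Set (I → ℤ)} (H : Hv R r Sg) [Finite W] {s : I → ℤ}
    (hs : IsRoot cs h s) (h0 : 0 ≤ cpr cs h s r) {a b : Y} (ha : a ∈ X s) (hb : b ∈ QQ cs h X r) :
    a * b * a⁻¹ ∈ QQ cs h X r := by
  have h1 : QQ cs h X r ≤ (QQ cs h X r).comap (MulAut.conj a).toMonoidHom := by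
    refine RGD.Sup_le fun t ht v hv => ?_
    show a * v * a⁻¹ ∈ QQ cs h X r
    by_cases hst : s = t
    · subst hst
      exact mul_mem (mul_mem (H.X_le ht ha) (H.X_le ht hv)) (inv_mem (H.X_le ht ha))
    by_cases hst' : s = -t
    · exfalso
      rw [hst', ← neg_one_smul ℤ t, cpr_smul cs h _ _ H.L.root] at h0
      have := ht.2
      omega
    have h2 : a * v * a⁻¹ = ⁅a, v⁆ * v := by rw [commutatorElement_def]; group
    rw [h2]
    refine mul_mem ?_ (H.X_le ht hv)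
    refine (iSup_le ?_ : btw cs h X s t ≤ QQ cs h X r) (R.comm s t hs ht.1 hst hst' a ha v hv)
    rintro ⟨z, hz⟩
    obtain ⟨hz1, m, u, v, hm, hu, hv, he⟩ := hz
    refine H.X_le ⟨hz1, ?_⟩
    have h3 := congrArg (fun y => cpr cs h y r) he
    simp only [cpr_smul cs h _ _ H.L.root, cpr_add cs h _ _ H.L.root] at h3
    have h4 : 0 < v * cpr cs h t r := mul_pos hv ht.2
    have h5 : 0 ≤ u * cpr cs h s r := mul_nonneg hu.le h0
    by_contra h6
    push Not at h6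
    have h7 : m * cpr cs h z r ≤ 0 := mul_nonpos_of_nonneg_of_nonpos hm.le h6
    omega
  exact h1 hb

variable {Sg : Set (I → ℤ)}

theorem c2_of_hv {R : RGD cs h p T n X} {r : I → ℤ} {Sg : Set (I → ℤ)} [Finite W] (H : Hv R r Sg) : C2 (X r) (QQ cs h X r) :=
  ⟨H.X_le_QQ, fun _ hz _ hg => H.central hz hg, fun _ ha _ hb => H.comm_mem ha hb⟩

theorem ScR.sc' {R : RGD cs h p T n X} {r : I → ℤ} {Sg : Set (I → ℤ)} [Finite W] [Finite Y] (H : Hv R r Sg) {q : ℕ} {g : Y}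
    (S : ScR R r q g) : Sc q (X r) (QQ cs h X r) g := by
  have hQ : ∀ y ∈ QQ cs h X r, g * y * g⁻¹ ∈ QQ cs h X r := by
    have h1 : QQ cs h X r ≤ (QQ cs h X r).comap (MulAut.conj g).toMonoidHom :=
      RGD.Sup_le fun t ht v hv => H.X_le ht (S.nor t ht v hv)
    exact fun y hy => h1 hy
  have hZ : ∀ y ∈ X r, g * y * g⁻¹ ∈ X r := S.nor r H.mem_Gt
  refine ⟨S.two, hQ, hZ, ?_⟩
  intro i hi hiq
  refine free_of_surj (c2_of_hv H) (pow_inv hQ i) (pow_inv hZ i) (fun s : {s // s ∈ Gt cs h r ∧ s ≠ r} => X s.1)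
    (fun s => H.X_le s.2.1) (RGD.Sup_le fun s hs => ?_) ?_
  · by_cases hsr : s = r
    · subst hsr
      exact le_sup_left
    · exact (le_iSup (fun s : {s // s ∈ Gt cs h r ∧ s ≠ r} => X s.1) ⟨s, hs, hsr⟩).trans le_sup_right
  · rintro ⟨s, hs, hsr⟩ u hu
    obtain ⟨u', hu', h1⟩ := S.sur i hi hiq s hs hsr u hu
    exact ⟨u', H.X_le hs hu', h1⟩

theorem L0_comm' {R : RGD cs h p T n X} {r : I → ℤ} {Sg : Set (I → ℤ)} [Finite W] (H : Hv R r Sg) {x : Y} (hx : x ∈ L0 cs h X r) {z : Y}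
    (hz : z ∈ X r ⊔ X (-r)) : x * z = z * x := by
  have hr := H.L.root
  obtain ⟨w, hw⟩ : ∃ w : W, rep cs h w r = -r := by
    obtain ⟨v, i, rfl⟩ := hr
    refine ⟨Cfsg.Agent.Nodes.SubComb.rfl' cs v i, ?_⟩
    rw [rep_rfl'_eq, cpr_self cs h ((isRoot_sr cs h i).act v)]
    rw [two_smul]; abel
  have H' : LR R (-r) := by rw [← hw]; exact H.L.act w
  have h1 : X r ⊔ X (-r) ≤ Subgroup.centralizer (L0 cs h X r : Set Y) := by
    refine sup_le ?_ ?_
    · intro z hz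
      rw [Subgroup.mem_centralizer_iff]
      intro y hy
      exact H.L.comm' (RGD.Sup_mono (S' := Ge cs h r) (fun s hs => ⟨hs.1, hs.2.ge⟩) hy) hz
    · intro z hz
      rw [Subgroup.mem_centralizer_iff]
      intro y hy
      refine H'.comm' (RGD.Sup_mono (S' := Ge cs h (-r)) (fun s hs => ⟨hs.1, ?_⟩) hy) hz
      rw [cpr_neg_right cs h _ hr, hs.2, neg_zero]
  exact Subgroup.mem_centralizer_iff.1 (h1 hz) x hx

theorem L0_norm' {R : RGD cs h p T n X} {r : I → ℤ} {Sg : Set (I → ℤ)} [Finite W] [Finite Y] (H : Hv R r Sg) {x : Y} (hx : x ∈ L0 cs h X r) :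
    ∀ y ∈ QQ cs h X r, x * y * x⁻¹ ∈ QQ cs h X r := by
  have h1 : L0 cs h X r ≤ Subgroup.normalizer (QQ cs h X r : Set Y) := by
    refine RGD.Sup_le fun s hs a ha => norm_iff.2 fun b hb => X_norm_QQ' H hs.1 hs.2.ge ha hb
  exact fun y hy => norm_iff.1 (h1 hx) y hy

/-- `Q_r` and `Q_{-r}` generate. -/
theorem sup_QQ_eq_top' {R : RGD cs h p T n X} {r : I → ℤ} {Sg : Set (I → ℤ)} [Finite W] [Finite Y] (H : Hv R r Sg)
    (hs : IsSimpleGroup Y) (hG1 : Cfsg.Agent.Nodes.RGDLib.G1 cs h X = ⊤) :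
    QQ cs h X r ⊔ QQ cs h X (-r) = ⊤ := by
  have hr := H.L.root
  obtain ⟨m, hm, hmX⟩ := exists_refl R hr
  have hcjQ := cj_QQ (R := R) hr hmX
  have hX2 : ∀ s, IsRoot cs h s → s ∈ Gt cs h r ∨ cpr cs h s r = 0 ∨ s ∈ Gt cs h (-r) := by
    intro s hs
    rcases lt_trichotomy (cpr cs h s r) 0 with h0 | h0 | h0
    · exact Or.inr (Or.inr ⟨hs, by rw [cpr_neg_right cs h _ hr]; omega⟩)
    · exact Or.inr (Or.inl h0)
    · exact Or.inl ⟨hs, h0⟩
  rw [← hcjQ]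
  set K := QQ cs h X r ⊔ cj m (QQ cs h X r) with hK
  have hnorm : K.Normal := by
    have h1 : Cfsg.Agent.Nodes.RGDLib.G1 cs h X ≤ Subgroup.normalizer (K : Set Y) := by
      refine RGD.Sup_le fun s hs => ?_
      rcases hX2 s hs with h0 | h0 | h0
      · exact ((H.X_le h0).trans le_sup_left).trans Subgroup.le_normalizer
      · intro a ha
        have haL : a ∈ L0 cs h X r := RGD.le_Sup (S := {s | IsRoot cs h s ∧ cpr cs h s r = 0}) ⟨hs, h0⟩ ha
        have ham : a * m = m * a := L0_comm' H haL hm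
        have h2 := L0_norm' H haL
        refine norm_iff.2 ?_
        have h3 : K ≤ K.comap (MulAut.conj a).toMonoidHom := by
          refine sup_le (fun y hy => Subgroup.mem_sup_left (h2 y hy)) ?_
          rintro _ ⟨y, hy, rfl⟩
          show a * (m * y * m⁻¹) * a⁻¹ ∈ K
          have h4 : a * (m * y * m⁻¹) * a⁻¹ = m * (a * y * a⁻¹) * m⁻¹ := by
            calc a * (m * y * m⁻¹) * a⁻¹ = (a * m) * y * (a * m)⁻¹ := by group
              _ = (m * a) * y * (m * a)⁻¹ := by rw [ham]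
              _ = _ := by group
          rw [h4]
          exact Subgroup.mem_sup_right (conj_mem_cj.2 (h2 y hy))
        exact fun y hy => h3 hy
      · have h1 : X s ≤ cj m (QQ cs h X r) := by
          rw [hcjQ]
          exact RGD.le_Sup h0
        exact (h1.trans le_sup_right).trans Subgroup.le_normalizer
    rw [hG1, top_le_iff] at h1
    exact Subgroup.normalizer_eq_top_iff.1 h1
  rcases hs.eq_bot_or_eq_top_of_normal K hnorm with h1 | h1
  · exfalso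
    have h2 : X r ≤ K := H.X_le_QQ.trans le_sup_left
    rw [h1, le_bot_iff] at h2
    exact X_ne_bot R hr h2
  · exact h1

/-- **Elements of prime order in `L₀`.** -/
theorem exists_L0' {R : RGD cs h p T n X} {r : I → ℤ} {Sg : Set (I → ℤ)} [Finite W] [Finite Y] [Fact p.Prime] (H : Hv R r Sg)
    {ℓ N : ℕ} (hℓ : ℓ.Prime) (hℓp : ℓ ≠ p) (hN : N.Coprime ℓ) (hT : ∀ t ∈ T, t ^ N = 1)
    (hQp : IsPGroup p (QQ cs h X r)) (hd : ℓ ∣ Nat.card (PS T X (Ge cs h r))) :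
    ∃ x ∈ L0 cs h X r, orderOf x = ℓ := by
  have : Fact ℓ.Prime := ⟨hℓ⟩
  have hp : p.Prime := Fact.out
  obtain ⟨y, hy⟩ := exists_prime_orderOf_dvd_card' ℓ hd
  have hyo : orderOf (y : Y) = ℓ := by rw [Subgroup.orderOf_coe]; exact hy
  have hSup : PS T X (Ge cs h r) ≤ T ⊔ (L0 cs h X r ⊔ QQ cs h X r) := by
    refine sup_le_sup_left ?_ _
    refine RGD.Sup_le fun s hs => ?_
    rcases lt_or_eq_of_le hs.2 with h0 | h0
    · exact (RGD.le_Sup (S := Gt cs h r) ⟨hs.1, h0⟩).trans le_sup_right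
    · exact (RGD.le_Sup (S := {s | IsRoot cs h s ∧ cpr cs h s r = 0}) ⟨hs.1, h0.symm⟩).trans le_sup_left
  have hT1 : ∀ t ∈ T, ∀ y ∈ L0 cs h X r ⊔ QQ cs h X r, t * y * t⁻¹ ∈ L0 cs h X r ⊔ QQ cs h X r := by
    intro t ht
    have h1 : L0 cs h X r ⊔ QQ cs h X r ≤ (L0 cs h X r ⊔ QQ cs h X r).comap (MulAut.conj t).toMonoidHom := by
      refine sup_le ?_ ?_
      · intro y hy
        exact Subgroup.mem_sup_left (tor_Sup R (S := {s | IsRoot cs h s ∧ cpr cs h s r = 0}) (fun s hs => hs.1) ht y hy)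
      · intro y hy
        exact Subgroup.mem_sup_right (tor_Sup R (S := Gt cs h r) (fun s hs => hs.1) ht y hy)
    exact fun y hy => h1 hy
  have h2 := mem_right_of_coprime hT1 hN hT (hSup y.2) hyo
  refine exists_mem_left (N := p) (fun a ha b hb => L0_norm' H ha b hb) hℓ ((Nat.coprime_primes hp hℓ).2 hℓp.symm) ?_ h2 hyo
  intro b hb
  obtain ⟨s, hs⟩ := hQp ⟨b, hb⟩
  exact ⟨s, congrArg Subtype.val hs⟩

/-- **The Heisenberg lemma** for `Hv`. -/
theorem uGood_hv {R : RGD cs h p T n X} {r : I → ℤ} {Sg : Set (I → ℤ)} [Finite W] [Finite Y] [Fact p.Prime] (H : Hv R r Sg)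
    (hs : IsSimpleGroup Y) (hG1 : Cfsg.Agent.Nodes.RGDLib.G1 cs h X = ⊤)
    {q D ℓ k M' : ℕ} {g : Y} (S : ScR R r q g)
    (hℓ : ℓ.Prime) (hℓp : ℓ ≠ p) {x : Y} (hx : x ∈ L0 cs h X r) (hxk : x ^ ℓ ^ k = 1)
    (hne : ∃ w ∈ QQ cs h X r, ⁅x, w⁆ ∉ RGD.Sup X (Gt cs h r \ Sg))
    (hQp : IsPGroup p (QQ cs h X r))
    (hcard : Nat.card ↥(QQ cs h X r ⊓ Subgroup.centralizer {x}) < q ^ (D + 1) * Nat.card (X r))
    (hM : ∀ t : ℕ, t ≠ 0 → p ^ t ≡ 1 [MOD ℓ] → M' ≤ p ^ t) (hM1 : 1 ≤ M') :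
    UGood (D + 2) (M' + D + 1) x := by
  have hp : p.Prime := Fact.out
  have hr := H.L.root
  obtain ⟨m, hm, hmX⟩ := exists_refl R hr
  have hcj : cj m (X r) = X (-r) := by
    rw [hmX r hr, cpr_self cs h hr]
    congr 1
    rw [two_smul]; abel
  have hcjQ := cj_QQ (R := R) hr hmX
  have HYx : HY p (ℓ ^ k) (X r) (QQ cs h X r) x := by
    refine ⟨c2_of_hv H, ?_, hQp, hxk, ?_, ?_, L0_norm' H hx⟩
    · obtain ⟨w, hw, hwE⟩ := hne
      have h1 : ⁅x, w⁆ ∈ QQ cs h X r := by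
        rw [commutatorElement_def]
        exact mul_mem (L0_norm' H hx w hw) (inv_mem hw)
      exact ⟨w, hw, fun z hz => H.surj h1 hwE hz⟩
    · intro s
      exact Nat.Coprime.pow _ _ ((Nat.coprime_primes hℓ hp).2 hℓp)
    · intro z hz
      exact L0_comm' H hx (Subgroup.mem_sup_left hz)
  have hgen : QQ cs h X r ⊔ cc m (QQ cs h X r) = ⊤ := by
    rw [cc_eq_cj, hcjQ]
    exact sup_QQ_eq_top' H hs hG1
  refine heis_uGoodY hp hℓ rfl HYx (ScR.sc' H S) ?_ ?_ hgen (L0_comm' H hx hm).symm (L0_comm' H hx S.mem).symm hcard hM hM1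
  · rw [cc_eq_cj, hcj]; exact hm
  · rw [cc_eq_cj, hcj]
    exact S.mem

end Cfsg.Agent.H441.FPR.Heis
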