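import Cfsg.Agent.H441.FPR.BitR
import Cfsg.Agent.H441.FPR.Row
import Cfsg.Agent.H400.FprArith

/-!
# The rows of S3569 for the untwisted exceptional groups
-/

set_option autoImplicit false

namespace Cfsg.Agent.H441.FPR

open Cfsg.Lie Cfsg.Agent.H409

universe u

variable {K : Type u} [Field K] [Fintype K] {p : ℕ}

theorem weaken {Y : Type*} [Group Y] [Finite Y] (hp : p.Prime) (h : FprRow (p + 1) 1 p Y) :
    FprRow (2 * p - 1) (p - 1) p Y := Cfsg.Agent.H400.Fpr.Good.weaken hp h

variable (hp : p.Prime) (hpK : (p : K) ≠ 0)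

include hp hpK

/-- **`E₆(q)`** -/
theorem e6_row_all (hd : p ∣ Nat.card ↥(chevE6.group K)) : FprRow (2 * p - 1) (p - 1) p ↥(chevE6.group K) := by
  by_cases h6 : orderOf (Fintype.card K : ZMod p) = 6
  · exact weaken hp (Heis.e6_six hp hpK h6)
  · exact e6_row hp hpK hd h6

/-- **`E₇(q)`** -/
theorem e7_row_all (hd : p ∣ Nat.card ↥(chevE7.group K)) : FprRow (2 * p - 1) (p - 1) p ↥(chevE7.group K) :=
  e7_row hp hpK hd

/-- **`E₈(q)`** -/
theorem e8_row_all (hd : p ∣ Nat.card ↥(chevE8.group K)) : FprRow (2 * p - 1) (p - 1) p ↥(chevE8.group K) := by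
  by_cases h10 : orderOf (Fintype.card K : ZMod p) = 10
  · exact weaken hp (Bit.e8_all hp hpK (by rw [h10]; decide))
  by_cases h12 : orderOf (Fintype.card K : ZMod p) = 12
  · exact weaken hp (Bit.e8_all hp hpK (by rw [h12]; decide))
  · exact e8_row hp hpK hd h10 h12

/-- **`F₄(q)`** -/
theorem f4_row_all (hd : p ∣ Nat.card ↥(chevF4.group K)) : FprRow (2 * p - 1) (p - 1) p ↥(chevF4.group K) := by
  by_cases h2 : (2 : K) = 0
  · by_cases h6 : orderOf (Fintype.card K : ZMod p) = 6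
    · exact weaken hp (Heis.f4_six_even hp hpK h2 h6)
    · exact f4_row_even hp hpK h2 hd h6
  · by_cases h6 : orderOf (Fintype.card K : ZMod p) = 6
    · exact weaken hp (Heis.f4_heis hp hpK h2 (Or.inr h6))
    by_cases h4 : orderOf (Fintype.card K : ZMod p) = 4
    · exact weaken hp (Heis.f4_heis hp hpK h2 (Or.inl h4))
    · exact f4_row hp hpK hd h4 h6

end Cfsg.Agent.H441.FPR
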