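import Cfsg.Agent.H441.FPR.ETabD
import Cfsg.Agent.H441.FPR.ETabE
import Cfsg.Agent.H441.FPR.Row2

/-!
# S3578: order `5` in `E₆`, `E₇`, order `7` in `E₈`
-/

set_option autoImplicit false

namespace Cfsg.Agent.H441.FPR

open Cfsg.Lie Cfsg.Agent.H409

universe u

variable {K : Type u} [Field K] [Fintype K] {r0 : ℕ} [Fact r0.Prime] [CharP K r0] {p : ℕ} (hp : p.Prime)
  (hpK : (p : K) ≠ 0)

include hp hpK

theorem e6_five (ho : orderOf (Fintype.card K : ZMod p) = 5) : TR r0 p ↥(chevE6.group K) :=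
  CB.tr_ord Cfsg.Agent.Nodes.KindE.isType6 (n := 2) (by norm_num) rt6e.1 rt6e.2.1 rt6e.2.2.1 rt6e.2.2.2 t6e
        hp hpK (by omega) (by rw [ho])

theorem e7_five (ho : orderOf (Fintype.card K : ZMod p) = 5) : TR r0 p ↥(chevE7.group K) :=
  CB.tr_ord Cfsg.Agent.Nodes.KindE.isType7 (n := 2) (by norm_num) rt7e.1 rt7e.2.1 rt7e.2.2.1 rt7e.2.2.2 t7e
        hp hpK (by omega) (by rw [ho])

theorem e8_seven (ho : orderOf (Fintype.card K : ZMod p) = 7) : TR r0 p ↥(chevE8.group K) :=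
  CB.tr_ord Cfsg.Agent.Nodes.KindE.isType8 (n := 4) (by norm_num) rt8e.1 rt8e.2.1 rt8e.2.2.1 rt8e.2.2.2 t8e
        hp hpK (by omega) (by rw [ho])

end Cfsg.Agent.H441.FPR
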