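import Cfsg.Agent.H441.FPR.SLB
import Cfsg.Agent.ChevalleyStructure.BruhatSplit

/-!
# Torus elements
-/

set_option autoImplicit false
set_option maxRecDepth 100000

namespace Cfsg.Agent.H441.FPR

open Cfsg.Lie Cfsg.Agent.ChevalleyStructure Cfsg.Agent.ChevalleyStructure.Elts Cfsg.Agent.H79.SimpleGen Matrix
open Cfsg.Agent.H398.FPR Cfsg.Agent.TitsThree.KExcRT Cfsg.Agent.ChevalleyStructure.RootVec Cfsg.Agent.Nodes.RGDChev
open Cfsg.Agent.KFacts.RgdChevCoord
open Cfsg.Agent.FixBN.FieldRGD (uu vv dd ww)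

universe u

variable {K : Type u} [Field K] {D : ChevalleyDatum}

/-- the table check -/
structure TorOK (D : ChevalleyDatum) (i : ℕ) (S : List ℕ) (st : List (ℕ × ℕ)) : Prop where
  rk : i < D.rank
  pos : ∀ s ∈ S, D.IsPosRoot s ∧ D.IsNegRoot (D.neg s)
  lt : ∀ s ∈ S ++ S.map D.neg, s < D.nroots ∧ (D.cartan i s = 1 ∨ D.cartan i s = -1)
  refl : ∀ s ∈ S, D.reflectRoot i s ∈ S
  refl' : ∀ s ∈ S.map D.neg, D.reflectRoot i s ∈ S.map D.neg
  gen : AllS D (gal D [] [] (S ++ S.map D.neg) st)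

theorem mem_UG_single (hD : InList D) {s : ℕ} {y : ↥(D.group K)} :
    y ∈ UG hD K [s] ↔ ∃ t : K, y = xS hD s t := by
  constructor
  · intro hy
    let X : Subgroup ↥(D.group K) :=
      { carrier := {y | ∃ t : K, y = xS hD s t}
        one_mem' := ⟨0, (xS_zero hD s).symm⟩
        mul_mem' := by
          rintro _ _ ⟨t, rfl⟩ ⟨u, rfl⟩
          exact ⟨t + u, xS_mul hD s t u⟩
        inv_mem' := by
          rintro _ ⟨t, rfl⟩
          exact ⟨-t, xS_inv hD s t⟩ }
    have h1 : UG hD K [s] ≤ X := by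
      apply UG_le
      intro k hk t
      rw [List.mem_singleton.1 hk]
      exact ⟨t, rfl⟩
    exact h1 hy
  · rintro ⟨t, rfl⟩
    exact xS_mem_UG hD (List.mem_singleton.2 rfl) t

/-- a pair from an element acting by scalars -/
theorem pair_UG [Finite K] (hD : InList D) {r0 : ℕ} [Fact r0.Prime] {p j : ℕ} {x : ↥(D.group K)} {S : List ℕ}
    (hpg : IsPGroup r0 ↥(UG hD K S))
    (h1 : ∀ s ∈ S, ∀ t : K, x * xS hD s t * x⁻¹ ∈ UG hD K S)
    (h2 : ∀ s ∈ S, ∃ c : K, c ≠ 1 ∧ ∀ t : K, x ^ p ^ j * xS hD s t * (x ^ p ^ j)⁻¹ = xS hD s (c * t)) :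
    Pair p j x (UG hD K S) := by
  have hfin : Finite ↥(D.group K) := inferInstance
  refine ⟨hpg.isNilpotent, ?_, ?_⟩
  · apply mem_norm_of_conj
    have h3 : UG hD K S ≤ (UG hD K S).comap (MulAut.conj x).toMonoidHom := UG_le hD h1
    exact fun y hy => h3 hy
  · refine commFull_of_le_iSup (Q := fun s : {s // s ∈ S} => UG hD K [s.1]) ?_ ?_ ?_ ?_
    · rintro ⟨s, hs⟩
      apply UG_le
      intro k hk t
      rw [List.mem_singleton.1 hk]
      exact xS_mem_UG hD hs t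
    · apply UG_le
      intro s hs t
      exact (le_iSup (fun s : {s // s ∈ S} => UG hD K [s.1]) ⟨s, hs⟩)
        (xS_mem_UG hD (List.mem_singleton.2 rfl) t)
    · rintro ⟨s, hs⟩ y hy
      obtain ⟨t, rfl⟩ := (mem_UG_single hD).1 hy
      obtain ⟨c, -, hc⟩ := h2 s hs
      rw [hc]
      exact (mem_UG_single hD).2 ⟨_, rfl⟩
    · rintro ⟨s, hs⟩
      obtain ⟨c, hc1, hc⟩ := h2 s hs
      apply commFull_of_surj
      intro q hq
      obtain ⟨t, rfl⟩ := (mem_UG_single hD).1 hq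
      refine ⟨xS hD s (t / (c - 1)), (mem_UG_single hD).2 ⟨_, rfl⟩, ?_⟩
      rw [hc, xS_inv, xS_mul]
      congr 1
      have h5 : c - 1 ≠ 0 := sub_ne_zero.2 hc1
      field_simp
      ring

variable {l : ℕ} {M : CoxeterMatrix (Fin l)} (hp : IsType D l M)

include hp in
/-- **Torus elements.** -/
theorem TorOK.tr [Finite K] {r0 : ℕ} [Fact r0.Prime] [CharP K r0] {i : ℕ} {S : List ℕ} {st : List (ℕ × ℕ)}
    (T : TorOK D i S st) {p j k : ℕ} (hj : p = 2 → 1 ≤ j) {x : ↥(D.group K)} (hx : x ^ p ^ k = 1)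
    (hx1 : ∀ s ∈ S, ∀ t : K, x * xS hp.inList s t * x⁻¹ ∈ UG hp.inList K S)
    (hx2 : ∀ s ∈ S.map D.neg, ∀ t : K, x * xS hp.inList s t * x⁻¹ ∈ UG hp.inList K (S.map D.neg))
    {c : K} (hc0 : c ≠ 0) (hc : c ≠ 1)
    (hy : ((x ^ p ^ j : ↥(D.group K)) : GL D.Idx K) = hG hp.inList (D.simple i) c) : TR r0 p ↥(D.group K) := by
  have hfin : Finite ↥(D.group K) := inferInstance
  have key : ∀ s ∈ S ++ S.map D.neg, ∃ c : K, c ≠ 1 ∧
      ∀ t : K, x ^ p ^ j * xS hp.inList s t * (x ^ p ^ j)⁻¹ = xS hp.inList s (c * t) := by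
    intro s hs
    obtain ⟨h1, h2⟩ := T.lt s hs
    refine ⟨c ^ D.cartan i s, ?_, fun t => ?_⟩
    · rcases h2 with h2 | h2
      · rw [h2, zpow_one]; exact hc
      · rw [h2, _root_.zpow_neg_one]
        intro h3
        exact hc (by rw [← inv_inv c, h3, inv_one])
    · apply Subtype.ext
      have h3 := BruhatSplit.hG_simple_conj (F := K) hp.inList T.rk h1 hc0 t
      rw [← hy] at h3
      exact h3
  have hp1 : IsPGroup r0 ↥(UG hp.inList K S) := UG_pos hp.inList r0 fun k hk => (T.pos k hk).1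
  have hp2 : IsPGroup r0 ↥(UG hp.inList K (S.map D.neg)) := by
    refine UG_neg hp.inList r0 fun k hk => ?_
    obtain ⟨k', hk', rfl⟩ := List.mem_map.1 hk
    exact (T.pos k' hk').2
  refine ⟨j, k, x, _, _, hx, hj,
    pair_UG hp.inList hp1 hx1 fun s hs => key s (List.mem_append_left _ hs),
    pair_UG hp.inList hp2 hx2 fun s hs => key s (List.mem_append_right _ hs), hp1, hp2, ?_⟩
  obtain ⟨M, hM⟩ : ∃ M, M = Subgroup.closure (({x} ∪ (UG hp.inList K S : Set ↥(D.group K))) ∪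
    (UG hp.inList K (S.map D.neg) : Set ↥(D.group K))) := ⟨_, rfl⟩
  rw [← hM]
  have hS : ∀ k ∈ S ++ S.map D.neg, ∀ t : K, xS hp.inList k t ∈ M := by
    intro k hk t
    rw [hM]
    rcases List.mem_append.1 hk with hk | hk
    · exact Subgroup.subset_closure (Or.inl (Or.inr (xS_mem_UG hp.inList hk t)))
    · exact Subgroup.subset_closure (Or.inr (xS_mem_UG hp.inList hk t))
  have hfinal := gal_sound hp.inList (M := M) (L := []) (Γ := []) (fun r hr => absurd hr List.not_mem_nil) st hS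
  exact eq_top_of_simple hp.inList M (fun i hi => hfinal _ (T.gen i hi).1) (fun i hi => hfinal _ (T.gen i hi).2)

include hp in
/-- the case `p = 2` -/
theorem TorOK.tr_two [Finite K] {r0 : ℕ} [Fact r0.Prime] [CharP K r0] {i : ℕ} {S : List ℕ} {st : List (ℕ × ℕ)}
    (T : TorOK D i S st) (h2 : (2 : K) ≠ 0) : TR r0 2 ↥(D.group K) := by
  obtain ⟨φ, -, -, hφn, hφh, -⟩ := Cfsg.Agent.OddHalf.NI.ModelChev.exists_sl hp (K := K) (simple_lt hp.inList T.rk)
  have hw2 : (ww (1 : K) one_ne_zero) ^ 2 = dd (-1) (neg_ne_zero.2 one_ne_zero) := by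
    apply Subtype.ext
    rw [pow_two]
    change !![(0 : K), 1; -1⁻¹, 0] * !![(0 : K), 1; -1⁻¹, 0] = !![(-1 : K), 0; 0, (-1)⁻¹]
    ext a b
    fin_cases a <;> fin_cases b <;> simp [Matrix.mul_apply, Fin.sum_univ_two]
  have hw4 : (ww (1 : K) one_ne_zero) ^ 2 ^ 2 = 1 := by
    rw [show (2 ^ 2 : ℕ) = 2 * 2 from rfl, pow_mul, hw2]
    apply Subtype.ext
    rw [pow_two]
    change !![(-1 : K), 0; 0, (-1)⁻¹] * !![(-1 : K), 0; 0, (-1)⁻¹] = 1
    ext a b
    fin_cases a <;> fin_cases b <;> simp [Matrix.mul_apply, Fin.sum_univ_two]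
  have hn : φ (ww (1 : K) one_ne_zero) = nS hp.inList (D.simple i) 1 := Subtype.ext (hφn 1 one_ne_zero)
  have hconj : ∀ s, s < D.nroots → ∀ t : K, ∃ t' : K, φ (ww (1 : K) one_ne_zero) * xS hp.inList s t *
      (φ (ww (1 : K) one_ne_zero))⁻¹ = xS hp.inList (D.reflectRoot i s) t' := by
    intro s hs t
    refine ⟨((NSimple.eta D i s : ℤ) : K) * t, ?_⟩
    rw [hn, nS_mul_xS hp.inList T.rk hs, mul_inv_cancel_right]
  refine T.tr hp (p := 2) (j := 1) (k := 2) (fun _ => le_rfl) (x := φ (ww 1 one_ne_zero)) ?_ ?_ ?_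
    (c := -1) (neg_ne_zero.2 one_ne_zero) ?_ ?_
  · rw [← map_pow, hw4, map_one]
  · intro s hs t
    obtain ⟨t', ht'⟩ := hconj s (T.lt s (List.mem_append_left _ hs)).1 t
    rw [ht']
    exact xS_mem_UG hp.inList (T.refl s hs) t'
  · intro s hs t
    obtain ⟨t', ht'⟩ := hconj s (T.lt s (List.mem_append_right _ hs)).1 t
    rw [ht']
    exact xS_mem_UG hp.inList (T.refl' s hs) t'
  · intro h3
    apply h2
    have h4 : (2 : K) = 1 - (-1) := by norm_num
    rw [h4, h3, sub_self]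
  · rw [pow_one, ← map_pow, hw2]
    exact hφh (-1) (neg_ne_zero.2 one_ne_zero)

include hp in
/-- the case of an odd prime dividing `q - 1` -/
theorem TorOK.tr_one [Fintype K] {r0 : ℕ} [Fact r0.Prime] [CharP K r0] {i : ℕ} {S : List ℕ} {st : List (ℕ × ℕ)}
    (T : TorOK D i S st) {p : ℕ} (hp' : p.Prime) (hp2 : p ≠ 2) (h1 : p ∣ Fintype.card K - 1) :
    TR r0 p ↥(D.group K) := by
  classical
  have : Fact p.Prime := ⟨hp'⟩
  have h2 : p ∣ Fintype.card Kˣ := by rwa [Fintype.card_units]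
  obtain ⟨t, ht⟩ := exists_prime_orderOf_dvd_card p h2
  obtain ⟨φ, -, -, -, hφh, -⟩ := Cfsg.Agent.OddHalf.NI.ModelChev.exists_sl hp (K := K) (simple_lt hp.inList T.rk)
  have ht1 : (t : K) ≠ 1 := fun h => hp'.ne_one (by rw [← ht, orderOf_eq_one_iff]; exact Units.ext h)
  have htp : (t : K) ^ p = 1 := by rw [← Units.val_pow_eq_pow_val, ← ht, pow_orderOf_eq_one, Units.val_one]
  have hd : (dd (t : K) t.ne_zero) ^ p = 1 := by
    have h3 : ∀ m : ℕ, ((dd (t : K) t.ne_zero ^ m : SpecialLinearGroup (Fin 2) K) : Matrix (Fin 2) (Fin 2) K) =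
        !![(t : K) ^ m, 0; 0, ((t : K)⁻¹) ^ m] := by
      intro m
      induction m with
      | zero =>
        ext a b
        fin_cases a <;> fin_cases b <;> simp
      | succ m ih =>
        rw [pow_succ]
        change ((dd (t : K) t.ne_zero ^ m : SpecialLinearGroup (Fin 2) K) : Matrix (Fin 2) (Fin 2) K) *
          !![(t : K), 0; 0, (t : K)⁻¹] = _
        rw [ih]
        ext a b
        fin_cases a <;> fin_cases b <;> simp [Matrix.mul_apply, Fin.sum_univ_two, pow_succ]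
    apply Subtype.ext
    rw [h3, inv_pow, htp, inv_one]
    ext a b
    fin_cases a <;> fin_cases b <;> simp
  have hcoe : ((φ (dd (t : K) t.ne_zero) : ↥(D.group K)) : GL D.Idx K) = hG hp.inList (D.simple i) (t : K) :=
    hφh t t.ne_zero
  have hconj : ∀ s, s < D.nroots → ∀ u : K, φ (dd (t : K) t.ne_zero) * xS hp.inList s u *
      (φ (dd (t : K) t.ne_zero))⁻¹ = xS hp.inList s ((t : K) ^ D.cartan i s * u) := by
    intro s hs u
    apply Subtype.ext
    have h3 := BruhatSplit.hG_simple_conj (F := K) hp.inList T.rk hs t.ne_zero u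
    rw [← hcoe] at h3
    exact h3
  refine T.tr hp (p := p) (j := 0) (k := 1) (fun h => absurd h hp2) (x := φ (dd (t : K) t.ne_zero)) ?_ ?_ ?_
    (c := (t : K)) t.ne_zero ht1 ?_
  · rw [← map_pow, pow_one, hd, map_one]
  · intro s hs u
    rw [hconj s (T.lt s (List.mem_append_left _ hs)).1]
    exact xS_mem_UG hp.inList hs _
  · intro s hs u
    rw [hconj s (T.lt s (List.mem_append_right _ hs)).1]
    exact xS_mem_UG hp.inList hs _
  · rw [pow_zero, pow_one]
    exact hcoe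

end Cfsg.Agent.H441.FPR
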