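import Cfsg.Agent.H441.FPR.Even

/-!
# A noncentral `p`-element of the Levi subgroup
-/

set_option autoImplicit false
set_option maxRecDepth 100000

namespace Cfsg.Agent.H441.FPR

open Subgroup

/-- a group generated by `p'`-elements with order divisible by `p` has a noncentral `p`-element -/
theorem exists_noncentral {L : Type*} [Group L] [Finite L] {p : ℕ} [Fact p.Prime] (hdvd : p ∣ Nat.card L)
    {S : Set L} (hS : Subgroup.closure S = ⊤) (hS' : ∀ s ∈ S, ∃ m : ℕ, s ^ m = 1 ∧ p.Coprime m) :
    ∃ x : L, (∃ k : ℕ, x ^ p ^ k = 1) ∧ x ∉ Subgroup.center L := by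
  by_contra hcon
  push Not at hcon
  obtain ⟨P⟩ : Nonempty (Sylow p L) := inferInstance
  have hcen : (P : Subgroup L) ≤ Subgroup.center L := by
    intro x hx
    obtain ⟨k, hk⟩ := P.2 ⟨x, hx⟩
    exact hcon x ⟨k, congrArg Subtype.val hk⟩
  have hle : Subgroup.normalizer ((P : Subgroup L) : Set L) ≤ Subgroup.centralizer ((P : Subgroup L) : Set L) := by
    intro y _
    rw [Subgroup.mem_centralizer_iff]
    intro x hx
    exact (Subgroup.mem_center_iff.1 (hcen hx) y).symm
  have hker := MonoidHom.ker_transferSylow_isComplement' P hle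
  have htop : (MonoidHom.transferSylow P hle).ker = ⊤ := by
    rw [eq_top_iff, ← hS, Subgroup.closure_le]
    intro s hs
    obtain ⟨m, hm, hpm⟩ := hS' s hs
    change MonoidHom.transferSylow P hle s = 1
    obtain ⟨k, hk⟩ := P.2 (MonoidHom.transferSylow P hle s)
    have h1 : (MonoidHom.transferSylow P hle s) ^ m = 1 := by rw [← map_pow, hm, map_one]
    have h2 : orderOf (MonoidHom.transferSylow P hle s) ∣ Nat.gcd (p ^ k) m :=
      Nat.dvd_gcd (orderOf_dvd_of_pow_eq_one hk) (orderOf_dvd_of_pow_eq_one h1)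
    rw [(hpm.pow_left k), Nat.dvd_one, orderOf_eq_one_iff] at h2
    exact h2
  rw [htop] at hker
  have h3 := hker.card_mul_card
  rw [Subgroup.card_top] at h3
  have h4 : Nat.card (P : Subgroup L) = 1 := by
    have h5 : 0 < Nat.card L := Nat.card_pos
    exact Nat.eq_of_mul_eq_mul_left h5 (by rw [h3, mul_one])
  have h6 := P.dvd_card_of_dvd_card hdvd
  have h7 : p ∣ 1 := by rw [← h4]; exact h6
  exact (Fact.out : p.Prime).one_lt.ne' (Nat.dvd_one.1 h7)

/-! ### Transitivity on the nonzero vectors -/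

section Reach

variable {K : Type*} [Field K]

def mv27 (t : K) (v : Fin 4 → K) : Fin 4 → K := ![v 0, v 1 + t * v 0, v 2, v 3 + t * v 2]
def mv20 (t : K) (v : Fin 4 → K) : Fin 4 → K := ![v 0 + t * v 1, v 1, v 2 + t * v 3, v 3]
def mv25 (t : K) (v : Fin 4 → K) : Fin 4 → K := ![v 0, v 1, v 2 + t * v 1, v 3]
def mv22 (t : K) (v : Fin 4 → K) : Fin 4 → K := ![v 0, v 1 + t * v 2, v 2, v 3]

theorem reach {P : (Fin 4 → K) → Prop} (h0 : P ![1, 0, 0, 0]) (h27 : ∀ t v, P (mv27 t v) → P v)
    (h20 : ∀ t v, P (mv20 t v) → P v) (h25 : ∀ t v, P (mv25 t v) → P v) (h22 : ∀ t v, P (mv22 t v) → P v) :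
    ∀ v, v ≠ 0 → P v := by
  have a27 : ∀ t a b c d : K, P ![a, b + t * a, c, d + t * c] → P ![a, b, c, d] := fun t a b c d h => h27 t _ h
  have a20 : ∀ t a b c d : K, P ![a + t * b, b, c + t * d, d] → P ![a, b, c, d] := fun t a b c d h => h20 t _ h
  have a25 : ∀ t a b c d : K, P ![a, b, c + t * b, d] → P ![a, b, c, d] := fun t a b c d h => h25 t _ h
  have a22 : ∀ t a b c d : K, P ![a, b + t * c, c, d] → P ![a, b, c, d] := fun t a b c d h => h22 t _ h
  -- step 2
  have s1 : ∀ t : K, P ![1, t, 0, 0] := by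
    intro t
    apply a27 (-t)
    have e1 : t + -t * 1 = 0 := by ring
    have e2 : (0 : K) + -t * 0 = 0 := by ring
    rw [e1, e2]
    exact h0
  have s2 : ∀ t c : K, t ≠ 0 → P ![1, t, c, 0] := by
    intro t c ht
    apply a25 (-c / t)
    have e1 : c + -c / t * t = 0 := by field_simp; ring
    rw [e1]
    exact s1 t
  have s3 : ∀ c d : K, c ≠ 0 → P ![1, 0, c, d] := by
    intro c d hc
    by_cases hd : d = 0
    · subst hd
      apply a22 (1 / c)
      have e1 : 0 + 1 / c * c = 1 := by field_simp; ring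
      rw [e1]
      exact s2 1 c one_ne_zero
    · apply a27 (-d / c)
      have e1 : d + -d / c * c = 0 := by field_simp; ring
      rw [e1]
      refine s2 _ _ ?_
      rw [zero_add, mul_one]
      exact div_ne_zero (neg_ne_zero.2 hd) hc
  have s4 : ∀ c d : K, P ![1, 0, c, d] := by
    intro c d
    by_cases hc : c = 0
    · subst hc
      by_cases hd : d = 0
      · subst hd
        exact h0
      · apply a20 1
        have e1 : (1 : K) + 1 * 0 = 1 := by ring
        have e2 : (0 : K) + 1 * d = d := by ring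
        rw [e1, e2]
        exact s3 d d hd
    · exact s3 c d hc
  have s5 : ∀ a b c d : K, b ≠ 0 → P ![a, b, c, d] := by
    intro a b c d hb
    apply a20 ((1 - a) / b)
    have e1 : a + (1 - a) / b * b = 1 := by field_simp; ring
    rw [e1]
    apply a27 (-b)
    have e2 : b + -b * 1 = 0 := by ring
    rw [e2]
    exact s4 _ _
  have s6 : ∀ a c d : K, a ≠ 0 → P ![a, 0, c, d] := by
    intro a c d ha
    apply a27 (1 / a)
    refine s5 _ _ _ _ ?_
    have e1 : 0 + 1 / a * a = 1 := by field_simp; ring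
    rw [e1]
    exact one_ne_zero
  intro v hv
  have hv4 : v = ![v 0, v 1, v 2, v 3] := by
    funext i
    fin_cases i <;> rfl
  rw [hv4]
  by_cases h1 : v 1 = 0
  · by_cases h2 : v 0 = 0
    · by_cases h3 : v 2 = 0
      · have h4 : v 3 ≠ 0 := by
          intro h4
          apply hv
          rw [hv4, h1, h2, h3, h4]
          funext i
          fin_cases i <;> rfl
        apply a20 1
        apply a22 1
        refine s5 _ _ _ _ ?_
        rw [h1, h3, zero_add, zero_add, one_mul, one_mul]
        exact h4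
      · apply a22 1
        refine s5 _ _ _ _ ?_
        rw [h1, zero_add, one_mul]
        exact h3
    · rw [h1]
      exact s6 _ _ _ h2
  · exact s5 _ _ _ _ h1

end Reach

end Cfsg.Agent.H441.FPR
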